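import Mathlib
import Cfsg.Prelude.Def_Transfer
import Cfsg.Prelude.Def_TwoFusion
import Cfsg.Prelude.Def_Local

/-!
# S3313 (simple group with the Hall-Janko involution pattern has order 604800): the pieces

Thompson order formula for the two classes of involutions `z`, `t`:
`|G| = |C(t)| * a(z) + |C(z)| * a(t)`, where `a(u)` counts the pairs `(x, y)`, `x` conjugate to `z`,
`y` conjugate to `t`, with `u` a power of `x * y`.  Here `|C(z)| = 1920`, `|C(t)| = 240`,
`a(t) = 195`, `a(z) = 960`, so `|G| = 240 * 960 + 1920 * 195 = 604800`.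

`HJ z t Q K V B` is the elementwise form of the hypotheses: `C(z) = Q K`, `Q = O_2(C(z))`
extraspecial of order 32 with centre `{1, z}`, self-centralizing in `C(z)`, `K` a complement
isomorphic to `A5`; `C(t) = V × B`, `V` a four-group containing `t`, `B` isomorphic to `A5`;
fusion of involutions as in the statement.
-/

set_option autoImplicit false

namespace Cfsg.Agent.Lib.Helper60.HJStmt

universe u

/-- The elementwise context. -/
structure HJ {G : Type u} [Group G] (z t : G) (Q K V B : Subgroup G) : Prop where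
  hz : orderOf z = 2
  ht : orderOf t = 2
  hzt : ¬ IsConj z t
  hcl : ∀ x : G, orderOf x = 2 → IsConj x z ∨ IsConj x t
  Q_le : ∀ q ∈ Q, q * z = z * q
  K_le : ∀ k ∈ K, k * z = z * k
  Q_norm : ∀ c : G, c * z = z * c → ∀ q ∈ Q, c * q * c⁻¹ ∈ Q
  Q_card : Nat.card Q = 32
  QK : ∀ c : G, c * z = z * c → ∃ q ∈ Q, ∃ k ∈ K, c = q * k
  QK_inf : ∀ x ∈ Q, x ∈ K → x = 1
  hK : Nonempty (↥K ≃* alternatingGroup (Fin 5))
  z_mem : z ∈ Q
  Q_sq : ∀ q ∈ Q, q * q = 1 ∨ q * q = z
  Q_comm : ∀ a ∈ Q, ∀ b ∈ Q, a * b = b * a ∨ a * b = z * (b * a)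
  Q_center : ∀ c ∈ Q, (∀ q ∈ Q, c * q = q * c) → c = 1 ∨ c = z
  Q_cent : ∀ c : G, c * z = z * c → (∀ q ∈ Q, c * q = q * c) → c ∈ Q
  hQz : ∀ x ∈ Q, orderOf x = 2 → IsConj x z
  hCz : ∀ x : G, x * z = z * x → orderOf x = 2 → x ∉ Q → IsConj x t
  V_le : ∀ v ∈ V, v * t = t * v
  B_le : ∀ b ∈ B, b * t = t * b
  VB_comm : ∀ v ∈ V, ∀ b ∈ B, v * b = b * v
  VB_inf : ∀ x ∈ V, x ∈ B → x = 1
  VB : ∀ d : G, d * t = t * d → ∃ v ∈ V, ∃ b ∈ B, d = v * b
  V_card : Nat.card V = 4
  V_sq : ∀ v ∈ V, v * v = 1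
  t_mem : t ∈ V
  hB : Nonempty (↥B ≃* alternatingGroup (Fin 5))
  hBz : ∀ x ∈ B, orderOf x = 2 → IsConj x z
  hCt : ∀ x : G, x * t = t * x → orderOf x = 2 → x ∉ B → IsConj x t

/-! ### General pieces (Mathlib only) -/

/-- INV1. Two non-conjugate involutions of a finite group: exactly one involution is a power of
their product. (`x * y` has even order `2m`, else `x`, `y` are conjugate in the dihedral group;
the involution is `(x * y) ^ m`.) -/
def Inv1 : Prop :=
  ∀ (G : Type u) [Group G] [Finite G] (x y : G), orderOf x = 2 → orderOf y = 2 → ¬ IsConj x y →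
    ∃ w : G, orderOf w = 2 ∧ (∃ n : ℕ, (x * y) ^ n = w) ∧
      ∀ v : G, orderOf v = 2 → (∃ n : ℕ, (x * y) ^ n = v) → v = w

/-- ORDF. Thompson order formula. With `X`, `Y` the classes of `z`, `t`: every pair in `X × Y`
determines (INV1) one involution `w`, a power of `x * y`, conjugate to `z` or to `t`; the number of
pairs with a given `w` depends only on the class of `w`; so
`|X| |Y| = |X| a(z) + |Y| a(t)`, and `|X| |C(z)| = |G| = |Y| |C(t)|`. -/
def OrdF : Prop :=
  Inv1.{u} → ∀ (G : Type u) [Group G] [Finite G] (z t : G), orderOf z = 2 → orderOf t = 2 →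
    ¬ IsConj z t → (∀ x : G, orderOf x = 2 → IsConj x z ∨ IsConj x t) →
    Nat.card G =
      Nat.card (Subgroup.centralizer ({t} : Set G)) *
          Nat.card {p : G × G // IsConj p.1 z ∧ IsConj p.2 t ∧ ∃ n : ℕ, (p.1 * p.2) ^ n = z} +
        Nat.card (Subgroup.centralizer ({z} : Set G)) *
          Nat.card {p : G × G // IsConj p.1 z ∧ IsConj p.2 t ∧ ∃ n : ℕ, (p.1 * p.2) ^ n = t}

/-- DC. Double counting of the commuting pairs `(x, y)`, `x` conjugate to `z`, `y` conjugate to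
`t`. -/
def DC : Prop :=
  ∀ (G : Type u) [Group G] [Finite G] (z t : G),
    Nat.card (Subgroup.centralizer ({t} : Set G)) * Nat.card {y : G // IsConj y t ∧ y * z = z * y} =
      Nat.card (Subgroup.centralizer ({z} : Set G)) * Nat.card {x : G // IsConj x z ∧ x * t = t * x}

/-- A5CNT. In `A5` there are 195 ordered pairs of involutions with product of odd order
(`15 * (1 + 4 + 8)`). -/
def A5Cnt : Prop :=
  Nat.card {p : alternatingGroup (Fin 5) × alternatingGroup (Fin 5) //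
    orderOf p.1 = 2 ∧ orderOf p.2 = 2 ∧ ¬ 2 ∣ orderOf (p.1 * p.2)} = 195

/-- A5INV. `A5` has 15 involutions; an involution commutes with exactly 2 other involutions;
`A5` has an element of order 5. -/
def A5Inv : Prop :=
  Nat.card {x : alternatingGroup (Fin 5) // orderOf x = 2} = 15 ∧
    (∀ a : alternatingGroup (Fin 5), orderOf a = 2 →
      Nat.card {x : alternatingGroup (Fin 5) // orderOf x = 2 ∧ x * a = a * x ∧ x ≠ a} = 2) ∧
    ∃ k : alternatingGroup (Fin 5), orderOf k = 5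

/-- ESA. An extraspecial group of order 32 (elementwise data, centre `{1, z}`) has 12 or 20
elements of square 1; if 12 (minus type), it has no elementary abelian subgroup of order 8:
two commuting involutions `x`, `w` other than `z` satisfy `w = x` or `w = x * z`. -/
def ESA : Prop :=
  ∀ (E : Type u) [Group E] [Finite E] (z : E), Nat.card E = 32 → z ≠ 1 → z * z = 1 →
    (∀ q : E, z * q = q * z) → (∀ q : E, q * q = 1 ∨ q * q = z) →
    (∀ a b : E, a * b = b * a ∨ a * b = z * (b * a)) →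
    (∀ c : E, (∀ q : E, c * q = q * c) → c = 1 ∨ c = z) →
    (Nat.card {q : E // q * q = 1} = 12 ∨ Nat.card {q : E // q * q = 1} = 20) ∧
      (Nat.card {q : E // q * q = 1} = 12 → ∀ x w : E, x * x = 1 → w * w = 1 → x * w = w * x →
        x = 1 ∨ w = 1 ∨ x = z ∨ w = z ∨ w = x ∨ w = x * z)

/-- ESB. A group of order 32 with centre `{1, z}` and a nontrivial automorphism `α` with
`α ^ 5 = 1`: the fixed points of `α` form a subgroup of order 2 (`32 - 2 ^ j` divisible by 5), so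
the number of elements of square 1 is `2` mod `5`. -/
def ESB : Prop :=
  ∀ (E : Type u) [Group E] [Finite E] (z : E) (α : E ≃* E), Nat.card E = 32 → z ≠ 1 →
    (∀ c : E, (∀ q : E, c * q = q * c) ↔ (c = 1 ∨ c = z)) →
    (∀ q : E, α (α (α (α (α q)))) = q) → (∃ q : E, α q ≠ q) →
    Nat.card {q : E // q * q = 1} % 5 = 2

/-! ### Pieces in the context `HJ` -/

/-- CTX. The hypotheses of S3313 give the elementwise context, with `Q` the image of `O_2(C(z))`.
(`F*(C)` is a 2-group, so `F*(C) = O_2(C)` and `C_C(O_2(C)) ≤ O_2(C)`: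
`Cfsg.Agent.Lib.Helper30.NoComp`; elementwise extraspecial data: `Cfsg.Agent.Lib.Helper90.Extraspecial`.) -/
def Ctx : Prop :=
  ∀ (G : Type u) [Group G] [Finite G] [IsSimpleGroup G] (_hna : ¬ IsMulCommutative G) (z t : G)
    (_hz : orderOf z = 2) (_ht : orderOf t = 2)
    (_hzt : ¬ IsConj z t) (_hcl : ∀ x : G, orderOf x = 2 → IsConj x z ∨ IsConj x t)
    (_hex : Cfsg.IsExtraspecial 2 ↥(Cfsg.generalizedFittingSubgroup ↥(Subgroup.centralizer ({z} : Set G))))
    (_hQ : Nat.card ↥(Cfsg.pCore 2 ↥(Subgroup.centralizer ({z} : Set G))) = 32)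
    (K : Subgroup G) (_hK : Nonempty (↥K ≃* alternatingGroup (Fin 5)))
    (_hKC : K ⊔ (Cfsg.pCore 2 ↥(Subgroup.centralizer ({z} : Set G))).map (Subgroup.centralizer ({z} : Set G)).subtype = Subgroup.centralizer ({z} : Set G))
    (_hKQ : K ⊓ (Cfsg.pCore 2 ↥(Subgroup.centralizer ({z} : Set G))).map (Subgroup.centralizer ({z} : Set G)).subtype = ⊥)
    (_hQz : ∀ x ∈ (Cfsg.pCore 2 ↥(Subgroup.centralizer ({z} : Set G))).map (Subgroup.centralizer ({z} : Set G)).subtype, orderOf x = 2 → IsConj x z)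
    (_hCz : ∀ x ∈ Subgroup.centralizer ({z} : Set G), orderOf x = 2 →
      x ∉ (Cfsg.pCore 2 ↥(Subgroup.centralizer ({z} : Set G))).map (Subgroup.centralizer ({z} : Set G)).subtype → IsConj x t)
    (V B : Subgroup G) (_hVB : Cfsg.IsInternalDirectProduct V B (Subgroup.centralizer ({t} : Set G)))
    (_hV : Nat.card ↥V = 4) (_hV2 : ∀ v ∈ V, v ^ 2 = 1) (_htV : t ∈ V) (_hB : Nonempty (↥B ≃* alternatingGroup (Fin 5)))
    (_hBz : ∀ x ∈ B, orderOf x = 2 → IsConj x z)
    (_hCt : ∀ x ∈ Subgroup.centralizer ({t} : Set G), orderOf x = 2 → x ∉ B → IsConj x t),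
    HJ z t ((Cfsg.pCore 2 ↥(Subgroup.centralizer ({z} : Set G))).map (Subgroup.centralizer ({z} : Set G)).subtype) K V B

/-- CARD. `|C(z)| = 32 * 60`, `|C(t)| = 4 * 60`. -/
def Card : Prop :=
  ∀ (G : Type u) [Group G] [Finite G] (z t : G) (Q K V B : Subgroup G), HJ z t Q K V B →
    Nat.card (Subgroup.centralizer ({z} : Set G)) = 1920 ∧
      Nat.card (Subgroup.centralizer ({t} : Set G)) = 240

/-- AT. `a(t) = 195`: the pairs are `(x, t * b)` with `x`, `b` involutions of `B` and `x * b` of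
odd order. -/
def AT : Prop :=
  A5Cnt → ∀ (G : Type u) [Group G] [Finite G] (z t : G) (Q K V B : Subgroup G), HJ z t Q K V B →
    Nat.card {p : G × G // IsConj p.1 z ∧ IsConj p.2 t ∧ ∃ n : ℕ, (p.1 * p.2) ^ n = t} = 195

/-- XT. The conjugates of `z` in `C(t)` are the 15 involutions of `B`; each of them commutes with
exactly 2 others. -/
def XT : Prop :=
  A5Inv → ∀ (G : Type u) [Group G] [Finite G] (z t : G) (Q K V B : Subgroup G), HJ z t Q K V B →
    Nat.card {x : G // IsConj x z ∧ x * t = t * x} = 15 ∧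
      ∀ z' : G, IsConj z' z → z' * t = t * z' →
        Nat.card {x : G // IsConj x z ∧ x * t = t * x ∧ x * z' = z' * x ∧ x ≠ z'} = 2

/-- N2. `C(z)` has 120 involutions outside `Q` (they are the conjugates of `t` in `C(z)`; DC with
`240 * n = 1920 * 15`). -/
def N2 : Prop :=
  DC.{u} → ∀ (G : Type u) [Group G] [Finite G] (z t : G) (Q K V B : Subgroup G), HJ z t Q K V B →
    Nat.card (Subgroup.centralizer ({z} : Set G)) = 1920 →
    Nat.card (Subgroup.centralizer ({t} : Set G)) = 240 →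
    Nat.card {x : G // IsConj x z ∧ x * t = t * x} = 15 →
    Nat.card {y : G // y * z = z * y ∧ orderOf y = 2 ∧ y ∉ Q} = 120

/-- F1. An involution `y` of `C(z)` outside `Q` commutes with exactly 2 involutions of `Q` other
than `z` (conjugate `y` to `t`; the involutions of `Q` are the conjugates of `z` in `C(z)`). -/
def F1 : Prop :=
  ∀ (G : Type u) [Group G] [Finite G] (z t : G) (Q K V B : Subgroup G), HJ z t Q K V B →
    (∀ z' : G, IsConj z' z → z' * t = t * z' →
      Nat.card {x : G // IsConj x z ∧ x * t = t * x ∧ x * z' = z' * x ∧ x ≠ z'} = 2) →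
    ∀ y : G, y * z = z * y → orderOf y = 2 → y ∉ Q →
      Nat.card {x : G // x ∈ Q ∧ orderOf x = 2 ∧ x ≠ z ∧ x * y = y * x} = 2

/-- QINV. `Q` has 11 involutions and no elementary abelian subgroup of order 8 (ESA, ESB with
`E = ↥Q` and `α` = conjugation by an element of order 5 of `K`, nontrivial by `Q_cent`,
`QK_inf`). -/
def QInv : Prop :=
  ESA.{u} → ESB.{u} → (∃ k : alternatingGroup (Fin 5), orderOf k = 5) →
    ∀ (G : Type u) [Group G] [Finite G] (z t : G) (Q K V B : Subgroup G), HJ z t Q K V B →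
      Nat.card {x : G // x ∈ Q ∧ orderOf x = 2} = 11 ∧
        ∀ x w : G, x ∈ Q → w ∈ Q → orderOf x = 2 → orderOf w = 2 → x * w = w * x →
          x = z ∨ w = z ∨ w = x ∨ w = x * z

/-- F4. For an involution `x ≠ z` of `Q` and an involution `y` of `C(z)` outside `Q` that do not
commute, `z` is a power of `x * y`: `(x * y) ^ 2 = x * (y * x * y⁻¹)` is `z` or of order 4. -/
def F4 : Prop :=
  ∀ (G : Type u) [Group G] [Finite G] (z t : G) (Q K V B : Subgroup G), HJ z t Q K V B →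
    (∀ x w : G, x ∈ Q → w ∈ Q → orderOf x = 2 → orderOf w = 2 → x * w = w * x →
      x = z ∨ w = z ∨ w = x ∨ w = x * z) →
    ∀ x y : G, x ∈ Q → orderOf x = 2 → x ≠ z → y * z = z * y → orderOf y = 2 → y ∉ Q →
      x * y ≠ y * x → ∃ n : ℕ, (x * y) ^ n = z

/-- AZSET. The pairs counted by `a(z)`. -/
def AZSet : Prop :=
  ∀ (G : Type u) [Group G] [Finite G] (z t : G) (Q K V B : Subgroup G), HJ z t Q K V B →
    (∀ x y : G, x ∈ Q → orderOf x = 2 → x ≠ z → y * z = z * y → orderOf y = 2 → y ∉ Q →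
      x * y ≠ y * x → ∃ n : ℕ, (x * y) ^ n = z) →
    ∀ p : G × G, (IsConj p.1 z ∧ IsConj p.2 t ∧ ∃ n : ℕ, (p.1 * p.2) ^ n = z) ↔
      (p.1 ∈ Q ∧ orderOf p.1 = 2 ∧ p.1 ≠ z ∧ p.2 * z = z * p.2 ∧ orderOf p.2 = 2 ∧ p.2 ∉ Q ∧
        p.1 * p.2 ≠ p.2 * p.1)

/-- AZCNT. Pure counting: `120 * (10 - 2) = 960`. -/
def AZCnt : Prop :=
  ∀ (G : Type u) [Group G] [Finite G] (z : G) (Q : Subgroup G), z ∈ Q → orderOf z = 2 →
    Nat.card {x : G // x ∈ Q ∧ orderOf x = 2} = 11 →
    Nat.card {y : G // y * z = z * y ∧ orderOf y = 2 ∧ y ∉ Q} = 120 →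
    (∀ y : G, y * z = z * y → orderOf y = 2 → y ∉ Q →
      Nat.card {x : G // x ∈ Q ∧ orderOf x = 2 ∧ x ≠ z ∧ x * y = y * x} = 2) →
    Nat.card {p : G × G // p.1 ∈ Q ∧ orderOf p.1 = 2 ∧ p.1 ≠ z ∧ p.2 * z = z * p.2 ∧
      orderOf p.2 = 2 ∧ p.2 ∉ Q ∧ p.1 * p.2 ≠ p.2 * p.1} = 960

end Cfsg.Agent.Lib.Helper60.HJStmt
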