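import Mathlib
import Cfsg.Agent.Lib.Helper40.GFStmt

set_option autoImplicit false

/-! Piece GLTRANS of S5886 (helper60): `GL_k(L)` is transitive on nonzero vectors (a scalar map or
a transvection). -/

namespace Cfsg.Agent.Lib.Helper60.GFGLTRANS

open Cfsg.Agent.Lib.Helper40.GFStmt

universe u

theorem main : GLTrans.{u} := by
  intro L _ k x y hx hy
  by_cases hxy : ∃ a : L, y = a • x
  · obtain ⟨a, rfl⟩ := hxy
    have ha : a ≠ 0 := by
      rintro rfl
      exact hy (zero_smul _ _)
    exact ⟨LinearEquiv.smulOfNeZero L (V k L) a ha, rfl⟩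
  · push_neg at hxy
    have hnot : x ∉ Submodule.span L {y - x} := by
      intro hmem
      rw [Submodule.mem_span_singleton] at hmem
      obtain ⟨c, hc⟩ := hmem
      have hc0 : c ≠ 0 := by
        rintro rfl
        rw [zero_smul] at hc
        exact hx hc.symm
      apply hxy (1 + c⁻¹)
      have h1 : y - x = c⁻¹ • x := by
        rw [eq_inv_smul_iff₀ hc0]
        exact hc
      rw [add_smul, one_smul, ← h1]
      abel
    obtain ⟨f, hfx, hfmap⟩ := Submodule.exists_dual_map_eq_bot_of_notMem hnot inferInstance
    have hf0 : f (y - x) = 0 := by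
      have h1 : f (y - x) ∈ (Submodule.span L {y - x}).map f :=
        Submodule.mem_map_of_mem (Submodule.mem_span_singleton_self _)
      rw [hfmap] at h1
      exact (Submodule.mem_bot L).mp h1
    have hu : f ((f x)⁻¹ • (y - x)) = 0 := by
      rw [map_smul, hf0, smul_zero]
    refine ⟨LinearEquiv.transvection hu, ?_⟩
    rw [LinearEquiv.transvection.apply, smul_smul, mul_inv_cancel₀ hfx, one_smul]
    abel

end Cfsg.Agent.Lib.Helper60.GFGLTRANS
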