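import Mathlib
import Cfsg.Agent.Lib.Helper40.GFStmt

set_option autoImplicit false

/-! Piece START of S5886 (helper60). -/

namespace Cfsg.Agent.Lib.Helper60.GFSTART

open Cfsg.Agent.Lib.Helper40.GFStmt

universe u

theorem main : Start.{u} := by
  intro F L _ _ _ _ k g hg
  push_neg at hg
  obtain ⟨x, hx⟩ := hg
  unfold LineAt at hx
  push_neg at hx
  obtain ⟨a, ha⟩ := hx
  have hv : g x ≠ 0 := by
    intro h0
    apply ha 0
    have hx0 : x = 0 := g.map_eq_zero_iff.mp h0
    rw [hx0, smul_zero, map_zero, smul_zero]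
  refine ⟨x, g x, hv, ?_⟩
  have h1 : (1 : L) ∈ Zsub g x (g x) := by
    rw [mem_Zsub]
    exact ⟨1, by rw [one_smul, one_smul]⟩
  have h2 : a ∉ Zsub g x (g x) := by
    rw [mem_Zsub]
    push_neg
    exact ha
  have hpos : 0 < Module.finrank F (Zsub g x (g x)) := by
    rw [Module.finrank_pos_iff_exists_ne_zero]
    exact ⟨⟨1, h1⟩, fun h => one_ne_zero (congrArg Subtype.val h)⟩
  have hlt : Module.finrank F (Zsub g x (g x)) < Module.finrank F L := by
    apply Submodule.finrank_lt
    intro htop
    apply h2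
    rw [htop]
    exact Submodule.mem_top
  unfold rk
  omega

end Cfsg.Agent.Lib.Helper60.GFSTART
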