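import Cfsg.Agent.Lib.Helper60.GL4Iso

set_option autoImplicit false

/-!
# GL(4,2) (helper60): putting the certificates of a family together
-/

namespace Cfsg.Agent.Lib.Helper60.GL4

theorem forall_nil {P : List ℕ × ℕ → Prop} : ∀ q ∈ ([] : List (List ℕ × ℕ)), P q :=
  fun _ hq => absurd hq List.not_mem_nil

theorem forall_cons {P : List ℕ × ℕ → Prop} {a : List ℕ × ℕ} {l : List (List ℕ × ℕ)}
    (h : P a) (hl : ∀ q ∈ l, P q) : ∀ q ∈ a :: l, P q :=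
  List.forall_mem_cons.2 ⟨h, hl⟩

theorem FamOK.nil : FamOK [] := fun _ hq => absurd hq List.not_mem_nil

theorem FamOK.cons {gs : List ℕ} {n T mask : ℕ} {fam : List (List ℕ × ℕ)}
    (h : Cert gs n T mask) (hf : FamOK fam) : FamOK ((gs, mask) :: fam) :=
  List.forall_mem_cons.2 ⟨h.famOK, hf⟩

/-- the step property of a member -/
def StepP (p x0 : ℕ) (fam : List (List ℕ × ℕ)) (q : List ℕ × ℕ) : Prop :=
  ∀ g : G, (g ^ p = 1 ∨ ∀ x ∈ KG [x0], g * x * g⁻¹ ∈ KG [x0]) →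
    ∃ q' ∈ fam, KG q.1 ⊔ Subgroup.zpowers g = KG q'.1

/-- the outcome for a member -/
def Out (d : ℕ) (q : List ℕ × ℕ) : Prop :=
  Bad (KG q.1) ∨ Good (KG q.1) ∨ d ∣ Nat.card (KG q.1)

theorem out_div {d : ℕ} {gs : List ℕ} {n C mask : ℕ} (h : Cert gs n C mask) (hd : d ∣ n) :
    d ∣ Nat.card (KG gs) := by
  rw [h.card]; exact hd

theorem all_of_fam (p d : ℕ) [Fact p.Prime] (hp : p = 5 ∨ p = 7) (x0 : ℕ)
    (fam : List (List ℕ × ℕ)) (M0 : ℕ) (hq0 : ([x0], M0) ∈ fam)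
    (hcard : Nat.card (KG [x0]) = p) (hstep : ∀ q ∈ fam, StepP p x0 fam q)
    (hout : ∀ q ∈ fam, Out d q) (K : Subgroup G) (hK : KG [x0] ≤ K) :
    Bad K ∨ Good K ∨ d ∣ Nat.card K := by
  have hp2 : ¬ p ^ 2 ∣ Nat.card G := by
    rw [card_G]
    rcases hp with rfl | rfl <;> norm_num
  obtain ⟨q, hq, e⟩ := fam_complete p hp2 fam ([x0], M0) hq0 hcard hstep K hK
  rw [e]
  exact hout q hq

/-- the final statement for one prime -/
theorem final_of_fam (p d : ℕ) [Fact p.Prime] (hp : p = 5 ∨ p = 7) (x0 : ℕ)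
    (fam : List (List ℕ × ℕ)) (M0 : ℕ) (hq0 : ([x0], M0) ∈ fam)
    (hcard : Nat.card (KG [x0]) = p) (hstep : ∀ q ∈ fam, StepP p x0 fam q)
    (hout : ∀ q ∈ fam, Out d q) (H : Subgroup G) (hpH : p ∣ Nat.card H)
    (hO : Cfsg.pPrimeCore 2 ↥H = ⊥) (hO2 : Cfsg.pCore 2 ↥H = ⊥) :
    Good H ∨ d ∣ Nat.card H := by
  have hp2 : ¬ p ^ 2 ∣ Nat.card G := by
    rw [card_G]
    rcases hp with rfl | rfl <;> norm_num
  exact conclude p d hp2 (KG [x0]) hcard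
    (all_of_fam p d hp x0 fam M0 hq0 hcard hstep hout) H hpH hO hO2

end Cfsg.Agent.Lib.Helper60.GL4
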