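import Cfsg.Agent.Lib.Helper60.GL4Fam
import Cfsg.Prelude.Def_Solvable

set_option autoImplicit false

/-!
# GL(4,2) (helper60): subgroups with a normal `2`-subgroup or a normal subgroup of odd order

`Bad K`: the subgroup `K` has a nontrivial normal subgroup that is a `2`-group or has odd
exponent.  `Good K` is the conclusion of the statement S2553.
-/

namespace Cfsg.Agent.Lib.Helper60.GL4

open Pointwise

/-- a nontrivial normal subgroup that is a `2`-group or has odd exponent -/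
def Bad (K : Subgroup G) : Prop :=
  ∃ N : Subgroup G, N ≤ K ∧ N ≠ ⊥ ∧ (∀ k ∈ K, ∀ x ∈ N, k * x * k⁻¹ ∈ N) ∧
    ((∀ x ∈ N, x ^ 8 = 1) ∨ ∃ m, Odd m ∧ ∀ x ∈ N, x ^ m = 1)

/-- the conclusion -/
def Good (K : Subgroup G) : Prop :=
  (∃ n : ℕ, 5 ≤ n ∧ n ≤ 8 ∧ Nonempty (↥K ≃* alternatingGroup (Fin n))) ∨
    Nonempty (↥K ≃* Equiv.Perm (Fin 5)) ∨ Nonempty (↥K ≃* Equiv.Perm (Fin 6)) ∨
    Nonempty (↥K ≃* GL (Fin 3) (ZMod 2))

/-- the certificate of `Bad`: the subgroup `N` with the table `CN` is normalised by the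
generators of `K`, and has exponent `m` -/
def badOK (gsK : List ℕ) (maskK : ℕ) (gsN : List ℕ) (nN CN m : ℕ) : Bool :=
  forceN maskK fun maskK =>
  Nat.blt 1 nN && gsN.all (fun s => tbit maskK s) &&
  gsK.all (fun s => allI (fun i => anyI (fun l =>
    Nat.beq (mulc s (ec CN i)) (mulc (ec CN l) s)) nN) nN) &&
  (Nat.beq m 8 || Nat.beq (Nat.mod m 2) 1) && allI (fun i => Nat.beq (powc (ec CN i) m) idc) nN

theorem bad_sound {gsK : List ℕ} {nK CK maskK : ℕ} {gsN : List ℕ} {nN CN maskN m : ℕ}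
    (hK : Cert gsK nK CK maskK) (hN : Cert gsN nN CN maskN)
    (h : badOK gsK maskK gsN nN CN m = true) : Bad (KG gsK) := by
  unfold badOK at h
  simp only [forceN_eq, Bool.and_eq_true, tbit_eq] at h
  obtain ⟨⟨⟨⟨h1, hle⟩, hnorm⟩, hm⟩, hexp⟩ := h
  have h1' : 1 < nN := by simpa [Nat.blt_eq] using h1
  rw [allI_iff] at hexp
  have hpow : ∀ x ∈ KG gsN, x ^ m = 1 := by
    intro x hx
    obtain ⟨i, hi, e⟩ := hN.ent_mem hx
    have := Nat.eq_of_beq_eq_true (hexp i hi)
    rw [e, ← cg_pow, ← cg_one] at this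
    exact cg_inj this
  refine ⟨KG gsN, ?_, ?_, ?_, ?_⟩
  · apply (Subgroup.closure_le _).2
    intro g hg
    have hg' : cg g ∈ gsN := hg
    exact (hK.mem_iff g).2 (List.all_eq_true.1 hle _ hg')
  · intro hbot
    have := hN.card
    rw [hbot, Subgroup.card_bot] at this
    omega
  · -- normality
    let T : Submonoid G :=
      { carrier := {k | ∀ x ∈ KG gsN, k * x * k⁻¹ ∈ KG gsN}
        one_mem' := by intro x hx; simpa using hx
        mul_mem' := by
          intro a b ha hb x hx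
          have := ha _ (hb x hx)
          have e : a * b * x * (a * b)⁻¹ = a * (b * x * b⁻¹) * a⁻¹ := by group
          rw [e]; exact this }
    intro k hk
    have hk' : k ∈ Submonoid.closure {g : G | cg g ∈ gsK} := by
      rw [← Subgroup.closure_toSubmonoid_of_finite]; exact hk
    have : Submonoid.closure {g : G | cg g ∈ gsK} ≤ T := by
      apply (Submonoid.closure_le).2
      intro g hg x hx
      have hg' : cg g ∈ gsK := hg
      obtain ⟨i, hi, e⟩ := hN.ent_mem hx
      have h2 := List.all_eq_true.1 hnorm _ hg'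
      rw [allI_iff] at h2
      have h3 := h2 i hi
      rw [anyI_iff] at h3
      obtain ⟨l, hl, h4⟩ := h3
      obtain ⟨y, hy, ey⟩ := hN.ent_ex l hl
      have h5 := Nat.eq_of_beq_eq_true h4
      rw [e, ← ey, ← cg_mul, ← cg_mul] at h5
      have h6 : g * x = y * g := cg_inj h5
      have : g * x * g⁻¹ = y := by rw [h6]; group
      rw [this]; exact hy
    exact this hk'
  · simp only [Bool.or_eq_true] at hm
    rcases hm with hm | hm
    · left
      have : m = 8 := Nat.eq_of_beq_eq_true hm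
      rw [← this]; exact hpow
    · right
      refine ⟨m, ?_, hpow⟩
      have : m % 2 = 1 := Nat.eq_of_beq_eq_true hm
      exact Nat.odd_iff.2 this

/-- a subgroup with trivial cores has no conjugate that is `Bad` -/
theorem bad_contra (H : Subgroup G) (c : G) (hbad : Bad (H.map (MulAut.conj c).toMonoidHom))
    (hO : Cfsg.pPrimeCore 2 ↥H = ⊥) (hO2 : Cfsg.pCore 2 ↥H = ⊥) : False := by
  obtain ⟨N, hNK, hNne, hnorm, hexp⟩ := hbad
  let φ : ↥H →* G := (MulAut.conj c).toMonoidHom.comp H.subtype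
  have hφ : ∀ h : ↥H, φ h = c * (h : G) * c⁻¹ := fun h => rfl
  have hφinj : Function.Injective φ := by
    intro a b hab
    rw [hφ, hφ] at hab
    have : (a : G) = b := by
      have := congrArg (fun z => c⁻¹ * z * c) hab
      simpa [mul_assoc] using this
    exact Subtype.ext this
  let N₁ : Subgroup ↥H := N.comap φ
  have hN₁n : N₁.Normal := by
    constructor
    intro n hn h
    have hn' : φ n ∈ N := hn
    show φ (h * n * h⁻¹) ∈ N
    rw [map_mul, map_mul, map_inv]
    exact hnorm _ (Subgroup.mem_map_of_mem _ h.2) _ hn'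
  have hN₁ne : N₁ ≠ ⊥ := by
    intro hbot
    apply hNne
    rw [Subgroup.eq_bot_iff_forall]
    intro x hx
    obtain ⟨h, hh, e⟩ := hNK hx
    have e' : φ ⟨h, hh⟩ = x := e
    have : (⟨h, hh⟩ : ↥H) ∈ N₁ := by
      show φ ⟨h, hh⟩ ∈ N
      rw [e']; exact hx
    rw [hbot, Subgroup.mem_bot] at this
    rw [← e', this, map_one]
  rcases hexp with hexp | ⟨m, hm, hexp⟩
  · have hp : IsPGroup 2 N₁ := by
      intro ⟨n, hn⟩
      refine ⟨3, ?_⟩
      have hn' : φ n ∈ N := hn
      have h1 := hexp _ hn'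
      rw [← map_pow] at h1
      have h2 : n ^ 8 = 1 := hφinj (by rw [h1, map_one])
      apply Subtype.ext
      simpa using h2
    have : N₁ ≤ Cfsg.pCore 2 ↥H := le_sSup ⟨hN₁n, hp⟩
    rw [hO2] at this
    exact hN₁ne (le_bot_iff.1 this)
  · have hc : (Nat.card N₁).Coprime 2 := by
      rw [Nat.coprime_comm, Nat.Prime.coprime_iff_not_dvd Nat.prime_two]
      intro h2
      have : Fact (Nat.Prime 2) := ⟨Nat.prime_two⟩
      obtain ⟨⟨n, hn⟩, ho⟩ := exists_prime_orderOf_dvd_card' (G := N₁) 2 h2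
      have hn' : φ n ∈ N := hn
      have h1 := hexp _ hn'
      rw [← map_pow] at h1
      have h3 : n ^ m = 1 := hφinj (by rw [h1, map_one])
      have h4 : (⟨n, hn⟩ : N₁) ^ m = 1 := Subtype.ext (by simpa using h3)
      have h5 := orderOf_dvd_of_pow_eq_one h4
      rw [ho] at h5
      exact (Nat.not_even_iff_odd.2 hm) (even_iff_two_dvd.2 h5)
    have : N₁ ≤ Cfsg.pPrimeCore 2 ↥H := le_sSup ⟨hN₁n, hc⟩
    rw [hO] at this
    exact hN₁ne (le_bot_iff.1 this)

/-- a subgroup with trivial cores and order divisible by `p`, when all the subgroups above a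
fixed subgroup of order `p` are known -/
theorem conclude (p d : ℕ) [Fact p.Prime] (hp2 : ¬ p ^ 2 ∣ Nat.card G) (P0 : Subgroup G)
    (hcard : Nat.card P0 = p)
    (hall : ∀ K : Subgroup G, P0 ≤ K → Bad K ∨ Good K ∨ d ∣ Nat.card K)
    (H : Subgroup G) (hp : p ∣ Nat.card H) (hO : Cfsg.pPrimeCore 2 ↥H = ⊥)
    (hO2 : Cfsg.pCore 2 ↥H = ⊥) : Good H ∨ d ∣ Nat.card H := by
  classical
  have hpp : p.Prime := Fact.out
  obtain ⟨x, hx⟩ := exists_prime_orderOf_dvd_card' (G := H) p hp
  have hfact : (Nat.card G).factorization p = 1 := by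
    have hpG : p ^ 1 ∣ Nat.card G := by
      rw [pow_one]
      exact dvd_trans hp (Subgroup.card_subgroup_dvd_card H)
    have hne : Nat.card G ≠ 0 := Nat.card_pos.ne'
    have hp2' := hp2
    rw [hpp.pow_dvd_iff_le_factorization hne] at hpG hp2'
    omega
  have cP : Nat.card (Subgroup.zpowers (x : G)) = p ^ (Nat.card G).factorization p := by
    rw [hfact, pow_one, Nat.card_zpowers, Subgroup.orderOf_coe, hx]
  have cP0 : Nat.card P0 = p ^ (Nat.card G).factorization p := by
    rw [hfact, pow_one, hcard]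
  obtain ⟨c, hc⟩ := MulAction.exists_smul_eq G (Sylow.ofCard _ cP) (Sylow.ofCard _ cP0)
  have hc' : MulAut.conj c • Subgroup.zpowers (x : G) = P0 := by
    have := congrArg (fun S : Sylow p G => (S : Subgroup G)) hc
    simpa [Sylow.coe_subgroup_smul] using this
  have hle : P0 ≤ H.map (MulAut.conj c).toMonoidHom := by
    intro y hy
    rw [← hc', Subgroup.mem_smul_pointwise_iff_exists] at hy
    obtain ⟨z, hz, e⟩ := hy
    have hzH : z ∈ H := (Subgroup.zpowers_le.2 x.2) hz
    exact ⟨z, hzH, e⟩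
  have hinj : Function.Injective (MulAut.conj c).toMonoidHom := MulEquiv.injective _
  rcases hall _ hle with hb | hg | h5
  · exact absurd hb (fun hb => bad_contra H c hb hO hO2)
  · left
    have φ : ↥H ≃* ↥(H.map (MulAut.conj c).toMonoidHom) := H.equivMapOfInjective _ hinj
    rcases hg with ⟨n, h1, h2, ⟨e⟩⟩ | ⟨⟨e⟩⟩ | ⟨⟨e⟩⟩ | ⟨⟨e⟩⟩
    · exact Or.inl ⟨n, h1, h2, ⟨φ.trans e⟩⟩
    · exact Or.inr (Or.inl ⟨φ.trans e⟩)
    · exact Or.inr (Or.inr (Or.inl ⟨φ.trans e⟩))
    · exact Or.inr (Or.inr (Or.inr ⟨φ.trans e⟩))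
  · right
    rwa [Subgroup.card_map_of_injective hinj] at h5

end Cfsg.Agent.Lib.Helper60.GL4
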