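import Mathlib

set_option autoImplicit false

/-!
# GL(4,2) (helper60): matrices packed into 16-bit numbers

A `4 × 4` matrix over `ZMod 2` is coded by the number whose `i`-th hexadecimal digit is the
`i`-th row (bit `j` of the digit is the entry `(i, j)`).  The product of codes `mulc` is written
with the basic operations of `ℕ`, so that the kernel evaluates it quickly.
-/

namespace Cfsg.Agent.Lib.Helper60.GL4

/-- the group `GL(4,2)` -/
abbrev G : Type := GL (Fin 4) (ZMod 2)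

/-- `4 × 4` matrices over the field with two elements -/
abbrev M4 : Type := Matrix (Fin 4) (Fin 4) (ZMod 2)

/-- evaluate `v` first and pass the numeral on -/
def forceN {α : Type} (v : ℕ) (k : ℕ → α) : α :=
  match v with
  | 0 => k 0
  | Nat.succ v' => k (Nat.succ v')

theorem forceN_eq {α : Type} (v : ℕ) (k : ℕ → α) : forceN v k = k v := by
  cases v <;> rfl

/-- the `i`-th hexadecimal digit -/
def nib (c i : ℕ) : ℕ := Nat.mod (Nat.div c (Nat.pow 16 i)) 16

/-- the `j`-th bit -/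
def bt (x j : ℕ) : ℕ := Nat.mod (Nat.div x (Nat.pow 2 j)) 2

theorem nib_eq (c i : ℕ) : nib c i = c / 16 ^ i % 16 := rfl

theorem bt_eq (x j : ℕ) : bt x j = x / 2 ^ j % 2 := rfl

theorem nib_lt (c i : ℕ) : nib c i < 16 := Nat.mod_lt _ (by norm_num)

theorem bt_lt (x j : ℕ) : bt x j < 2 := Nat.mod_lt _ (by norm_num)

/-- the row vector `a` times the matrix with rows `r0, r1, r2, r3` -/
def vm (a r0 r1 r2 r3 : ℕ) : ℕ :=
  forceN a fun a =>
  Nat.xor (Nat.xor (Nat.mul (bt a 0) r0) (Nat.mul (bt a 1) r1))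
    (Nat.xor (Nat.mul (bt a 2) r2) (Nat.mul (bt a 3) r3))

theorem vm_eq (a r0 r1 r2 r3 : ℕ) : vm a r0 r1 r2 r3 =
    ((bt a 0 * r0) ^^^ (bt a 1 * r1)) ^^^ ((bt a 2 * r2) ^^^ (bt a 3 * r3)) := by
  unfold vm
  rw [forceN_eq]
  rfl

/-- product of codes -/
def mulc (a b : ℕ) : ℕ :=
  forceN (nib b 0) fun r0 => forceN (nib b 1) fun r1 =>
  forceN (nib b 2) fun r2 => forceN (nib b 3) fun r3 =>
  Nat.add (vm (nib a 0) r0 r1 r2 r3) (Nat.mul 16 (
  Nat.add (vm (nib a 1) r0 r1 r2 r3) (Nat.mul 16 (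
  Nat.add (vm (nib a 2) r0 r1 r2 r3) (Nat.mul 16 (
  vm (nib a 3) r0 r1 r2 r3))))))

theorem mulc_eq (a b : ℕ) : mulc a b =
    vm (nib a 0) (nib b 0) (nib b 1) (nib b 2) (nib b 3) + 16 * (
    vm (nib a 1) (nib b 0) (nib b 1) (nib b 2) (nib b 3) + 16 * (
    vm (nib a 2) (nib b 0) (nib b 1) (nib b 2) (nib b 3) + 16 *
    vm (nib a 3) (nib b 0) (nib b 1) (nib b 2) (nib b 3))) := by
  unfold mulc
  simp only [forceN_eq]
  rfl

/-- the code of a row -/
def rowc (M : M4) (i : Fin 4) : ℕ :=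
  (M i 0).val + 2 * ((M i 1).val + 2 * ((M i 2).val + 2 * (M i 3).val))

/-- the code of a matrix -/
def code (M : M4) : ℕ := rowc M 0 + 16 * (rowc M 1 + 16 * (rowc M 2 + 16 * rowc M 3))

theorem val_lt2 (x : ZMod 2) : x.val < 2 := ZMod.val_lt x

theorem rowc_lt (M : M4) (i : Fin 4) : rowc M i < 16 := by
  have h0 := val_lt2 (M i 0); have h1 := val_lt2 (M i 1)
  have h2 := val_lt2 (M i 2); have h3 := val_lt2 (M i 3)
  unfold rowc
  omega

theorem code_lt (M : M4) : code M < 65536 := by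
  have h0 := rowc_lt M 0; have h1 := rowc_lt M 1; have h2 := rowc_lt M 2; have h3 := rowc_lt M 3
  unfold code
  omega

theorem nib4 (a b c d : ℕ) (ha : a < 16) (hb : b < 16) (hc : c < 16) (hd : d < 16) :
    nib (a + 16 * (b + 16 * (c + 16 * d))) 0 = a ∧ nib (a + 16 * (b + 16 * (c + 16 * d))) 1 = b ∧
    nib (a + 16 * (b + 16 * (c + 16 * d))) 2 = c ∧ nib (a + 16 * (b + 16 * (c + 16 * d))) 3 = d := by
  simp only [nib_eq]
  norm_num
  refine ⟨?_, ?_, ?_, ?_⟩ <;> omega

theorem bt4 (a b c d : ℕ) (ha : a < 2) (hb : b < 2) (hc : c < 2) (hd : d < 2) :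
    bt (a + 2 * (b + 2 * (c + 2 * d))) 0 = a ∧ bt (a + 2 * (b + 2 * (c + 2 * d))) 1 = b ∧
    bt (a + 2 * (b + 2 * (c + 2 * d))) 2 = c ∧ bt (a + 2 * (b + 2 * (c + 2 * d))) 3 = d := by
  simp only [bt_eq]
  norm_num
  refine ⟨?_, ?_, ?_, ?_⟩ <;> omega

theorem nib_code (M : M4) (i : Fin 4) : nib (code M) i.val = rowc M i := by
  obtain ⟨h0, h1, h2, h3⟩ := nib4 _ _ _ _ (rowc_lt M 0) (rowc_lt M 1) (rowc_lt M 2) (rowc_lt M 3)
  unfold code
  fin_cases i
  · exact h0
  · exact h1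
  · exact h2
  · exact h3

theorem bt_rowc (M : M4) (i j : Fin 4) : bt (rowc M i) j.val = (M i j).val := by
  obtain ⟨h0, h1, h2, h3⟩ := bt4 _ _ _ _ (val_lt2 (M i 0)) (val_lt2 (M i 1)) (val_lt2 (M i 2))
    (val_lt2 (M i 3))
  unfold rowc
  fin_cases j
  · exact h0
  · exact h1
  · exact h2
  · exact h3

theorem xor_spec : ∀ x y : Fin 16, (x.val ^^^ y.val) < 16 ∧
    ∀ k : Fin 4, bt (x.val ^^^ y.val) k.val = (bt x.val k.val + bt y.val k.val) % 2 := by
  decide +kernel

theorem val_spec : ∀ a0 a1 a2 a3 b0 b1 b2 b3 : ZMod 2,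
    (a0 * b0 + a1 * b1 + a2 * b2 + a3 * b3).val =
      ((a0.val * b0.val + a1.val * b1.val) % 2 + (a2.val * b2.val + a3.val * b3.val) % 2) % 2 := by
  decide +kernel

theorem mulbit (a r : ℕ) (ha : a < 2) (hr : r < 16) (k : ℕ) :
    a * r < 16 ∧ bt (a * r) k = a * bt r k := by
  interval_cases a
  · simp [bt_eq]
  · simp [hr]

theorem eq_of_bits (x y : ℕ) (hx : x < 16) (hy : y < 16)
    (h : ∀ k : Fin 4, bt x k.val = bt y k.val) : x = y := by
  have h0 := h 0; have h1 := h 1; have h2 := h 2; have h3 := h 3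
  simp only [bt_eq] at h0 h1 h2 h3
  norm_num at h0 h1 h2 h3
  omega

theorem vm_spec (A B : M4) (i : Fin 4) :
    vm (rowc A i) (rowc B 0) (rowc B 1) (rowc B 2) (rowc B 3) = rowc (A * B) i := by
  rw [vm_eq]
  have ha : ∀ j : Fin 4, bt (rowc A i) j.val < 2 := fun j => bt_lt _ _
  have m0 := fun k => mulbit (bt (rowc A i) 0) (rowc B 0) (bt_lt _ _) (rowc_lt B 0) k
  have m1 := fun k => mulbit (bt (rowc A i) 1) (rowc B 1) (bt_lt _ _) (rowc_lt B 1) k
  have m2 := fun k => mulbit (bt (rowc A i) 2) (rowc B 2) (bt_lt _ _) (rowc_lt B 2) k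
  have m3 := fun k => mulbit (bt (rowc A i) 3) (rowc B 3) (bt_lt _ _) (rowc_lt B 3) k
  have x01 := xor_spec ⟨_, (m0 0).1⟩ ⟨_, (m1 0).1⟩
  have x23 := xor_spec ⟨_, (m2 0).1⟩ ⟨_, (m3 0).1⟩
  have xx := xor_spec ⟨_, x01.1⟩ ⟨_, x23.1⟩
  apply eq_of_bits _ _ xx.1 (rowc_lt _ _)
  intro k
  rw [xx.2 k, x01.2 k, x23.2 k]
  simp only []
  rw [(m0 k.val).2, (m1 k.val).2, (m2 k.val).2, (m3 k.val).2]
  rw [bt_rowc (A * B) i k, Matrix.mul_apply, Fin.sum_univ_four, val_spec]
  have e0 := bt_rowc A i 0; have e1 := bt_rowc A i 1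
  have e2 := bt_rowc A i 2; have e3 := bt_rowc A i 3
  simp only [Fin.val_zero, Fin.val_one, Fin.val_two] at e0 e1 e2
  have e3' : bt (rowc A i) 3 = (A i 3).val := e3
  rw [e0, e1, e2, e3', bt_rowc B 0 k, bt_rowc B 1 k, bt_rowc B 2 k, bt_rowc B 3 k]

theorem mulc_code (A B : M4) : mulc (code A) (code B) = code (A * B) := by
  rw [mulc_eq]
  have a0 := nib_code A 0; have a1 := nib_code A 1; have a2 := nib_code A 2
  have a3 : nib (code A) 3 = rowc A 3 := nib_code A 3
  have b0 := nib_code B 0; have b1 := nib_code B 1; have b2 := nib_code B 2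
  have b3 : nib (code B) 3 = rowc B 3 := nib_code B 3
  simp only [Fin.val_zero, Fin.val_one, Fin.val_two] at a0 a1 a2 b0 b1 b2
  rw [a0, a1, a2, a3, b0, b1, b2, b3, vm_spec, vm_spec, vm_spec, vm_spec]
  rfl

theorem code_inj : Function.Injective code := by
  intro A B h
  ext i j
  apply ZMod.val_injective
  rw [← bt_rowc A i j, ← bt_rowc B i j, ← nib_code A i, ← nib_code B i, h]

/-- the code of the identity matrix -/
def idc : ℕ := 33825

theorem code_one : code (1 : M4) = idc := by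
  decide +kernel

/-- the matrix with a given code -/
def decode (c : ℕ) : M4 := Matrix.of fun i j => ((bt (nib c i.val) j.val : ℕ) : ZMod 2)

theorem code_decode (c : ℕ) (hc : c < 65536) : code (decode c) = c := by
  have hv : ∀ i j : Fin 4, ((decode c) i j).val = bt (nib c i.val) j.val := by
    intro i j
    unfold decode
    rw [Matrix.of_apply]
    exact ZMod.val_natCast_of_lt (bt_lt _ _)
  unfold code rowc
  rw [hv, hv, hv, hv, hv, hv, hv, hv, hv, hv, hv, hv, hv, hv, hv, hv]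
  simp only [bt_eq, nib_eq, Fin.val_zero, Fin.val_one, Fin.val_two]
  have e3 : ((3 : Fin 4) : ℕ) = 3 := rfl
  rw [e3]
  norm_num
  omega

/-- the code of an element of the group -/
def cg (g : G) : ℕ := code (g : M4)

theorem cg_mul (g h : G) : cg (g * h) = mulc (cg g) (cg h) := by
  unfold cg
  rw [mulc_code, Units.val_mul]

theorem cg_one : cg (1 : G) = idc := by
  unfold cg
  rw [Units.val_one, code_one]

theorem cg_inj : Function.Injective cg := by
  intro g h e
  apply Units.ext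
  exact code_inj e

theorem cg_lt (g : G) : cg g < 65536 := code_lt _

/-- a code with an inverse code comes from an element of the group -/
theorem exists_of_inv (s t : ℕ) (hs : s < 65536) (ht : t < 65536) (h1 : mulc s t = idc)
    (h2 : mulc t s = idc) : ∃ g : G, cg g = s := by
  have e1 : decode s * decode t = 1 := by
    apply code_inj
    rw [← mulc_code, code_decode s hs, code_decode t ht, h1, code_one]
  have e2 : decode t * decode s = 1 := by
    apply code_inj
    rw [← mulc_code, code_decode s hs, code_decode t ht, h2, code_one]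
  exact ⟨⟨decode s, decode t, e1, e2⟩, code_decode s hs⟩

/-- powers of codes -/
def powc (s : ℕ) : ℕ → ℕ
  | 0 => idc
  | Nat.succ k => forceN (powc s k) fun x => mulc x s

theorem powc_succ (s k : ℕ) : powc s (k + 1) = mulc (powc s k) s := by
  show forceN (powc s k) (fun x => mulc x s) = _
  rw [forceN_eq]

theorem cg_pow (g : G) (k : ℕ) : cg (g ^ k) = powc (cg g) k := by
  induction k with
  | zero => rw [pow_zero, cg_one]; rfl
  | succ k ih => rw [pow_succ, cg_mul, ih, powc_succ]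

end Cfsg.Agent.Lib.Helper60.GL4
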