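import Cfsg.Agent.Lib.Helper60.GL4D7b

set_option autoImplicit false
set_option maxRecDepth 100000

/-!
# GL(4,2) (helper60): the subgroups that contain a fixed subgroup of order 7: outcomes

Generated data; every `decide +kernel` is a certificate check by the kernel.
-/

namespace Cfsg.Agent.Lib.Helper60.GL4

namespace D7

theorem out0 : Out 5 (gs0, M0) :=
  Or.inl (bad_sound (m := 7) cert0 cert0 (by decide +kernel))

theorem out1 : Out 5 (DT.gs, DT.M) :=
  Or.inr (Or.inr (out_div DT.cert (by decide)))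

theorem out2 : Out 5 (gs2, M2) :=
  Or.inr (Or.inr (out_div cert2 (by decide)))

theorem out3 : Out 5 (gs3, M3) :=
  Or.inl (bad_sound (m := 7) cert3 cert0 (by decide +kernel))

theorem out4 : Out 5 (gs4, M4) :=
  Or.inr (Or.inl (Or.inr (Or.inr (Or.inr (gl3_iso_col cert4 (by decide +kernel))))))

theorem out5 : Out 5 (gs5, M5) :=
  Or.inl (bad_sound (m := 8) cert5 certN1 (by decide +kernel))

theorem out6 : Out 5 (gs6, M6) :=
  Or.inl (bad_sound (m := 8) cert6 certN1 (by decide +kernel))

theorem out7 : Out 5 (gs7, M7) :=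
  Or.inr (Or.inl (Or.inr (Or.inr (Or.inr (gl3_iso_row cert7 (by decide +kernel))))))

theorem out8 : Out 5 (gs8, M8) :=
  Or.inl (bad_sound (m := 8) cert8 certN2 (by decide +kernel))

theorem out9 : Out 5 (gs9, M9) :=
  Or.inr (Or.inl (Or.inr (Or.inr (Or.inr (gl3_iso_col cert9 (by decide +kernel))))))

theorem out10 : Out 5 (gs10, M10) :=
  Or.inl (bad_sound (m := 8) cert10 certN2 (by decide +kernel))

theorem out11 : Out 5 (gs11, M11) :=
  Or.inl (bad_sound (m := 8) cert11 certN1 (by decide +kernel))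

theorem out12 : Out 5 (gs12, M12) :=
  Or.inl (bad_sound (m := 8) cert12 certN2 (by decide +kernel))

theorem outs : ∀ q ∈ fam, Out 5 q := by
  unfold fam
  exact forall_cons out0 (forall_cons out1 (forall_cons out2 (forall_cons out3 (forall_cons out4 (forall_cons out5 (forall_cons out6 (forall_cons out7 (forall_cons out8 (forall_cons out9 (forall_cons out10 (forall_cons out11 (forall_cons out12 (forall_nil)))))))))))))

theorem final (H : Subgroup G) (hpH : 7 ∣ Nat.card H)
    (hO : Cfsg.pPrimeCore 2 ↥H = ⊥) (hO2 : Cfsg.pCore 2 ↥H = ⊥) : Good H ∨ 5 ∣ Nat.card H := by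
  have : Fact (Nat.Prime 7) := ⟨by norm_num⟩
  exact final_of_fam 7 5 (by norm_num) 33602 fam M0 mem0 cert0.card steps outs H hpH hO hO2

end D7

end Cfsg.Agent.Lib.Helper60.GL4
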