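import Cfsg.Agent.Lib.Helper60.GL4Step

set_option autoImplicit false

/-!
# GL(4,2) (helper60): all the subgroups that contain a fixed subgroup of prime order

A subgroup `H` that contains a Sylow `p`-subgroup `P` of order `p` is generated by its elements
of order dividing `p` and the elements that normalise `P`; so a family that contains `P` and is
closed under adjoining such elements contains `H`.
-/

namespace Cfsg.Agent.Lib.Helper60.GL4

open Pointwise

theorem card_G : Nat.card G = 20160 := by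
  have h := Matrix.card_GL_field (𝔽 := ZMod 2) 4
  rw [h]
  simp [Fin.prod_univ_four, ZMod.card]

/-- generation by the `p`-elements and the normaliser of a Sylow subgroup of order `p` -/
theorem sylow_gen {Γ : Type*} [Group Γ] [Finite Γ] (p : ℕ) [Fact p.Prime] (P H : Subgroup Γ)
    (hPH : P ≤ H) (hP : Nat.card P = p) (hp2 : ¬ p ^ 2 ∣ Nat.card Γ) :
    H ≤ Subgroup.closure {g | g ∈ H ∧ (g ^ p = 1 ∨ ∀ x ∈ P, g * x * g⁻¹ ∈ P)} := by
  classical
  have hpp : p.Prime := Fact.out
  set S : Set Γ := {g | g ∈ H ∧ (g ^ p = 1 ∨ ∀ x ∈ P, g * x * g⁻¹ ∈ P)} with hS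
  set M := Subgroup.closure S with hM
  have hpow : ∀ x ∈ P, x ^ p = 1 := by
    intro x hx
    have h1 : (⟨x, hx⟩ : P) ^ Nat.card P = 1 := pow_card_eq_one'
    rw [hP] at h1
    have h2 := congrArg Subtype.val h1
    simpa using h2
  have hPM : P ≤ M := fun x hx => Subgroup.subset_closure ⟨hPH hx, Or.inl (hpow x hx)⟩
  have hMH : M ≤ H := (Subgroup.closure_le _).2 fun g hg => hg.1
  intro h hh
  have hQ : ∀ x ∈ P, h * x * h⁻¹ ∈ M := by
    intro x hx
    refine Subgroup.subset_closure ⟨H.mul_mem (H.mul_mem hh (hPH hx)) (H.inv_mem hh), Or.inl ?_⟩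
    rw [conj_pow, hpow x hx, mul_one, mul_inv_cancel]
  have hfact : (Nat.card M).factorization p = 1 := by
    have hpM : p ^ 1 ∣ Nat.card M := by
      have := Subgroup.card_dvd_of_le hPM
      rwa [hP, ← pow_one p] at this
    have hp2M : ¬ p ^ 2 ∣ Nat.card M := fun h2 =>
      hp2 (dvd_trans h2 (Subgroup.card_subgroup_dvd_card M))
    have hne : Nat.card M ≠ 0 := Nat.card_pos.ne'
    rw [hpp.pow_dvd_iff_le_factorization hne] at hpM hp2M
    omega
  have hQM : P.map (MulAut.conj h).toMonoidHom ≤ M := by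
    rintro _ ⟨x, hx, rfl⟩
    exact hQ x hx
  have cP : Nat.card (P.subgroupOf M) = p ^ (Nat.card M).factorization p := by
    rw [hfact, pow_one, Nat.card_congr (Subgroup.subgroupOfEquivOfLe hPM).toEquiv, hP]
  have cQ : Nat.card ((P.map (MulAut.conj h).toMonoidHom).subgroupOf M) =
      p ^ (Nat.card M).factorization p := by
    rw [hfact, pow_one, Nat.card_congr (Subgroup.subgroupOfEquivOfLe hQM).toEquiv,
      Subgroup.card_map_of_injective (MulEquiv.injective _), hP]
  obtain ⟨m, hm⟩ := MulAction.exists_smul_eq M (Sylow.ofCard _ cP) (Sylow.ofCard _ cQ)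
  have hm' : MulAut.conj m • (P.subgroupOf M) =
      (P.map (MulAut.conj h).toMonoidHom).subgroupOf M := by
    have := congrArg (fun S : Sylow p M => (S : Subgroup M)) hm
    simpa [Sylow.coe_subgroup_smul] using this
  have key : ∀ x ∈ P, (h⁻¹ * (m : Γ)) * x * (h⁻¹ * (m : Γ))⁻¹ ∈ P := by
    intro x hx
    have h1 : (⟨x, hPM hx⟩ : M) ∈ P.subgroupOf M := hx
    have h2 := Subgroup.smul_mem_pointwise_smul _ (MulAut.conj m) _ h1
    rw [hm'] at h2
    have h3 : ((MulAut.conj m • (⟨x, hPM hx⟩ : M) : M) : Γ) ∈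
        P.map (MulAut.conj h).toMonoidHom := h2
    obtain ⟨z, hz, e⟩ := h3
    have e' : h * z * h⁻¹ = (m : Γ) * x * (m : Γ)⁻¹ := by
      simpa [MulAut.smul_def] using e
    have : (h⁻¹ * (m : Γ)) * x * (h⁻¹ * (m : Γ))⁻¹ = z := by
      have : (h⁻¹ * (m : Γ)) * x * (h⁻¹ * (m : Γ))⁻¹ = h⁻¹ * ((m : Γ) * x * (m : Γ)⁻¹) * h := by
        group
      rw [this, ← e']
      group
    rw [this]; exact hz
  have hgS : h⁻¹ * (m : Γ) ∈ S := ⟨H.mul_mem (H.inv_mem hh) (hMH m.2), Or.inr key⟩
  have hgM : h⁻¹ * (m : Γ) ∈ M := Subgroup.subset_closure hgS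
  have : h = (m : Γ) * (h⁻¹ * (m : Γ))⁻¹ := by group
  rw [this]
  exact M.mul_mem m.2 (M.inv_mem hgM)

/-- a family that contains `P` and is closed under adjoining the `p`-elements and the normaliser
of `P` contains every subgroup above `P` -/
theorem fam_complete (p : ℕ) [Fact p.Prime] (hp2 : ¬ p ^ 2 ∣ Nat.card G)
    (fam : List (List ℕ × ℕ)) (q0 : List ℕ × ℕ) (hq0 : q0 ∈ fam)
    (hcard : Nat.card (KG q0.1) = p)
    (hstep : ∀ q ∈ fam, ∀ g : G, (g ^ p = 1 ∨ ∀ x ∈ KG q0.1, g * x * g⁻¹ ∈ KG q0.1) →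
      ∃ q' ∈ fam, KG q.1 ⊔ Subgroup.zpowers g = KG q'.1)
    (H : Subgroup G) (hH : KG q0.1 ≤ H) : ∃ q ∈ fam, H = KG q.1 := by
  classical
  set S : Set G := {g | g ∈ H ∧ (g ^ p = 1 ∨ ∀ x ∈ KG q0.1, g * x * g⁻¹ ∈ KG q0.1)} with hS
  have hgen : H ≤ Subgroup.closure S := sylow_gen p (KG q0.1) H hH hcard hp2
  have hSH : Subgroup.closure S ≤ H := (Subgroup.closure_le _).2 fun g hg => hg.1
  have key : ∀ T : Finset G, (↑T ⊆ S) →
      ∃ q ∈ fam, KG q0.1 ⊔ Subgroup.closure (↑T : Set G) = KG q.1 := by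
    intro T
    induction T using Finset.induction_on with
    | empty => intro _; exact ⟨q0, hq0, by simp⟩
    | insert a T ha ih =>
      intro hT
      rw [Finset.coe_insert] at hT ⊢
      obtain ⟨q, hq, e⟩ := ih (fun x hx => hT (Set.mem_insert_of_mem _ hx))
      obtain ⟨q', hq', e'⟩ := hstep q hq a (hT (Set.mem_insert _ _)).2
      refine ⟨q', hq', ?_⟩
      rw [← e', ← e, Set.insert_eq, Subgroup.closure_union, Subgroup.zpowers_eq_closure]
      ac_rfl
  have hfin : S.Finite := Set.toFinite S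
  obtain ⟨q, hq, e⟩ := key hfin.toFinset (by rw [Set.Finite.coe_toFinset])
  refine ⟨q, hq, ?_⟩
  rw [← e, Set.Finite.coe_toFinset]
  apply le_antisymm
  · exact le_trans hgen le_sup_right
  · exact sup_le hH hSH

/-- the table `C` of the whole group: the elements of order dividing `p` and those that
normalise `⟨x0⟩` have their bits in `Emask` -/
def ecomplOK (p x0 nP CP n C Emask : ℕ) : Bool :=
  forceN C fun C => forceN Emask fun Em =>
  allI (fun i => forceN (ec C i) fun c =>
    tbit Em c || !(Nat.beq (powc c p) idc || (forceN (mulc c x0) fun d =>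
      anyI (fun l => Nat.beq d (mulc (ec CP l) c)) nP))) n

theorem ecompl_sound {p x0 nP CP maskP n C maskT : ℕ} {gsT : List ℕ} {Emask nE E : ℕ}
    (hT : Cert gsT n C maskT) (hn : n = 20160) (hP : Cert [x0] nP CP maskP)
    (hE : maskOK nE E Emask = true) (h : ecomplOK p x0 nP CP n C Emask = true) (g : G)
    (hg : g ^ p = 1 ∨ ∀ x ∈ KG [x0], g * x * g⁻¹ ∈ KG [x0]) :
    ∃ i, i < nE ∧ tab 16 E i = cg g := by
  have htop : KG gsT = ⊤ := by
    rw [← Subgroup.card_eq_iff_eq_top, hT.card, hn, card_G]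
  obtain ⟨i, hi, ei⟩ := hT.ent_mem (show g ∈ KG gsT by rw [htop]; trivial)
  unfold ecomplOK at h
  simp only [forceN_eq] at h
  rw [allI_iff] at h
  have hb := h i hi
  rw [ei] at hb
  have hcond : (Nat.beq (powc (cg g) p) idc || anyI (fun l =>
      Nat.beq (mulc (cg g) x0) (mulc (ec CP l) (cg g))) nP) = true := by
    rcases hg with hg | hg
    · have : powc (cg g) p = idc := by rw [← cg_pow, hg, cg_one]
      rw [this]
      simp
    · obtain ⟨ξ, hξ⟩ := hP.gen_ex x0 (by simp)
      have hξm : ξ ∈ KG [x0] := Subgroup.subset_closure (by show cg ξ ∈ [x0]; simp [hξ])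
      obtain ⟨l, hl, el⟩ := hP.ent_mem (hg ξ hξm)
      have : anyI (fun l => Nat.beq (mulc (cg g) x0) (mulc (ec CP l) (cg g))) nP = true := by
        rw [anyI_iff]
        refine ⟨l, hl, ?_⟩
        rw [el, ← hξ, ← cg_mul, ← cg_mul]
        have : g * ξ * g⁻¹ * g = g * ξ := by group
        rw [this]
        exact Nat.beq_refl _
      rw [this]
      simp
  rw [hcond] at hb
  simp only [Bool.not_true, Bool.or_false, tbit_eq] at hb
  exact (maskOK_spec hE (cg g)).1 hb

end Cfsg.Agent.Lib.Helper60.GL4
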