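import Cfsg.Agent.Lib.Helper60.GL4Code

set_option autoImplicit false

/-!
# GL(4,2) (helper60): certified element tables of subgroups

A subgroup is given by the codes `gs` of generators, a table `T` of its `n` elements in
breadth-first order (each with the index of its parent and the generator used), and a bit mask
`mask` of the codes of its elements.
-/

namespace Cfsg.Agent.Lib.Helper60.GL4

/-- the `i`-th field of width `w` bits of the table `T` -/
def tab (w T i : ℕ) : ℕ := Nat.mod (Nat.shiftRight T (Nat.mul w i)) (Nat.pow 2 w)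

/-- bit test written with kernel-accelerated operations -/
def tbit (m i : ℕ) : Bool := Nat.beq (Nat.land 1 (Nat.shiftRight m i)) 1

theorem tbit_eq (m i : ℕ) : tbit m i = Nat.testBit m i := by
  have h1 : Nat.land 1 (Nat.shiftRight m i) = 1 &&& (m >>> i) := rfl
  have h2 : 1 &&& (m >>> i) = (m >>> i) % 2 := Nat.one_and_eq_mod_two _
  have h3 : (m >>> i) % 2 < 2 := Nat.mod_lt _ (by norm_num)
  unfold tbit Nat.testBit
  rw [h1, h2]
  rcases Nat.lt_succ_iff_lt_or_eq.1 h3 with h | h
  · have h0 : (m >>> i) % 2 = 0 := by omega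
    rw [h0]; rfl
  · rw [h]; rfl

/-- a big number from chunks of 8192 bits -/
def joinC : List ℕ → ℕ
  | [] => 0
  | c :: l => Nat.add c (Nat.shiftLeft (joinC l) 8192)

/-- a property of all indices below `n` -/
def allI (f : ℕ → Bool) : ℕ → Bool
  | 0 => true
  | Nat.succ n => f n && allI f n

theorem allI_iff (f : ℕ → Bool) (n : ℕ) : allI f n = true ↔ ∀ i, i < n → f i = true := by
  induction n with
  | zero => simp [allI]
  | succ n ih =>
    simp only [allI, Bool.and_eq_true, ih]
    constructor
    · rintro ⟨h1, h2⟩ i hi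
      rcases Nat.lt_succ_iff_lt_or_eq.1 hi with h | h
      · exact h2 i h
      · rw [h]; exact h1
    · intro h
      exact ⟨h n (Nat.lt_succ_self n), fun i hi => h i (Nat.lt_succ_of_lt hi)⟩

/-- the subgroup generated by the elements with codes in `gs` -/
def KG (gs : List ℕ) : Subgroup G := Subgroup.closure {g | cg g ∈ gs}

/-- the code of the `i`-th element of a table of codes -/
def ec (C i : ℕ) : ℕ := tab 16 C i

/-- the generators are codes of invertible matrices -/
def gvalid (gs : List ℕ) : Bool := gs.all fun s => Nat.blt s 65536 && Nat.beq (powc s 420) idc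

theorem exists_of_pow (s : ℕ) (hs : s < 65536) (h : powc s 420 = idc) : ∃ g : G, cg g = s := by
  have key : ∀ k, code ((decode s) ^ k) = powc s k := by
    intro k
    induction k with
    | zero => rw [pow_zero, code_one]; rfl
    | succ k ih => rw [pow_succ, ← mulc_code, ih, code_decode s hs, powc_succ]
  have h1 : (decode s) ^ 420 = 1 := by
    apply code_inj
    rw [key, h, code_one]
  obtain ⟨u, hu⟩ := IsUnit.of_pow_eq_one h1 (by norm_num)
  exact ⟨u, by unfold cg; rw [hu, code_decode s hs]⟩

theorem exists_of_gvalid {gs : List ℕ} (h : gvalid gs = true) {s : ℕ} (hs : s ∈ gs) :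
    ∃ g : G, cg g = s := by
  have h1 := List.all_eq_true.1 h s hs
  simp only [Bool.and_eq_true] at h1
  exact exists_of_pow s (by simpa [Nat.blt_eq] using h1.1) (Nat.eq_of_beq_eq_true h1.2)

/-- the table is in breadth-first order: `P` holds the indices of the parents, `S` the generators
used -/
def bfsOK (gs : List ℕ) (n C P S : ℕ) : Bool :=
  Nat.blt 0 n && Nat.beq (ec C 0) idc &&
  allI (fun i => Nat.beq i 0 ||
    (forceN (tab 16 P i) fun p => forceN (tab 16 S i) fun s =>
      Nat.blt p i && gs.contains s && Nat.beq (ec C i) (mulc (ec C p) s))) n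

/-- the bit mask of `f i, …, f (i + k - 1)`, which have to be distinct and new -/
def orL (f : ℕ → ℕ) : ℕ → ℕ → ℕ → Option ℕ
  | 0, _, acc => some acc
  | Nat.succ k, i, acc =>
    forceN (f i) fun c =>
    match tbit acc c with
    | true => none
    | false => forceN (Nat.lor acc (Nat.pow 2 c)) fun a =>
        forceN (Nat.add i 1) fun i' => orL f k i' a

theorem lor_bit (acc c j : ℕ) : Nat.testBit (Nat.lor acc (Nat.pow 2 c)) j = true ↔
    (Nat.testBit acc j = true ∨ c = j) := by
  show Nat.testBit (acc ||| 2 ^ c) j = true ↔ _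
  rw [Nat.testBit_or, Nat.testBit_two_pow]
  simp

theorem orL_new (f : ℕ → ℕ) (k : ℕ) : ∀ (i acc m : ℕ), orL f k i acc = some m →
    ∀ l, i ≤ l → l < i + k → ∀ c, Nat.testBit acc c = true → f l ≠ c := by
  induction k with
  | zero => intro i acc m _ l h1 h2; omega
  | succ k ih =>
    intro i acc m h l h1 h2 c hc
    simp only [orL, forceN_eq, tbit_eq] at h
    cases hb : Nat.testBit acc (f i) with
    | true => rw [hb] at h; simp at h
    | false =>
      rw [hb] at h
      rcases Nat.eq_or_lt_of_le h1 with e | e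
      · subst e
        intro e2
        rw [e2, hc] at hb
        exact Bool.noConfusion hb
      · exact ih (i + 1) _ m h l e (by omega) c ((lor_bit acc (f i) c).2 (Or.inl hc))

theorem orL_spec (f : ℕ → ℕ) (k : ℕ) : ∀ (i acc m : ℕ), orL f k i acc = some m →
    (∀ j, Nat.testBit m j = true ↔ (Nat.testBit acc j = true ∨ ∃ l, i ≤ l ∧ l < i + k ∧ f l = j)) ∧
    (∀ l l', i ≤ l → l < i + k → i ≤ l' → l' < i + k → f l = f l' → l = l') := by
  induction k with
  | zero =>
    intro i acc m h
    simp only [orL, Option.some.injEq] at h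
    subst h
    refine ⟨fun j => ⟨fun hj => Or.inl hj, ?_⟩, ?_⟩
    · rintro (hj | ⟨l, h1, h2, _⟩)
      · exact hj
      · omega
    · intro l l' h1 h2; omega
  | succ k ih =>
    intro i acc m h
    simp only [orL, forceN_eq, tbit_eq] at h
    cases hb : Nat.testBit acc (f i) with
    | true => rw [hb] at h; simp at h
    | false =>
      rw [hb] at h
      obtain ⟨ih1, ih2⟩ := ih (i + 1) _ m h
      have hbit := lor_bit acc (f i)
      refine ⟨fun j => ?_, ?_⟩
      · rw [ih1 j, hbit j]
        constructor
        · rintro ((hj | hj) | ⟨l, h1, h2, h3⟩)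
          · exact Or.inl hj
          · exact Or.inr ⟨i, le_refl i, by omega, hj⟩
          · exact Or.inr ⟨l, by omega, by omega, h3⟩
        · rintro (hj | ⟨l, h1, h2, h3⟩)
          · exact Or.inl (Or.inl hj)
          · rcases Nat.eq_or_lt_of_le h1 with e | e
            · subst e; exact Or.inl (Or.inr h3)
            · exact Or.inr ⟨l, e, by omega, h3⟩
      · -- distinctness
        have hnew : ∀ l, i + 1 ≤ l → l < i + 1 + k → f l ≠ f i := by
          intro l h1 h2 e
          exact absurd e (orL_new f k (i + 1) _ m h l h1 h2 (f i) ((hbit (f i)).2 (Or.inr rfl)))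
        intro l l' h1 h2 h3 h4 e
        rcases Nat.eq_or_lt_of_le h1 with e1 | e1 <;> rcases Nat.eq_or_lt_of_le h3 with e3 | e3
        · omega
        · subst e1; exact absurd e.symm (hnew l' e3 (by omega))
        · subst e3; exact absurd e (hnew l e1 (by omega))
        · exact ih2 l l' e1 (by omega) e3 (by omega) e

/-- a mask and a counter in one number (the counter keeps the numbers apart for the kernel) -/
def enc (acc i : ℕ) : ℕ := Nat.add (Nat.shiftLeft acc 32) i

theorem enc_eq (acc i : ℕ) : enc acc i = acc * 4294967296 + i := by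
  show acc <<< 32 + i = _
  rw [Nat.shiftLeft_eq]

theorem enc_hi (acc i : ℕ) (hi : i < 4294967296) : Nat.shiftRight (enc acc i) 32 = acc := by
  show (enc acc i) >>> 32 = acc
  rw [Nat.shiftRight_eq_div_pow, enc_eq]
  norm_num
  omega

theorem enc_lo (acc i : ℕ) (hi : i < 4294967296) : Nat.mod (enc acc i) 4294967296 = i := by
  show (enc acc i) % 4294967296 = i
  rw [enc_eq]
  omega

/-- `orL` on the packed state -/
def orLS (f : ℕ → ℕ) : ℕ → ℕ → Option ℕ
  | 0, S => some S
  | Nat.succ k, S =>
    forceN (Nat.mod S 4294967296) fun i =>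
    forceN (f i) fun c =>
    match tbit (Nat.shiftRight S 32) c with
    | true => none
    | false =>
      forceN (Nat.add (Nat.shiftLeft (Nat.lor (Nat.shiftRight S 32) (Nat.pow 2 c)) 32)
        (Nat.add i 1)) fun S' => orLS f k S'

theorem orLS_eq (f : ℕ → ℕ) (k : ℕ) : ∀ (i acc : ℕ), i + k < 4294967296 →
    orLS f k (enc acc i) = (orL f k i acc).map (fun m => enc m (i + k)) := by
  induction k with
  | zero => intro i acc _; simp [orLS, orL]
  | succ k ih =>
    intro i acc h
    simp only [orLS, orL, forceN_eq]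
    rw [enc_lo acc i (by omega), enc_hi acc i (by omega)]
    cases hb : tbit acc (f i) with
    | true => simp
    | false =>
      simp only []
      have := ih (i + 1) (Nat.lor acc (Nat.pow 2 (f i))) (by omega)
      have e : i + 1 + k = i + (k + 1) := by omega
      rw [e] at this
      exact this

/-- the mask is closed under right multiplication by the generators -/
def closedOK (gs : List ℕ) (n C mask : ℕ) : Bool :=
  allI (fun i => forceN (ec C i) fun c => gs.all fun s => tbit mask (mulc c s)) n

/-- the mask of the table -/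
def maskOK (n C mask : ℕ) : Bool :=
  Nat.blt n 4294967296 &&
  match orLS (ec C) n 0 with
  | some m => Nat.beq m (enc mask n)
  | none => false

/-- the certificate of a subgroup -/
def certOK (gs : List ℕ) (n C P S mask : ℕ) : Bool :=
  forceN C fun C => forceN P fun P => forceN S fun S => forceN mask fun mask =>
  gvalid gs && bfsOK gs n C P S && maskOK n C mask && closedOK gs n C mask

/-- what a certificate proves -/
structure Cert (gs : List ℕ) (n T mask : ℕ) : Prop where
  mem_iff : ∀ g : G, g ∈ KG gs ↔ Nat.testBit mask (cg g) = true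
  bit_ex : ∀ c : ℕ, Nat.testBit mask c = true → ∃ i, i < n ∧ ec T i = c
  ent_ex : ∀ i, i < n → ∃ g : G, g ∈ KG gs ∧ cg g = ec T i
  inj : ∀ i j, i < n → j < n → ec T i = ec T j → i = j
  gen_ex : ∀ s ∈ gs, ∃ g : G, cg g = s

theorem cert_of_ok {gs : List ℕ} {n T P S mask : ℕ} (h : certOK gs n T P S mask = true) :
    Cert gs n T mask := by
  unfold certOK at h
  simp only [forceN_eq, Bool.and_eq_true] at h
  obtain ⟨⟨⟨hv, hb⟩, hm⟩, hc⟩ := h
  have hgen : ∀ s ∈ gs, ∃ g : G, cg g = s := fun s hs => exists_of_gvalid hv hs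
  -- entries are elements
  unfold bfsOK at hb
  simp only [forceN_eq, Bool.and_eq_true] at hb
  obtain ⟨⟨hn, h0⟩, hb⟩ := hb
  have hn' : 0 < n := by simpa [Nat.blt_eq] using hn
  have h0' : ec T 0 = idc := Nat.eq_of_beq_eq_true h0
  rw [allI_iff] at hb
  have hent : ∀ i, i < n → ∃ g : G, g ∈ KG gs ∧ cg g = ec T i := by
    intro i
    induction i using Nat.strong_induction_on with
    | _ i ih =>
      intro hi
      have hbi := hb i hi
      simp only [Bool.or_eq_true, Bool.and_eq_true] at hbi
      rcases hbi with hbi | ⟨⟨hp, hs⟩, he⟩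
      · have : i = 0 := Nat.eq_of_beq_eq_true hbi
        subst this
        exact ⟨1, Subgroup.one_mem _, by rw [cg_one, h0']⟩
      · have hp' : tab 16 P i < i := by simpa [Nat.blt_eq] using hp
        have hs' : tab 16 S i ∈ gs := by simpa using hs
        obtain ⟨gp, hgp, ep'⟩ := ih (tab 16 P i) hp' (lt_trans hp' hi)
        obtain ⟨σ, hσ⟩ := hgen _ hs'
        refine ⟨gp * σ, Subgroup.mul_mem _ hgp (Subgroup.subset_closure ?_), ?_⟩
        · show cg σ ∈ gs
          rw [hσ]; exact hs'
        · rw [cg_mul, ep', hσ]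
          exact (Nat.eq_of_beq_eq_true he).symm
  -- the mask
  unfold maskOK at hm
  simp only [Bool.and_eq_true] at hm
  obtain ⟨hn32, hm⟩ := hm
  have hn32' : n < 4294967296 := by simpa [Nat.blt_eq] using hn32
  have hS : orLS (ec T) n 0 = (orL (ec T) n 0 0).map (fun m => enc m (0 + n)) := by
    have := orLS_eq (ec T) n 0 0 (by omega)
    have e0 : enc 0 0 = 0 := rfl
    rw [e0] at this
    exact this
  rw [hS] at hm
  cases hor : orL (ec T) n 0 0 with
  | none => rw [hor] at hm; simp at hm
  | some m =>
    rw [hor] at hm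
    simp only [Option.map_some] at hm
    have hmm : m = mask := by
      have h1 : enc m (0 + n) = enc mask n := Nat.eq_of_beq_eq_true hm
      rw [enc_eq, enc_eq] at h1
      omega
    subst hmm
    obtain ⟨hbits, hinj⟩ := orL_spec (ec T) n 0 0 m hor
    have hbit : ∀ c, Nat.testBit m c = true ↔ ∃ i, i < n ∧ ec T i = c := by
      intro c
      rw [hbits c]
      constructor
      · rintro (h | ⟨l, _, h2, h3⟩)
        · simp at h
        · exact ⟨l, by omega, h3⟩
      · rintro ⟨i, h1, h2⟩
        exact Or.inr ⟨i, Nat.zero_le _, by omega, h2⟩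
    unfold closedOK at hc
    simp only [forceN_eq, tbit_eq] at hc
    rw [allI_iff] at hc
    refine ⟨fun g => ⟨fun hg => ?_, fun hg => ?_⟩, fun c hc' => (hbit c).1 hc', hent, ?_, hgen⟩
    · -- closure ⊆ mask
      have key : ∀ x ∈ Submonoid.closure {g : G | cg g ∈ gs}, ∀ a : G,
          Nat.testBit m (cg a) = true → Nat.testBit m (cg (a * x)) = true := by
        intro x hx
        induction hx using Submonoid.closure_induction with
        | mem s hs =>
          intro a ha
          obtain ⟨i, hi, e⟩ := (hbit _).1 ha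
          have h3 := List.all_eq_true.1 (hc i hi) (cg s) hs
          rw [cg_mul, ← e]
          exact h3
        | one => intro a ha; rw [mul_one]; exact ha
        | mul x y _ _ ihx ihy =>
          intro a ha
          rw [← mul_assoc]
          exact ihy _ (ihx a ha)
      have hg' : g ∈ Submonoid.closure {g : G | cg g ∈ gs} := by
        rw [← Subgroup.closure_toSubmonoid_of_finite]; exact hg
      have h1 : Nat.testBit m (cg (1 : G)) = true := by
        rw [cg_one, ← h0']
        exact (hbit _).2 ⟨0, hn', rfl⟩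
      have := key g hg' 1 h1
      rwa [one_mul] at this
    · obtain ⟨i, hi, e⟩ := (hbit _).1 hg
      obtain ⟨g', hg', e'⟩ := hent i hi
      have : g = g' := cg_inj (by rw [e', e])
      rw [this]; exact hg'
    · intro i j hi hj e
      exact hinj i j (Nat.zero_le _) (by omega) (Nat.zero_le _) (by omega) e

theorem Cert.mem_of_bit {gs : List ℕ} {n T mask : ℕ} (h : Cert gs n T mask) {c : ℕ}
    (hc : Nat.testBit mask c = true) : ∃ g : G, g ∈ KG gs ∧ cg g = c := by
  obtain ⟨i, hi, e⟩ := h.bit_ex c hc
  obtain ⟨g, hg, e'⟩ := h.ent_ex i hi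
  exact ⟨g, hg, by rw [e', e]⟩

theorem Cert.ent_mem {gs : List ℕ} {n T mask : ℕ} (h : Cert gs n T mask) {g : G}
    (hg : g ∈ KG gs) : ∃ i, i < n ∧ ec T i = cg g :=
  h.bit_ex _ ((h.mem_iff g).1 hg)

theorem Cert.card {gs : List ℕ} {n T mask : ℕ} (h : Cert gs n T mask) :
    Nat.card (KG gs) = n := by
  classical
  choose f hf1 hf2 using h.ent_ex
  let F : Fin n → KG gs := fun i => ⟨f i.1 i.2, hf1 i.1 i.2⟩
  have hinj : Function.Injective F := by
    intro i j e
    have e1 : f i.1 i.2 = f j.1 j.2 := congrArg Subtype.val e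
    have e2 : ec T i.1 = ec T j.1 := by rw [← hf2 i.1 i.2, ← hf2 j.1 j.2, e1]
    exact Fin.ext (h.inj _ _ i.2 j.2 e2)
  have hsurj : Function.Surjective F := by
    intro ⟨g, hg⟩
    obtain ⟨i, hi, e⟩ := h.ent_mem hg
    refine ⟨⟨i, hi⟩, Subtype.ext ?_⟩
    exact cg_inj (by rw [← e]; exact hf2 i hi)
  have := Nat.card_congr (Equiv.ofBijective F ⟨hinj, hsurj⟩)
  rw [← this, Nat.card_eq_fintype_card, Fintype.card_fin]

end Cfsg.Agent.Lib.Helper60.GL4
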