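import Cfsg.Agent.Lib.Helper60.GL4Bad

set_option autoImplicit false

/-!
# GL(4,2) (helper60): certified isomorphisms

* alternating and symmetric groups: the action on the cosets of a subgroup with trivial core;
* `GL(3,2)`: the upper left block of matrices with a zero last column or a zero last row.
-/

namespace Cfsg.Agent.Lib.Helper60.GL4

/-- the subgroup `J` with the table `CJ` lies in `K` and has trivial core in `K`: for each
nontrivial element, one of the listed elements (with inverses) of `K` conjugates it out of `J` -/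
def coreOK (gsJ : List ℕ) (maskK nJ CJ maskJ : ℕ) (WL : List (ℕ × ℕ)) : Bool :=
  forceN maskK fun maskK => forceN maskJ fun maskJ =>
  gsJ.all (fun s => tbit maskK s) &&
  WL.all (fun w => tbit maskK w.1 && tbit maskK w.2 && Nat.beq (mulc w.1 w.2) idc) &&
  allI (fun i => forceN (ec CJ i) fun c => Nat.beq c idc ||
    WL.any (fun w => !tbit maskJ (mulc (mulc w.1 c) w.2))) nJ

theorem perm_of_core {gsK : List ℕ} {nK CK maskK : ℕ} {gsJ : List ℕ} {nJ CJ maskJ : ℕ}
    (hK : Cert gsK nK CK maskK) (hJ : Cert gsJ nJ CJ maskJ) (k : ℕ) (WL : List (ℕ × ℕ))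
    (h : coreOK gsJ maskK nJ CJ maskJ WL = true) (hidx : nK = k * nJ) :
    ∃ f : KG gsK →* Equiv.Perm (Fin k), Function.Injective f := by
  classical
  unfold coreOK at h
  simp only [forceN_eq, Bool.and_eq_true, tbit_eq] at h
  obtain ⟨⟨hle, hW⟩, hcore⟩ := h
  rw [allI_iff] at hcore
  have hJK : KG gsJ ≤ KG gsK := by
    apply (Subgroup.closure_le _).2
    intro g hg
    have hg' : cg g ∈ gsJ := hg
    exact (hK.mem_iff g).2 (List.all_eq_true.1 hle _ hg')
  set J' : Subgroup (KG gsK) := (KG gsJ).subgroupOf (KG gsK) with hJ'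
  have hcoreb : J'.normalCore = ⊥ := by
    rw [Subgroup.eq_bot_iff_forall]
    intro x hx
    by_contra hne
    have hxJ : (x : G) ∈ KG gsJ := J'.normalCore_le hx
    obtain ⟨i, hi, e⟩ := hJ.ent_mem hxJ
    have hb := hcore i hi
    rw [e] at hb
    simp only [Bool.or_eq_true, List.any_eq_true, Bool.not_eq_true'] at hb
    rcases hb with hb | ⟨w, hw, hb⟩
    · have h1 : cg (x : G) = cg (1 : G) := by rw [cg_one]; exact Nat.eq_of_beq_eq_true hb
      exact hne (Subtype.ext (cg_inj h1))
    · have hw' := List.all_eq_true.1 hW w hw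
      simp only [Bool.and_eq_true] at hw'
      obtain ⟨⟨hw1, hw2⟩, hw3⟩ := hw'
      obtain ⟨ω, hω, eω⟩ := hK.mem_of_bit hw1
      obtain ⟨ω', hω', eω'⟩ := hK.mem_of_bit hw2
      have hinv : ω' = ω⁻¹ := by
        have : ω * ω' = 1 := by
          apply cg_inj
          rw [cg_mul, eω, eω', cg_one]
          exact Nat.eq_of_beq_eq_true hw3
        exact eq_inv_of_mul_eq_one_right this
      have h2 : (⟨ω, hω⟩ : KG gsK) * x * (⟨ω, hω⟩ : KG gsK)⁻¹ ∈ J' := hx ⟨ω, hω⟩
      have h3 : ω * (x : G) * ω⁻¹ ∈ KG gsJ := h2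
      have h4 := (hJ.mem_iff _).1 h3
      rw [cg_mul, cg_mul, eω, ← hinv, eω'] at h4
      rw [h4] at hb
      exact Bool.noConfusion hb
  have hidx' : J'.index = k := by
    have h1 := Subgroup.card_mul_index J'
    rw [Nat.card_congr (Subgroup.subgroupOfEquivOfLe hJK).toEquiv, hJ.card, hK.card, hidx] at h1
    have hpos : 0 < nJ := by
      have := hJ.card
      have h2 : 0 < Nat.card (KG gsJ) := Nat.card_pos
      omega
    have h2 : nJ * J'.index = nJ * k := by rw [h1, mul_comm]
    exact Nat.eq_of_mul_eq_mul_left hpos h2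
  have hcardq : Nat.card (KG gsK ⧸ J') = k := hidx'
  let e : (KG gsK ⧸ J') ≃ Fin k := Finite.equivFinOfCardEq hcardq
  refine ⟨(e.permCongrHom : Equiv.Perm (KG gsK ⧸ J') ≃* Equiv.Perm (Fin k)).toMonoidHom.comp
    (MulAction.toPermHom (KG gsK) (KG gsK ⧸ J')), ?_⟩
  rw [injective_iff_map_eq_one]
  intro x hx
  have h1 : MulAction.toPermHom (KG gsK) (KG gsK ⧸ J') x = 1 := by
    apply (e.permCongrHom : Equiv.Perm (KG gsK ⧸ J') ≃* Equiv.Perm (Fin k)).injective
    rw [map_one]
    exact hx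
  have h2 : x ∈ J'.normalCore := by
    rw [Subgroup.normalCore_eq_ker]
    exact h1
  rw [hcoreb] at h2
  exact h2

theorem sym_iso {gsK : List ℕ} {nK CK maskK : ℕ} {gsJ : List ℕ} {nJ CJ maskJ : ℕ}
    (hK : Cert gsK nK CK maskK) (hJ : Cert gsJ nJ CJ maskJ) (k : ℕ) (WL : List (ℕ × ℕ))
    (h : coreOK gsJ maskK nJ CJ maskJ WL = true) (hidx : nK = k * nJ)
    (hcard : nK = k.factorial) : Nonempty (KG gsK ≃* Equiv.Perm (Fin k)) := by
  obtain ⟨f, hf⟩ := perm_of_core hK hJ k WL h hidx
  have hbij : Function.Bijective f := by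
    apply hf.bijective_of_nat_card_le
    rw [hK.card, Nat.card_eq_fintype_card, Fintype.card_perm, Fintype.card_fin, hcard]
  exact ⟨MulEquiv.ofBijective f hbij⟩

theorem alt_iso {gsK : List ℕ} {nK CK maskK : ℕ} {gsJ : List ℕ} {nJ CJ maskJ : ℕ}
    (hK : Cert gsK nK CK maskK) (hJ : Cert gsJ nJ CJ maskJ) (k : ℕ) (WL : List (ℕ × ℕ))
    (h : coreOK gsJ maskK nJ CJ maskJ WL = true) (hidx : nK = k * nJ)
    (hcard : 2 * nK = k.factorial) : Nonempty (KG gsK ≃* alternatingGroup (Fin k)) := by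
  obtain ⟨f, hf⟩ := perm_of_core hK hJ k WL h hidx
  have e1 : KG gsK ≃* f.range := MonoidHom.ofInjective hf
  have hc : Nat.card f.range = nK := by rw [← Nat.card_congr e1.toEquiv, hK.card]
  have hi : f.range.index = 2 := by
    have h1 := Subgroup.card_mul_index f.range
    rw [hc, Nat.card_eq_fintype_card, Fintype.card_perm, Fintype.card_fin, ← hcard] at h1
    have hpos : 0 < nK := by
      have := hK.card
      have h2 : 0 < Nat.card (KG gsK) := Nat.card_pos
      omega
    have h2 : nK * f.range.index = nK * 2 := by rw [h1, mul_comm]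
    exact Nat.eq_of_mul_eq_mul_left hpos h2
  have h2 := Equiv.Perm.eq_alternatingGroup_of_index_eq_two hi
  exact ⟨e1.trans (MulEquiv.subgroupCongr h2)⟩

/-! ### The upper left block -/

/-- the upper left block -/
def blk (g : M4) : Matrix (Fin 3) (Fin 3) (ZMod 2) := Matrix.of fun i j => g i.castSucc j.castSucc

theorem blk_one : blk 1 = 1 := by
  ext i j
  simp [blk, Matrix.one_apply]

/-- the matrices with last column `(0, 0, 0, *)` -/
def colS : Submonoid M4 where
  carrier := {g | ∀ i : Fin 3, g i.castSucc (Fin.last 3) = 0}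
  one_mem' := by
    intro i
    rw [Matrix.one_apply_ne (Fin.castSucc_lt_last i).ne]
  mul_mem' := by
    intro a b ha hb i
    have ha' : ∀ i : Fin 3, a i.castSucc (Fin.last 3) = 0 := ha
    have hb' : ∀ i : Fin 3, b i.castSucc (Fin.last 3) = 0 := hb
    rw [Matrix.mul_apply, Fin.sum_univ_castSucc, ha' i, zero_mul, add_zero]
    apply Finset.sum_eq_zero
    intro x _
    rw [hb' x, mul_zero]

/-- the matrices with last row `(0, 0, 0, *)` -/
def rowS : Submonoid M4 where
  carrier := {g | ∀ j : Fin 3, g (Fin.last 3) j.castSucc = 0}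
  one_mem' := by
    intro j
    rw [Matrix.one_apply_ne (Fin.castSucc_lt_last j).ne']
  mul_mem' := by
    intro a b ha hb j
    have ha' : ∀ j : Fin 3, a (Fin.last 3) j.castSucc = 0 := ha
    have hb' : ∀ j : Fin 3, b (Fin.last 3) j.castSucc = 0 := hb
    rw [Matrix.mul_apply, Fin.sum_univ_castSucc, hb' j, mul_zero, add_zero]
    apply Finset.sum_eq_zero
    intro x _
    rw [ha' x, zero_mul]

theorem blk_mul_col (g h : M4) (hg : g ∈ colS) (_ : h ∈ colS) : blk (g * h) = blk g * blk h := by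
  have hg' : ∀ i : Fin 3, g i.castSucc (Fin.last 3) = 0 := hg
  ext i j
  simp only [blk, Matrix.of_apply, Matrix.mul_apply, Fin.sum_univ_castSucc]
  rw [hg' i]
  simp

theorem blk_mul_row (g h : M4) (_ : g ∈ rowS) (hh : h ∈ rowS) : blk (g * h) = blk g * blk h := by
  have hh' : ∀ j : Fin 3, h (Fin.last 3) j.castSucc = 0 := hh
  ext i j
  simp only [blk, Matrix.of_apply, Matrix.mul_apply, Fin.sum_univ_castSucc]
  rw [hh' j]
  simp

theorem entry_val (M : M4) (i j : Fin 4) : bt (nib (code M) i.val) j.val = (M i j).val := by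
  rw [nib_code, bt_rowc]

/-- the last column is `(0, 0, 0, *)` -/
def colPat (c : ℕ) : Bool :=
  Nat.beq (bt (nib c 0) 3) 0 && Nat.beq (bt (nib c 1) 3) 0 && Nat.beq (bt (nib c 2) 3) 0

/-- the last row is `(0, 0, 0, *)` -/
def rowPat (c : ℕ) : Bool :=
  Nat.beq (bt (nib c 3) 0) 0 && Nat.beq (bt (nib c 3) 1) 0 && Nat.beq (bt (nib c 3) 2) 0

theorem val_zero' (x : ZMod 2) (h : x.val = 0) : x = 0 := (ZMod.val_eq_zero x).1 h

theorem colPat_mem (g : G) (h : colPat (cg g) = true) : (g : M4) ∈ colS := by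
  unfold colPat at h
  simp only [Bool.and_eq_true] at h
  obtain ⟨⟨h0, h1⟩, h2⟩ := h
  have e0 := entry_val (g : M4) 0 3
  have e1 := entry_val (g : M4) 1 3
  have e2 := entry_val (g : M4) 2 3
  have k0 : bt (nib (cg g) 0) 3 = 0 := Nat.eq_of_beq_eq_true h0
  have k1 : bt (nib (cg g) 1) 3 = 0 := Nat.eq_of_beq_eq_true h1
  have k2 : bt (nib (cg g) 2) 3 = 0 := Nat.eq_of_beq_eq_true h2
  intro i
  fin_cases i
  · exact val_zero' _ (e0.symm.trans k0)
  · exact val_zero' _ (e1.symm.trans k1)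
  · exact val_zero' _ (e2.symm.trans k2)

theorem rowPat_mem (g : G) (h : rowPat (cg g) = true) : (g : M4) ∈ rowS := by
  unfold rowPat at h
  simp only [Bool.and_eq_true] at h
  obtain ⟨⟨h0, h1⟩, h2⟩ := h
  have e0 := entry_val (g : M4) 3 0
  have e1 := entry_val (g : M4) 3 1
  have e2 := entry_val (g : M4) 3 2
  have k0 : bt (nib (cg g) 3) 0 = 0 := Nat.eq_of_beq_eq_true h0
  have k1 : bt (nib (cg g) 3) 1 = 0 := Nat.eq_of_beq_eq_true h1
  have k2 : bt (nib (cg g) 3) 2 = 0 := Nat.eq_of_beq_eq_true h2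
  intro j
  fin_cases j
  · exact val_zero' _ (e0.symm.trans k0)
  · exact val_zero' _ (e1.symm.trans k1)
  · exact val_zero' _ (e2.symm.trans k2)

/-- the upper left block is the identity -/
def blockId (c : ℕ) : Bool :=
  Nat.beq (bt (nib c 0) 0) 1 && Nat.beq (bt (nib c 0) 1) 0 && Nat.beq (bt (nib c 0) 2) 0 &&
  Nat.beq (bt (nib c 1) 0) 0 && Nat.beq (bt (nib c 1) 1) 1 && Nat.beq (bt (nib c 1) 2) 0 &&
  Nat.beq (bt (nib c 2) 0) 0 && Nat.beq (bt (nib c 2) 1) 0 && Nat.beq (bt (nib c 2) 2) 1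

theorem blockId_of (g : G) (h : blk (g : M4) = 1) : blockId (cg g) = true := by
  have hh : ∀ i j : Fin 3, (g : M4) i.castSucc j.castSucc = (1 : Matrix (Fin 3) (Fin 3) (ZMod 2)) i j := by
    intro i j
    have := congrFun (congrFun h i) j
    simpa [blk] using this
  have key : ∀ i j : Fin 3, bt (nib (cg g) i.val) j.val = if i = j then 1 else 0 := by
    intro i j
    have e := entry_val (g : M4) i.castSucc j.castSucc
    have e' : bt (nib (cg g) i.val) j.val = ((g : M4) i.castSucc j.castSucc).val := e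
    rw [e', hh i j, Matrix.one_apply]
    split_ifs
    · rfl
    · rfl
  unfold blockId
  have k00 := key 0 0; have k01 := key 0 1; have k02 := key 0 2
  have k10 := key 1 0; have k11 := key 1 1; have k12 := key 1 2
  have k20 := key 2 0; have k21 := key 2 1; have k22 := key 2 2
  simp only [Fin.val_zero, Fin.val_one, Fin.val_two] at k00 k01 k02 k10 k11 k12 k20 k21 k22
  rw [k00, k01, k02, k10, k11, k12, k20, k21, k22]
  decide

theorem card_GL3 : Nat.card (GL (Fin 3) (ZMod 2)) = 168 := by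
  have h := Matrix.card_GL_field (𝔽 := ZMod 2) 3
  rw [h]
  simp [Fin.prod_univ_three, ZMod.card]

/-- the certificate of an isomorphism with `GL(3,2)` -/
def gl3OK (pat : ℕ → Bool) (gs : List ℕ) (n C : ℕ) : Bool :=
  forceN C fun C =>
  Nat.beq n 168 && gs.all pat &&
    allI (fun i => forceN (ec C i) fun c => Nat.beq c idc || !blockId c) n

theorem gl3_iso {gs : List ℕ} {n C mask : ℕ} (hc : Cert gs n C mask) (S : Submonoid M4)
    (hS : ∀ g h : M4, g ∈ S → h ∈ S → blk (g * h) = blk g * blk h)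
    (pat : ℕ → Bool) (hpat : ∀ g : G, pat (cg g) = true → (g : M4) ∈ S)
    (h : gl3OK pat gs n C = true) : Nonempty (KG gs ≃* GL (Fin 3) (ZMod 2)) := by
  classical
  unfold gl3OK at h
  simp only [forceN_eq, Bool.and_eq_true] at h
  obtain ⟨⟨hn, hgs⟩, hinj⟩ := h
  have hn' : n = 168 := Nat.eq_of_beq_eq_true hn
  rw [allI_iff] at hinj
  have hKS : ∀ k ∈ KG gs, ((k : G) : M4) ∈ S := by
    intro k hk
    have hk' : k ∈ Submonoid.closure {g : G | cg g ∈ gs} := by
      rw [← Subgroup.closure_toSubmonoid_of_finite]; exact hk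
    have : Submonoid.closure {g : G | cg g ∈ gs} ≤ S.comap (Units.coeHom M4) := by
      apply (Submonoid.closure_le).2
      intro g hg
      have hg' : cg g ∈ gs := hg
      exact hpat g (List.all_eq_true.1 hgs _ hg')
    exact this hk'
  let f : KG gs →* Matrix (Fin 3) (Fin 3) (ZMod 2) :=
    { toFun := fun k => blk ((k : G) : M4)
      map_one' := blk_one
      map_mul' := fun a b => hS _ _ (hKS a a.2) (hKS b b.2) }
  have hfinj : Function.Injective f.toHomUnits := by
    rw [injective_iff_map_eq_one]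
    intro a ha
    have h0 : f a = 1 := by
      have := congrArg (fun u : (Matrix (Fin 3) (Fin 3) (ZMod 2))ˣ =>
        (u : Matrix (Fin 3) (Fin 3) (ZMod 2))) ha
      simpa [MonoidHom.coe_toHomUnits] using this
    have h1 : blk ((a : G) : M4) = 1 := h0
    have h2 := blockId_of (a : G) h1
    obtain ⟨i, hi, e⟩ := hc.ent_mem a.2
    have h3 := hinj i hi
    rw [e, h2] at h3
    simp only [Bool.not_true, Bool.or_false] at h3
    have h4 : cg (a : G) = cg (1 : G) := by rw [cg_one]; exact Nat.eq_of_beq_eq_true h3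
    exact Subtype.ext (cg_inj h4)
  have hbij : Function.Bijective f.toHomUnits := by
    apply hfinj.bijective_of_nat_card_le
    rw [hc.card, hn']
    exact le_of_eq card_GL3
  exact ⟨MulEquiv.ofBijective f.toHomUnits hbij⟩

theorem gl3_iso_col {gs : List ℕ} {n C mask : ℕ} (hc : Cert gs n C mask)
    (h : gl3OK colPat gs n C = true) : Nonempty (KG gs ≃* GL (Fin 3) (ZMod 2)) :=
  gl3_iso hc colS blk_mul_col colPat colPat_mem h

theorem gl3_iso_row {gs : List ℕ} {n C mask : ℕ} (hc : Cert gs n C mask)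
    (h : gl3OK rowPat gs n C = true) : Nonempty (KG gs ≃* GL (Fin 3) (ZMod 2)) :=
  gl3_iso hc rowS blk_mul_row rowPat rowPat_mem h

end Cfsg.Agent.Lib.Helper60.GL4
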