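import Cfsg.Agent.Lib.Helper60.GL4Grp

set_option autoImplicit false

/-!
# GL(4,2) (helper60): families of subgroups closed under adjoining an element

A family is a list of pairs (generators, mask).  For a member `K` and the elements `g` of a
table `E`, a certificate shows that `K ⊔ ⟨g⟩` is again a member: `g = k * t * k'` with `k, k'` in
`K` and `t` one of a few representatives, and `K ⊔ ⟨t⟩` is identified by words.
-/

namespace Cfsg.Agent.Lib.Helper60.GL4

theorem maskOK_spec {n C mask : ℕ} (h : maskOK n C mask = true) :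
    ∀ c, Nat.testBit mask c = true ↔ ∃ i, i < n ∧ ec C i = c := by
  unfold maskOK at h
  simp only [Bool.and_eq_true] at h
  obtain ⟨hn32, hm⟩ := h
  have hn32' : n < 4294967296 := by simpa [Nat.blt_eq] using hn32
  have hS : orLS (ec C) n 0 = (orL (ec C) n 0 0).map (fun m => enc m (0 + n)) := by
    have := orLS_eq (ec C) n 0 0 (by omega)
    have e0 : enc 0 0 = 0 := rfl
    rw [e0] at this
    exact this
  rw [hS] at hm
  cases hor : orL (ec C) n 0 0 with
  | none => rw [hor] at hm; simp at hm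
  | some m =>
    rw [hor] at hm
    simp only [Option.map_some] at hm
    have hmm : m = mask := by
      have h1 : enc m (0 + n) = enc mask n := Nat.eq_of_beq_eq_true hm
      rw [enc_eq, enc_eq] at h1
      omega
    subst hmm
    obtain ⟨hbits, _⟩ := orL_spec (ec C) n 0 0 m hor
    intro c
    rw [hbits c]
    constructor
    · rintro (h | ⟨l, _, h2, h3⟩)
      · simp at h
      · exact ⟨l, by omega, h3⟩
    · rintro ⟨i, h1, h2⟩
      exact Or.inr ⟨i, Nat.zero_le _, by omega, h2⟩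

/-- some index below `n` has the property -/
def anyI (f : ℕ → Bool) : ℕ → Bool
  | 0 => false
  | Nat.succ n => f n || anyI f n

theorem anyI_iff (f : ℕ → Bool) (n : ℕ) : anyI f n = true ↔ ∃ i, i < n ∧ f i = true := by
  induction n with
  | zero => simp [anyI]
  | succ n ih =>
    simp only [anyI, Bool.or_eq_true, ih]
    constructor
    · rintro (h | ⟨i, hi, h⟩)
      · exact ⟨n, Nat.lt_succ_self n, h⟩
      · exact ⟨i, Nat.lt_succ_of_lt hi, h⟩
    · rintro ⟨i, hi, h⟩
      rcases Nat.lt_succ_iff_lt_or_eq.1 hi with h' | h'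
      · exact Or.inr ⟨i, h', h⟩
      · subst h'; exact Or.inl h

/-- what is known of the members of a family: pairs (generators, mask) -/
def FamOK (fam : List (List ℕ × ℕ)) : Prop :=
  ∀ q ∈ fam, (∀ g : G, g ∈ KG q.1 ↔ Nat.testBit q.2 (cg g) = true) ∧
    (∀ c : ℕ, Nat.testBit q.2 c = true → ∃ g : G, cg g = c) ∧ (∀ s ∈ q.1, ∃ g : G, cg g = s)

theorem Cert.famOK {gs : List ℕ} {n T mask : ℕ} (h : Cert gs n T mask) :
    (∀ g : G, g ∈ KG gs ↔ Nat.testBit mask (cg g) = true) ∧
    (∀ c : ℕ, Nat.testBit mask c = true → ∃ g : G, cg g = c) ∧ (∀ s ∈ gs, ∃ g : G, cg g = s) :=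
  ⟨h.mem_iff, fun _ hc => let ⟨g, _, e⟩ := h.mem_of_bit hc; ⟨g, e⟩, h.gen_ex⟩

/-- the product of the letters of a word -/
def evalw (al : List ℕ) : List ℕ → ℕ → ℕ
  | [], acc => acc
  | i :: w, acc => forceN (mulc acc (al.getD i idc)) fun a => evalw al w a

theorem evalw_mem (L : Subgroup G) (al : List ℕ) (hal : ∀ s ∈ al, ∃ g : G, g ∈ L ∧ cg g = s) :
    ∀ (w : List ℕ) (acc : ℕ), (∃ g : G, g ∈ L ∧ cg g = acc) →
      ∃ g : G, g ∈ L ∧ cg g = evalw al w acc := by
  intro w
  induction w with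
  | nil => intro acc h; exact h
  | cons i w ih =>
    intro acc ⟨g, hg, e⟩
    simp only [evalw, forceN_eq]
    apply ih
    have : ∃ g' : G, g' ∈ L ∧ cg g' = al.getD i idc := by
      by_cases hi : i < al.length
      · rw [List.getD_eq_getElem _ _ hi]; exact hal _ (List.getElem_mem hi)
      · rw [List.getD_eq_default _ _ (by omega)]; exact ⟨1, L.one_mem, cg_one⟩
    obtain ⟨g', hg', e'⟩ := this
    exact ⟨g * g', L.mul_mem hg hg', by rw [cg_mul, e, e']⟩

/-- the words give the target generators -/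
def wordsOK (al : List ℕ) : List ℕ → List (List ℕ) → Bool
  | [], [] => true
  | s :: ts, w :: ws => Nat.beq (evalw al w idc) s && wordsOK al ts ws
  | _, _ => false

theorem wordsOK_mem (L : Subgroup G) (al : List ℕ)
    (hal : ∀ s ∈ al, ∃ g : G, g ∈ L ∧ cg g = s) :
    ∀ (ts : List ℕ) (ws : List (List ℕ)), wordsOK al ts ws = true →
      ∀ s ∈ ts, ∃ g : G, g ∈ L ∧ cg g = s := by
  intro ts
  induction ts with
  | nil => intro ws _ s hs; simp at hs
  | cons t ts ih =>
    intro ws h s hs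
    cases ws with
    | nil => simp [wordsOK] at h
    | cons w ws =>
      simp only [wordsOK, Bool.and_eq_true] at h
      rcases List.mem_cons.1 hs with rfl | hs
      · have := evalw_mem L al hal w idc ⟨1, L.one_mem, cg_one⟩
        rw [Nat.eq_of_beq_eq_true h.1] at this
        exact this
      · exact ih ws h.2 s hs

/-- the check of one representative `t`: `e` is the index of the target and the words -/
def repOK (fam : List (List ℕ × ℕ)) (gs : List ℕ) (t : ℕ) (e : ℕ × List (List ℕ)) : Bool :=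
  Nat.blt e.1 fam.length &&
  (forceN (fam.getD e.1 ([], 0)).2 fun tm =>
    tbit tm t && gs.all (fun s => tbit tm s) && wordsOK (t :: gs) (fam.getD e.1 ([], 0)).1 e.2)

theorem repOK_sound {fam : List (List ℕ × ℕ)} {gs : List ℕ} {t : ℕ} {e : ℕ × List (List ℕ)}
    (hfam : FamOK fam) (hgs : ∀ s ∈ gs, ∃ g : G, cg g = s) (h : repOK fam gs t e = true) :
    ∃ q ∈ fam, ∃ τ : G, cg τ = t ∧ KG gs ⊔ Subgroup.zpowers τ = KG q.1 := by
  unfold repOK at h
  simp only [forceN_eq, Bool.and_eq_true, tbit_eq] at h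
  obtain ⟨hlt, ⟨ht, hg⟩, hw⟩ := h
  have hlt' : e.1 < fam.length := by simpa [Nat.blt_eq] using hlt
  have hq : fam.getD e.1 ([], 0) ∈ fam := by
    rw [List.getD_eq_getElem _ _ hlt']; exact List.getElem_mem hlt'
  generalize fam.getD e.1 ([], 0) = q at hq ht hg hw
  obtain ⟨hmem, hbit, hgen⟩ := hfam q hq
  obtain ⟨τ, hτ⟩ := hbit t ht
  have hτq : τ ∈ KG q.1 := (hmem τ).2 (by rw [hτ]; exact ht)
  refine ⟨q, hq, τ, hτ, le_antisymm ?_ ?_⟩
  · apply sup_le
    · apply (Subgroup.closure_le _).2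
      intro g hg'
      have h1 : cg g ∈ gs := hg'
      exact (hmem g).2 (List.all_eq_true.1 hg _ h1)
    · exact (Subgroup.zpowers_le).2 hτq
  · apply (Subgroup.closure_le _).2
    intro g hg'
    have hs : cg g ∈ q.1 := hg'
    have hal : ∀ s ∈ t :: gs, ∃ g : G, g ∈ KG gs ⊔ Subgroup.zpowers τ ∧ cg g = s := by
      intro s hs
      rcases List.mem_cons.1 hs with rfl | hs
      · exact ⟨τ, (le_sup_right : Subgroup.zpowers τ ≤ _) (Subgroup.mem_zpowers τ), hτ⟩
      · obtain ⟨g, e⟩ := hgs s hs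
        refine ⟨g, (le_sup_left : KG gs ≤ _) (Subgroup.subset_closure ?_), e⟩
        show cg g ∈ gs
        rw [e]; exact hs
    obtain ⟨g', hg'', e'⟩ := wordsOK_mem _ _ hal _ _ hw _ hs
    have : g = g' := cg_inj e'.symm
    rw [this]; exact hg''

/-- the checks of the representatives, the `j`-th one being the `j`-th entry of the table -/
def repsOK (fam : List (List ℕ × ℕ)) (gs : List ℕ) (RT : ℕ) :
    List (ℕ × List (List ℕ)) → ℕ → Bool
  | [], _ => true
  | e :: R, j => (forceN (tab 16 RT j) fun t => repOK fam gs t e) &&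
      (forceN (Nat.add j 1) fun j' => repsOK fam gs RT R j')

theorem repsOK_sound {fam : List (List ℕ × ℕ)} {gs : List ℕ} {RT : ℕ} :
    ∀ (R : List (ℕ × List (List ℕ))) (j0 : ℕ), repsOK fam gs RT R j0 = true →
      ∀ j, j0 ≤ j → j < j0 + R.length → ∃ e, repOK fam gs (tab 16 RT j) e = true := by
  intro R
  induction R with
  | nil => intro j0 _ j h1 h2; simp at h2; omega
  | cons e R ih =>
    intro j0 h j h1 h2
    simp only [repsOK, forceN_eq, Bool.and_eq_true] at h
    rcases Nat.eq_or_lt_of_le h1 with e1 | e1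
    · subst e1; exact ⟨e, h.1⟩
    · refine ih (j0 + 1) h.2 j e1 ?_
      simp only [List.length_cons] at h2
      omega

theorem sup_zpowers_conj {K : Subgroup G} {κ κ' : G} (hκ : κ ∈ K) (hκ' : κ' ∈ K) (τ : G) :
    K ⊔ Subgroup.zpowers (κ * τ * κ') = K ⊔ Subgroup.zpowers τ := by
  apply le_antisymm
  · apply sup_le le_sup_left
    rw [Subgroup.zpowers_le]
    exact Subgroup.mul_mem _ (Subgroup.mul_mem _ ((le_sup_left : K ≤ _) hκ)
      ((le_sup_right : Subgroup.zpowers τ ≤ _) (Subgroup.mem_zpowers τ)))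
      ((le_sup_left : K ≤ _) hκ')
  · apply sup_le le_sup_left
    rw [Subgroup.zpowers_le]
    have h2 : κ⁻¹ * (κ * τ * κ') * κ'⁻¹ = τ := by group
    have h3 := Subgroup.mul_mem _ (Subgroup.mul_mem _
      ((le_sup_left : K ≤ K ⊔ Subgroup.zpowers (κ * τ * κ')) (K.inv_mem hκ))
      ((le_sup_right : Subgroup.zpowers (κ * τ * κ') ≤ K ⊔ Subgroup.zpowers (κ * τ * κ'))
        (Subgroup.mem_zpowers _)))
      ((le_sup_left : K ≤ K ⊔ Subgroup.zpowers (κ * τ * κ')) (K.inv_mem hκ'))
    rwa [h2] at h3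

/-- the step certificate of a member `(gs, mask)` of the family over the table `E` -/
def stepOK (fam : List (List ℕ × ℕ)) (gs : List ℕ) (mask nE E W1 W2 W3 RT : ℕ)
    (R : List (ℕ × List (List ℕ))) : Bool :=
  forceN mask fun mask => forceN E fun E => forceN W1 fun W1 => forceN W2 fun W2 =>
  forceN W3 fun W3 => forceN RT fun RT => forceN R.length fun nR =>
  repsOK fam gs RT R 0 &&
  allI (fun i => forceN (tab 16 E i) fun c => tbit mask c ||
    (forceN (tab 16 W1 i) fun k => forceN (tab 16 W2 i) fun j => forceN (tab 16 W3 i) fun k' =>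
      tbit mask k && tbit mask k' && Nat.blt j nR &&
        Nat.beq c (mulc (mulc k (tab 16 RT j)) k'))) nE

theorem step_sound {fam : List (List ℕ × ℕ)} {gs : List ℕ} {mask nE E W1 W2 W3 RT : ℕ}
    {R : List (ℕ × List (List ℕ))} (hfam : FamOK fam) (hmem : (gs, mask) ∈ fam)
    (h : stepOK fam gs mask nE E W1 W2 W3 RT R = true) (g : G)
    (hg : ∃ i, i < nE ∧ tab 16 E i = cg g) :
    ∃ q ∈ fam, KG gs ⊔ Subgroup.zpowers g = KG q.1 := by
  unfold stepOK at h
  simp only [forceN_eq, Bool.and_eq_true] at h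
  obtain ⟨hreps, hall⟩ := h
  rw [allI_iff] at hall
  obtain ⟨hm, hb, hgen⟩ := hfam _ hmem
  obtain ⟨i, hi, ei⟩ := hg
  have := hall i hi
  simp only [Bool.or_eq_true, Bool.and_eq_true, tbit_eq] at this
  rcases this with h1 | ⟨⟨⟨hk, hk'⟩, hj⟩, hc⟩
  · refine ⟨_, hmem, ?_⟩
    rw [ei] at h1
    have : g ∈ KG gs := (hm g).2 h1
    exact sup_eq_left.2 (Subgroup.zpowers_le.2 this)
  · have hj' : tab 16 W2 i < R.length := by simpa [Nat.blt_eq] using hj
    obtain ⟨e, he⟩ := repsOK_sound R 0 hreps (tab 16 W2 i) (Nat.zero_le _) (by omega)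
    obtain ⟨q, hq, τ, hτ, hsup⟩ := repOK_sound hfam hgen he
    obtain ⟨κ, eκ⟩ := hb _ hk
    obtain ⟨κ', eκ'⟩ := hb _ hk'
    have hκ : κ ∈ KG gs := (hm κ).2 (by rw [eκ]; exact hk)
    have hκ' : κ' ∈ KG gs := (hm κ').2 (by rw [eκ']; exact hk')
    have hgg : g = κ * τ * κ' := by
      apply cg_inj
      rw [cg_mul, cg_mul, eκ, eκ', hτ, ← ei]
      exact Nat.eq_of_beq_eq_true hc
    refine ⟨q, hq, ?_⟩
    rw [hgg, sup_zpowers_conj hκ hκ', hsup]

end Cfsg.Agent.Lib.Helper60.GL4
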