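import Cfsg.Agent.Lib.Helper60.HJStmt

/-!
# S3313: assembly of the pieces of `HJStmt`
-/

set_option autoImplicit false

namespace Cfsg.Agent.Lib.Helper60.HJFinal

open Cfsg.Agent.Lib.Helper60.HJStmt

universe u

theorem final_of (hInv1 : Inv1.{u}) (hOrdF : OrdF.{u}) (hDC : DC.{u}) (hA5Cnt : A5Cnt)
    (hA5Inv : A5Inv) (hESA : ESA.{u}) (hESB : ESB.{u}) (hCtx : Ctx.{u}) (hCard : Card.{u})
    (hAT : AT.{u}) (hXT : XT.{u}) (hN2 : N2.{u}) (hF1 : F1.{u}) (hQInv : QInv.{u}) (hF4 : F4.{u})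
    (hAZSet : AZSet.{u}) (hAZCnt : AZCnt.{u})
    {G : Type u} [Group G] [Finite G]
    [IsSimpleGroup G] (hna : ¬ IsMulCommutative G) (z t : G) (hz : orderOf z = 2) (ht : orderOf t = 2)
    (hzt : ¬ IsConj z t) (hcl : ∀ x : G, orderOf x = 2 → IsConj x z ∨ IsConj x t)
    (hex : Cfsg.IsExtraspecial 2 ↥(Cfsg.generalizedFittingSubgroup ↥(Subgroup.centralizer ({z} : Set G))))
    (hQ : Nat.card ↥(Cfsg.pCore 2 ↥(Subgroup.centralizer ({z} : Set G))) = 32)
    (K : Subgroup G) (hK : Nonempty (↥K ≃* alternatingGroup (Fin 5)))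
    (hKC : K ⊔ (Cfsg.pCore 2 ↥(Subgroup.centralizer ({z} : Set G))).map (Subgroup.centralizer ({z} : Set G)).subtype = Subgroup.centralizer ({z} : Set G))
    (hKQ : K ⊓ (Cfsg.pCore 2 ↥(Subgroup.centralizer ({z} : Set G))).map (Subgroup.centralizer ({z} : Set G)).subtype = ⊥)
    (hQz : ∀ x ∈ (Cfsg.pCore 2 ↥(Subgroup.centralizer ({z} : Set G))).map (Subgroup.centralizer ({z} : Set G)).subtype, orderOf x = 2 → IsConj x z)
    (hCz : ∀ x ∈ Subgroup.centralizer ({z} : Set G), orderOf x = 2 →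
      x ∉ (Cfsg.pCore 2 ↥(Subgroup.centralizer ({z} : Set G))).map (Subgroup.centralizer ({z} : Set G)).subtype → IsConj x t)
    (V B : Subgroup G) (hVB : Cfsg.IsInternalDirectProduct V B (Subgroup.centralizer ({t} : Set G)))
    (hV : Nat.card ↥V = 4) (hV2 : ∀ v ∈ V, v ^ 2 = 1) (htV : t ∈ V) (hB : Nonempty (↥B ≃* alternatingGroup (Fin 5)))
    (hBz : ∀ x ∈ B, orderOf x = 2 → IsConj x z)
    (hCt : ∀ x ∈ Subgroup.centralizer ({t} : Set G), orderOf x = 2 → x ∉ B → IsConj x t) :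
    Nat.card G = 604800 := by
  have h := hCtx G hna z t hz ht hzt hcl hex hQ K hK hKC hKQ hQz hCz V B hVB hV hV2 htV hB hBz hCt
  generalize (Cfsg.pCore 2 ↥(Subgroup.centralizer ({z} : Set G))).map
    (Subgroup.centralizer ({z} : Set G)).subtype = Q at h
  obtain ⟨hc1, hc2⟩ := hCard G z t Q K V B h
  have hat := hAT hA5Cnt G z t Q K V B h
  obtain ⟨hx15, hx2⟩ := hXT hA5Inv G z t Q K V B h
  have hn2 := hN2 hDC G z t Q K V B h hc1 hc2 hx15
  have hf1 := hF1 G z t Q K V B h hx2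
  obtain ⟨hq11, hnoE8⟩ := hQInv hESA hESB hA5Inv.2.2 G z t Q K V B h
  have hf4 := hF4 G z t Q K V B h hnoE8
  have hset := hAZSet G z t Q K V B h hf4
  have hcnt := hAZCnt G z Q h.z_mem h.hz hq11 hn2 hf1
  have haz : Nat.card {p : G × G // IsConj p.1 z ∧ IsConj p.2 t ∧
      ∃ n : ℕ, (p.1 * p.2) ^ n = z} = 960 := by
    rw [← hcnt]
    exact Nat.card_congr (Equiv.subtypeEquivRight hset)
  have hord := hOrdF hInv1 G z t hz ht hzt hcl
  rw [hc1, hc2, haz, hat] at hord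
  exact hord

end Cfsg.Agent.Lib.Helper60.HJFinal
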