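import Cfsg.Agent.Lib.Helper60.J1Cent

set_option autoImplicit false

/-!
# J1 project (helper60): the set of element orders of `J1` is `{1,2,3,5,6,7,10,11,15,19}`
-/

namespace Cfsg.Agent.Lib.Helper60.J1

open Cfsg

theorem dvd6 (n : ℕ) (h : n ∣ 6) : n = 1 ∨ n = 2 ∨ n = 3 ∨ n = 6 := by
  have h1 := Nat.le_of_dvd (by norm_num) h
  have h2 := Nat.pos_of_dvd_of_pos h (by norm_num)
  interval_cases n <;> omega

theorem dvd10 (n : ℕ) (h : n ∣ 10) : n = 1 ∨ n = 2 ∨ n = 5 ∨ n = 10 := by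
  have h1 := Nat.le_of_dvd (by norm_num) h
  have h2 := Nat.pos_of_dvd_of_pos h (by norm_num)
  interval_cases n <;> omega

theorem dvd15 (n : ℕ) (h : n ∣ 15) : n = 1 ∨ n = 3 ∨ n = 5 ∨ n = 15 := by
  have h1 := Nat.le_of_dvd (by norm_num) h
  have h2 := Nat.pos_of_dvd_of_pos h (by norm_num)
  interval_cases n <;> omega

/-- the possible element orders of `J1` -/
theorem orderOf_cases (g : ↥Cfsg.Spor.J1) :
    orderOf g = 1 ∨ orderOf g = 2 ∨ orderOf g = 3 ∨ orderOf g = 5 ∨ orderOf g = 6 ∨ orderOf g = 7 ∨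
      orderOf g = 10 ∨ orderOf g = 11 ∨ orderOf g = 15 ∨ orderOf g = 19 := by
  have hn : orderOf g ∣ 175560 := by
    have h := orderOf_dvd_natCard g
    rwa [card_J1] at h
  have hpos := orderOf_pos g
  by_cases h7 : 7 ∣ orderOf g
  · have := ord7 g h7; omega
  by_cases h11 : 11 ∣ orderOf g
  · have := ord11 g h11; omega
  by_cases h19 : 19 ∣ orderOf g
  · have := ord19 g h19; omega
  by_cases h2 : 2 ∣ orderOf g
  · have ht' : orderOf (g ^ (orderOf g / 2)) = 2 := orderOf_pow_orderOf_div hpos.ne' h2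
    obtain ⟨x, hx⟩ := invol_conj _ ht'
    have hc : Commute (x * g * x⁻¹) tI := by
      have hc0 : Commute g (g ^ (orderOf g / 2)) := (Commute.refl g).pow_right _
      have e1 : x * g * x⁻¹ * (x * g ^ (orderOf g / 2) * x⁻¹) = x * (g * g ^ (orderOf g / 2)) * x⁻¹ := by
        group
      have e2 : x * g ^ (orderOf g / 2) * x⁻¹ * (x * g * x⁻¹) = x * (g ^ (orderOf g / 2) * g) * x⁻¹ := by
        group
      show x * g * x⁻¹ * tI = tI * (x * g * x⁻¹)
      rw [tI, ← hx, e1, e2, hc0.eq]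
    have hpow : ∀ k : ℕ, (x * g * x⁻¹) ^ k = 1 → g ^ k = 1 := by
      intro k hk
      have e : (x * g * x⁻¹) ^ k = x * g ^ k * x⁻¹ := by
        have h5 := map_pow (MulAut.conj x) g k
        rw [MulAut.conj_apply, MulAut.conj_apply] at h5
        exact h5.symm
      rw [e] at hk
      have e2 : g ^ k = x⁻¹ * (x * g ^ k * x⁻¹) * x := by group
      rw [e2, hk]; group
    rcases cent_pow _ hc with h | h
    · have := dvd6 _ (orderOf_dvd_of_pow_eq_one (hpow 6 h)); omega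
    · have := dvd10 _ (orderOf_dvd_of_pow_eq_one (hpow 10 h)); omega
  · have c2 : Nat.Coprime (orderOf g) 2 := ((Nat.Prime.coprime_iff_not_dvd Nat.prime_two).2 h2).symm
    have c7 : Nat.Coprime (orderOf g) 7 :=
      ((Nat.Prime.coprime_iff_not_dvd (by norm_num : Nat.Prime 7)).2 h7).symm
    have c11 : Nat.Coprime (orderOf g) 11 :=
      ((Nat.Prime.coprime_iff_not_dvd (by norm_num : Nat.Prime 11)).2 h11).symm
    have c19 : Nat.Coprime (orderOf g) 19 :=
      ((Nat.Prime.coprime_iff_not_dvd (by norm_num : Nat.Prime 19)).2 h19).symm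
    have c : Nat.Coprime (orderOf g) (2 ^ 3 * 7 * 11 * 19) :=
      (((c2.pow_right 3).mul_right c7).mul_right c11).mul_right c19
    have e : (175560 : ℕ) = 15 * (2 ^ 3 * 7 * 11 * 19) := by norm_num
    rw [e] at hn
    have := dvd15 _ (c.dvd_of_dvd_mul_right hn); omega

/-- the spectrum of `J1` -/
theorem spec_J1 : Set.range (orderOf : ↥Cfsg.Spor.J1 → ℕ) = {1, 2, 3, 5, 6, 7, 10, 11, 15, 19} := by
  ext n
  simp only [Set.mem_range, Set.mem_insert_iff, Set.mem_singleton_iff]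
  constructor
  · rintro ⟨g, rfl⟩
    exact orderOf_cases g
  · rintro (rfl | rfl | rfl | rfl | rfl | rfl | rfl | rfl | rfl | rfl)
    · exact ⟨1, orderOf_one⟩
    · exact ⟨ev gen1 [1, 1, 1, 1, 0, 1, 0], orderOf_ev _ 2 (by norm_num) (by decide +kernel)⟩
    · exact ⟨ev gen1 [1, 0, 1, 0, 1, 0, 0, 0], orderOf_ev _ 3 (by norm_num) (by decide +kernel)⟩
    · exact ⟨ev gen1 [1], orderOf_ev _ 5 (by norm_num) (by decide +kernel)⟩
    · exact ⟨ev gen1 [1, 1, 1, 0], orderOf_ev _ 6 (by norm_num) (by decide +kernel)⟩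
    · exact ⟨ev gen1 [0], orderOf_ev _ 7 (by norm_num) (by decide +kernel)⟩
    · exact ⟨ev gen1 [1, 0], orderOf_ev _ 10 (by norm_num) (by decide +kernel)⟩
    · exact ⟨ev gen1 [1, 1, 0], orderOf_ev _ 11 (by norm_num) (by decide +kernel)⟩
    · exact ⟨ev gen1 [1, 1, 0, 1, 0, 1, 1, 0, 0], orderOf_ev _ 15 (by norm_num) (by decide +kernel)⟩
    · exact ⟨ev gen1 [1, 0, 0, 0], orderOf_ev _ 19 (by norm_num) (by decide +kernel)⟩

end Cfsg.Agent.Lib.Helper60.J1
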