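import Cfsg.Agent.Lib.Helper60.J2PrimData

/-!
# Kernel-checked certificates for primitivity on the 315 reflections (helper60)
-/

set_option autoImplicit false

namespace Cfsg.Agent.H60J2

/-- The table action of generator `t` on the index `j`. -/
def tabN (t j : Nat) : Nat := (j2Tab.getD t []).getD j 0

/-- The action of a word in the generators (the first letter acts first). -/
def actN (w : List Nat) (x : Nat) : Nat := w.foldl (fun y t => tabN t y) x

/-- The orbit index of a point. -/
def orbT (c : Nat) : Nat := orbTab.getD c 0

/-- The representative of an orbit. -/
def repOf (o : Nat) : Nat := orbReps.getD o 0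

/-- Check of the reduction word of the point `c`. -/
def redOK (c : Nat) : Bool :=
  (redWords.getD c []).all (fun t => decide (t < 4)) && decide (orbT c ∈ [1, 2, 3, 4, 5]) &&
    decide (repOf (orbT c) < 315) && decide (actN (redWords.getD c []) 0 = 0) &&
    decide (actN (redWords.getD c []) (repOf (orbT c)) = c) &&
    decide (actN (redWords.getD c []).reverse 0 = 0) &&
    decide (actN (redWords.getD c []).reverse c = repOf (orbT c))

theorem red_check : (List.range 315).all (fun c => c == 0 || redOK c) = true := by
  decide +kernel

/-- Check of a list of steps joining the orbits. -/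
def crossOK : List (Nat × Nat × List Nat) → List Nat → Bool
  | [], known => (List.range 315).all (fun c => known.contains (orbT c))
  | e :: rest, known =>
      decide (e.1 < 315) && decide (e.2.1 < 315) && e.2.2.all (fun t => decide (t < 4)) &&
        known.contains (orbT e.1) && known.contains (orbT e.2.1) &&
        known.contains (orbT (actN e.2.2 e.1)) && crossOK rest (orbT (actN e.2.2 e.2.1) :: known)

theorem cross_check :
    [1, 2, 3, 4, 5].all (fun i => crossOK (crossSteps.getD i []) [0, i]) = true := by
  decide +kernel

theorem orbT_zero : orbT 0 = 0 := by decide +kernel

/-- Two generators do not commute in the action on the 315 points. -/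
theorem tab_noncomm : ∃ j, j < 315 ∧ tabN 0 (tabN 1 j) ≠ tabN 1 (tabN 0 j) := by
  decide +kernel

end Cfsg.Agent.H60J2
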