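import Cfsg.Agent.Lib.Helper60.J2FusData
import Cfsg.Agent.Lib.Helper60.J2PrimCert

/-!
# Kernel-checked certificates for the 2-fusion system of the Hall–Janko group (helper60)
-/

set_option autoImplicit false

namespace Cfsg.Agent.H60J2

/-- The `k`-th word of a list of words. -/
def fW (l : List (List Nat)) (k : Nat) : List Nat := l.getD k []

/-- All letters are generator indices. -/
def okW (w : List Nat) : Bool := w.all (fun t => decide (t < 4))

/-- Two words act in the same way on the four base points. -/
def baseEq (u v : List Nat) : Bool :=
  okW u && okW v && [0, 131, 61, 254].all (fun b => actN u b == actN v b)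

/-- The word of the reflection of index `y`. -/
def fusDw (y : Nat) : List Nat := (fW fusWTo y).reverse ++ 0 :: fW fusWTo y

/-- The word of a product of reflections. -/
def fusQw : List Nat → List Nat
  | [] => []
  | f :: fs => fusDw f ++ fusQw fs

theorem fus_wTo_check : (List.range 315).all
    (fun y => okW (fW fusWTo y) && actN (fW fusWTo y) 0 == y) = true := by
  decide +kernel

theorem fus_fix_check : (List.range 315).all
    (fun x => tabN 0 x != x || fusF0.contains x) = true := by
  decide +kernel

theorem fus_F0_check : fusF0.all (fun f => decide (f < 315) && tabN 0 f == f) = true := by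
  decide +kernel

/-- Left multiplication table. -/
def fusSigma (i k : Nat) : Nat := (fusSig.getD i []).getD k 0

theorem fus_sig_check : (List.range 6).all (fun i => (List.range 128).all (fun k =>
    decide (fusSigma i k < 128) &&
      baseEq (fW fusL k ++ fW fusGen i) (fW fusL (fusSigma i k)))) = true := by
  decide +kernel

/-- Check of the spanning tree. -/
def fusTreeOK : List (Nat × Nat × Nat) → List Nat → Bool
  | [], known => (List.range 128).all (fun k => known.contains k)
  | e :: es, known => known.contains e.2.2 && decide (e.2.1 < 6) &&
      decide (fusSigma e.2.1 e.2.2 = e.1) && fusTreeOK es (e.1 :: known)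

theorem fus_tree_check : fusTreeOK fusTree [17] = true := by decide +kernel

theorem fus_id_check : fW fusL 17 = [] := by decide +kernel

/-- The key of a word: the images of the base points. -/
def fusKey (w : List Nat) : Nat :=
  actN w 0 + 315 * actN w 131 + 315 ^ 2 * actN w 61 + 315 ^ 3 * actN w 254

theorem fus_key_check : (List.range 128).all
    (fun k => fusKey (fW fusL k) == fusKeys.getD k 0) = true := by
  decide +kernel

theorem fus_key_nodup : (List.range 128).all (fun a => (List.range 128).all
    (fun b => a == b || fusKeys.getD a 0 != fusKeys.getD b 0)) = true := by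
  decide +kernel

theorem fus_kF_check : (List.range 11).all (fun j => decide (fusKF.getD j 0 < 128) &&
    baseEq (fusDw (fusF0.getD j 0)) (fW fusL (fusKF.getD j 0))) = true := by
  decide +kernel

/-- Check of a witness of non-centrality. -/
def fusCenOK (k : Nat) (e : Nat × Nat) : Bool :=
  decide (e.1 < 6) && decide (e.2 < 315) &&
    actN (fW fusL k ++ fW fusGen e.1) e.2 != actN (fW fusGen e.1 ++ fW fusL k) e.2

theorem fus_cen_check : (List.range 128).all
    (fun k => k == 17 || k == 16 || fusCenOK k (fusCen.getD k (0, 0))) = true := by
  decide +kernel

theorem fus_z_check : baseEq (fW fusL 16) [0] = true := by decide +kernel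

theorem fus_gen_check : (List.range 6).all
    (fun i => baseEq (fW fusGen i ++ fW fusGen i) [] && actN (fW fusGen i) 0 == 0) = true := by
  decide +kernel

theorem fus_genF_check : (List.range 4).all (fun i => fusF0.contains (fusGenF.getD i 0) &&
    baseEq (fW fusGen i) (fusDw (fusGenF.getD i 0))) = true := by
  decide +kernel

/-- Check of a chain entry: the generator `j` is a conjugate of an element of `Q` times an
element of `Q`. -/
def fusChainOK (j : Nat) (e : List Nat × List Nat × List Nat) : Bool :=
  okW e.1 && e.2.1.all (fun f => fusF0.contains f) && e.2.2.all (fun f => fusF0.contains f) &&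
    baseEq (fW fusGen j) (fusQw e.2.2 ++ (e.1.reverse ++ (fusQw e.2.1 ++ e.1)))

theorem fus_chain_check : (fusChainOK 4 (fusChain.getD 0 ([], [], [])) &&
    fusChainOK 5 (fusChain.getD 1 ([], [], []))) = true := by
  decide +kernel

/-- Check of a level of the stabiliser chain. -/
def fusLevOK (ws : List (List Nat)) (fixed : List Nat) (pt n : Nat) : Bool :=
  (List.range n).all (fun a => okW (fW ws a) && fixed.all (fun p => actN (fW ws a) p == p) &&
    (List.range n).all (fun b => a == b || actN (fW ws a) pt != actN (fW ws b) pt))

theorem fus_lev1 : fusLevOK (fusOrb.getD 0 []) [0] 9 10 = true := by decide +kernel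

theorem fus_lev2 : fusLevOK (fusOrb.getD 1 []) [0, 9] 306 8 = true := by decide +kernel

theorem fus_lev3 : fusLevOK (fusOrb.getD 2 []) [0, 9, 306] 307 6 = true := by decide +kernel

theorem fus_lev4 : fusLevOK (fusOrb.getD 3 []) [0, 9, 306, 307] 308 2 = true := by
  decide +kernel

theorem fus_x_check : (List.range 3).all
    (fun i => baseEq (fW fusX i ++ fW fusX i) [] && actN (fW fusX i) 0 == 0) = true := by
  decide +kernel

/-- The word of the product of the first two involutions. -/
def fusC3 : List Nat := fW fusX 1 ++ fW fusX 0

/-- The word of the product of the first and the third involution. -/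
def fusC5 : List Nat := fW fusX 2 ++ fW fusX 0

theorem fus_c3_check : (baseEq (fusC3 ++ (fusC3 ++ fusC3)) [] && actN fusC3 1 != 1) = true := by
  decide +kernel

theorem fus_c5_check : (baseEq (fusC5 ++ (fusC5 ++ (fusC5 ++ (fusC5 ++ fusC5)))) [] &&
    actN fusC5 1 != 1) = true := by
  decide +kernel

end Cfsg.Agent.H60J2
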