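import Mathlib
import Cfsg.Agent.H85.SimpFS
import Cfsg.Agent.H85.SatCrit
import Cfsg.Agent.Lib.Helper26.J3Abs

/-!
# A simplicity criterion for the 2-fusion system of a group (helper60)

A variant of the criterion of `Cfsg.Agent.Lib.Helper26.FusJ3` (helper26), with the hypothesis
"one class of involutions and `S` generated by involutions" replaced by "`S` has no proper
nontrivial subgroup closed under fusion".  `Data S t Q`: the Sylow 2-subgroup `S` has no proper
nontrivial subgroup containing all conjugates in `S` of its elements; `t` is the only central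
involution of `S`; `Q ≤ S` is normalised by `C(t)`, contains its centraliser, and `C(t)` is
generated by its involutions.  Then the 2-fusion system is simple.
-/

set_option autoImplicit false
set_option linter.unusedSectionVars false

namespace Cfsg.Agent.H60J2.FusCrit

open Cfsg Cfsg.FusionSystem Cfsg.Agent.H85 Cfsg.Agent.Lib.Helper26

/-- the hypotheses of the criterion -/
structure Data {G : Type*} [Group G] (S : Subgroup G) (t : G) (Q : Subgroup G) : Prop where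
  t_sq : t * t = 1
  t_ne : t ≠ 1
  closed : ∀ T : Subgroup G, T ≤ S → T ≠ ⊥ →
    (∀ x ∈ T, ∀ g : G, g * x * g⁻¹ ∈ S → g * x * g⁻¹ ∈ T) → S ≤ T
  t_mem : t ∈ S
  t_cent : ∀ s ∈ S, s * t = t * s
  t_uniq : ∀ u ∈ S, u * u = 1 → u ≠ 1 → (∀ s ∈ S, s * u = u * s) → u = t
  Q_le : Q ≤ S
  Q_norm : ∀ g : G, g * t = t * g → ∀ x ∈ Q, g * x * g⁻¹ ∈ Q
  Q_cent : ∀ g : G, (∀ x ∈ Q, g * x = x * g) → g ∈ S
  C_gen : ∀ K : Subgroup G, (∀ u : G, u * u = 1 → u * t = t * u → u ∈ K) →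
    ∀ g : G, g * t = t * g → g ∈ K

theorem Data.map {G G' : Type*} [Group G] [Group G'] {S : Subgroup G} {t : G} {Q : Subgroup G}
    (h : Data S t Q) (e : G ≃* G') :
    Data (S.map e.toMonoidHom) (e t) (Q.map e.toMonoidHom) := by
  have einj : ∀ {x y : G}, e x = e y → x = y := fun {x y} hxy => e.injective hxy
  refine ⟨?_, ?_, ?_, ?_, ?_, ?_, ?_, ?_, ?_, ?_⟩
  · rw [← map_mul, h.t_sq, map_one]
  · intro e1
    exact h.t_ne ((MulEquiv.map_eq_one_iff e).mp e1)
  · intro T' hT'S hT'ne hT'cl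
    rw [Subgroup.map_le_iff_le_comap]
    apply h.closed (T'.comap e.toMonoidHom)
    · intro x hx
      have h1 : e x ∈ S.map e.toMonoidHom := hT'S hx
      obtain ⟨y, hy, hxy⟩ := Subgroup.mem_map.mp h1
      have : y = x := einj hxy
      rw [← this]; exact hy
    · intro hbot
      apply hT'ne
      rw [eq_bot_iff]
      intro x' hx'
      obtain ⟨x, rfl⟩ := e.surjective x'
      have h1 : x ∈ T'.comap e.toMonoidHom := hx'
      rw [hbot, Subgroup.mem_bot] at h1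
      rw [Subgroup.mem_bot, h1, map_one]
    · intro x hx g hg
      have h1 : e g * e x * (e g)⁻¹ ∈ T' := by
        apply hT'cl (e x) hx (e g)
        have h3 : e g * e x * (e g)⁻¹ = e (g * x * g⁻¹) := by rw [map_mul, map_mul, map_inv]
        rw [h3]
        exact Subgroup.mem_map_of_mem _ hg
      have h3 : e g * e x * (e g)⁻¹ = e (g * x * g⁻¹) := by rw [map_mul, map_mul, map_inv]
      rw [h3] at h1
      exact h1
  · exact Subgroup.mem_map_of_mem _ h.t_mem
  · intro s' hs'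
    obtain ⟨s, hs, rfl⟩ := Subgroup.mem_map.mp hs'
    show e s * e t = e t * e s
    rw [← map_mul, ← map_mul, h.t_cent s hs]
  · intro u' hu' huu hu1 hcen
    obtain ⟨u, hu, rfl⟩ := Subgroup.mem_map.mp hu'
    have h1 : u * u = 1 := einj (by rw [map_mul, map_one]; exact huu)
    have h2 : u ≠ 1 := fun e1 => hu1 (by rw [e1]; exact map_one _)
    have h3 : ∀ s ∈ S, s * u = u * s := by
      intro s hs
      apply einj
      rw [map_mul, map_mul]
      exact hcen (e s) (Subgroup.mem_map_of_mem _ hs)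
    show e u = e t
    rw [h.t_uniq u hu h1 h2 h3]
  · exact Subgroup.map_mono h.Q_le
  · intro g' hg' x' hx'
    obtain ⟨g, rfl⟩ := e.surjective g'
    obtain ⟨x, hx, rfl⟩ := Subgroup.mem_map.mp hx'
    have h1 : g * t = t * g := einj (by rw [map_mul, map_mul]; exact hg')
    have h2 := h.Q_norm g h1 x hx
    have h3 : e g * e x * (e g)⁻¹ = e (g * x * g⁻¹) := by rw [map_mul, map_mul, map_inv]
    show e g * e x * (e g)⁻¹ ∈ Q.map e.toMonoidHom
    rw [h3]
    exact Subgroup.mem_map_of_mem _ h2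
  · intro g' hg'
    obtain ⟨g, rfl⟩ := e.surjective g'
    have h1 : ∀ x ∈ Q, g * x = x * g := by
      intro x hx
      apply einj
      rw [map_mul, map_mul]
      exact hg' (e x) (Subgroup.mem_map_of_mem _ hx)
    exact Subgroup.mem_map_of_mem _ (h.Q_cent g h1)
  · intro K' hK' g' hg'
    obtain ⟨g, rfl⟩ := e.surjective g'
    have h1 : g * t = t * g := einj (by rw [map_mul, map_mul]; exact hg')
    have h2 : g ∈ K'.comap e.toMonoidHom := by
      apply h.C_gen (K'.comap e.toMonoidHom) _ g h1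
      intro u huu hut
      exact hK' (e u) (by rw [← map_mul, huu, map_one]) (by rw [← map_mul, ← map_mul, hut])
    exact h2

section Main

variable {G : Type*} [Group G] [Finite G] (S : Sylow 2 G) {t : G} {Q : Subgroup G}

/-- automorphisms of `S` in the fusion system of the group are induced by elements of the
normaliser, which centralise `t` -/
theorem aut_elt (h : Data (S : Subgroup G) t Q)
    (α : MulAut ↥(S : Subgroup G))
    (hα : α ∈ (groupFusionSystem (S : Subgroup G)).autGroup (S : Subgroup G)) :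
    ∃ n : G, n ∈ Subgroup.normalizer ((S : Subgroup G) : Set G) ∧ n * t = t * n ∧
      ∀ x : ↥(S : Subgroup G), ((α x : ↥(S : Subgroup G)) : G) = n * (x : G) * n⁻¹ := by
  rw [mem_autGroup_iff _ (le_refl _)] at hα
  obtain ⟨-, hαS, n, hn⟩ := hα
  have hnN : n ∈ Subgroup.normalizer ((S : Subgroup G) : Set G) := by
    rw [Subgroup.mem_normalizer_iff]
    intro x
    constructor
    · intro hx
      have h1 := hn ⟨x, hx⟩
      rw [← h1]
      exact (α ⟨x, hx⟩).2
    · intro hx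
      have h1 := hn (α.symm ⟨n * x * n⁻¹, hx⟩)
      have h2 : ((α (α.symm ⟨n * x * n⁻¹, hx⟩) : ↥(S : Subgroup G)) : G) = n * x * n⁻¹ := by
        rw [α.apply_symm_apply]
      have h3 : n * ((α.symm ⟨n * x * n⁻¹, hx⟩ : ↥(S : Subgroup G)) : G) * n⁻¹ = n * x * n⁻¹ := by
        rw [← h1]; exact h2
      have h4 : ((α.symm ⟨n * x * n⁻¹, hx⟩ : ↥(S : Subgroup G)) : G) = x :=
        mul_left_cancel (mul_right_cancel h3)
      rw [← h4]; exact (α.symm _).2
  have hn' := Subgroup.mem_normalizer_iff.mp hnN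
  refine ⟨n, hnN, ?_, fun x => hn x⟩
  have h1 : n * t * n⁻¹ = t := by
    apply h.t_uniq _ ((hn' t).mp h.t_mem)
    · calc n * t * n⁻¹ * (n * t * n⁻¹) = n * (t * t) * n⁻¹ := by group
        _ = 1 := by rw [h.t_sq, mul_one, mul_inv_cancel]
    · intro e
      apply h.t_ne
      have e2 : t = n⁻¹ * (n * t * n⁻¹) * n := by group
      rw [e2, e, mul_one, inv_mul_cancel]
    · intro s hs
      have hs' : n⁻¹ * s * n ∈ (S : Subgroup G) := by
        rw [hn' (n⁻¹ * s * n)]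
        have e2 : n * (n⁻¹ * s * n) * n⁻¹ = s := by group
        rw [e2]; exact hs
      have h2 := h.t_cent _ hs'
      calc s * (n * t * n⁻¹) = n * (n⁻¹ * s * n * t) * n⁻¹ := by group
        _ = n * (t * (n⁻¹ * s * n)) * n⁻¹ := by rw [h2]
        _ = n * t * n⁻¹ * s := by group
  calc n * t = (n * t * n⁻¹) * n := by group
    _ = t * n := by rw [h1]


/-- conjugation by `g` on `Q` belongs to the subsystem `E` -/
def In (E : FusionSystem (S : Subgroup G)) (Q : Subgroup G) (g : G) : Prop :=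
  conjHom Q g ∈ E.Hom Q

theorem conjHom_apply (P : Subgroup G) (g : G) (x : P) : conjHom P g x = g * (x : G) * g⁻¹ := rfl

theorem in_of_mem (h : Data (S : Subgroup G) t Q) (E : FusionSystem (S : Subgroup G)) {s : G}
    (hs : s ∈ (S : Subgroup G)) : In S E Q s := E.conj_mem h.Q_le hs

theorem in_mul (h : Data (S : Subgroup G) t Q) (E : FusionSystem (S : Subgroup G)) {g k : G}
    (hk : k * t = t * k) (hg' : In S E Q g) (hk' : In S E Q k) : In S E Q (g * k) := by
  refine comp_mem' E hk' hg' (fun x => h.Q_norm k hk x x.2) (fun x => ?_)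
  show g * k * (x : G) * (g * k)⁻¹ = g * (k * (x : G) * k⁻¹) * g⁻¹
  group

theorem in_pow (h : Data (S : Subgroup G) t Q) (E : FusionSystem (S : Subgroup G)) {g : G}
    (hg : g * t = t * g) (hg' : In S E Q g) : ∀ n : ℕ, In S E Q (g ^ n) := by
  intro n
  induction n with
  | zero => rw [pow_zero]; exact in_of_mem S h E (Subgroup.one_mem _)
  | succ n ih =>
    rw [pow_succ]
    exact in_mul S h E hg ih hg'

theorem in_inv (h : Data (S : Subgroup G) t Q) (E : FusionSystem (S : Subgroup G)) {g : G}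
    (hg : g * t = t * g) (hg' : In S E Q g) : In S E Q g⁻¹ := by
  have h1 : g ^ (orderOf g - 1) = g⁻¹ := by
    apply eq_inv_of_mul_eq_one_left
    rw [← pow_succ, Nat.sub_add_cancel (orderOf_pos g), pow_orderOf_eq_one]
  rw [← h1]
  exact in_pow S h E hg hg' _

theorem comm_inv {g : G} (hg : g * t = t * g) : g⁻¹ * t = t * g⁻¹ := by
  have : g⁻¹ * t = g⁻¹ * (t * g) * g⁻¹ := by group
  rw [this, ← hg]; group

theorem comm_mul {g k : G} (hg : g * t = t * g) (hk : k * t = t * k) :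
    g * k * t = t * (g * k) := by
  rw [mul_assoc, hk, ← mul_assoc, hg, mul_assoc]

/-- the invariance and Frattini conditions give normality of the set of `g` with `In g` -/
theorem in_conj (h : Data (S : Subgroup G) t Q) (E : FusionSystem (S : Subgroup G))
    (hinv : ∀ (P : Subgroup G) (hPT : P ≤ (S : Subgroup G)) (φ : P →* G), φ ∈ E.Hom P →
      ∀ α ∈ (groupFusionSystem (S : Subgroup G)).autGroup (S : Subgroup G),
      ∃ χ ∈ E.Hom ((P.subgroupOf (S : Subgroup G)).map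
          ((S : Subgroup G).subtype.comp α.toMonoidHom)),
        ∀ (x : P) (hφx : φ x ∈ (S : Subgroup G))
          (hαx : ((α ⟨x, hPT x.2⟩ : ↥(S : Subgroup G)) : G) ∈
            (P.subgroupOf (S : Subgroup G)).map ((S : Subgroup G).subtype.comp α.toMonoidHom)),
          χ ⟨(α ⟨x, hPT x.2⟩ : ↥(S : Subgroup G)), hαx⟩ =
            ((α ⟨φ x, hφx⟩ : ↥(S : Subgroup G)) : G))
    (hfrat : ∀ (P : Subgroup G), P ≤ (S : Subgroup G) → ∀ (φ : P →* G),
      φ ∈ (groupFusionSystem (S : Subgroup G)).Hom P →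
      ∃ α ∈ (groupFusionSystem (S : Subgroup G)).autGroup (S : Subgroup G), ∃ φ₀ ∈ E.Hom P,
        ∀ (x : P) (hx : φ₀ x ∈ (S : Subgroup G)),
          φ x = ((α ⟨φ₀ x, hx⟩ : ↥(S : Subgroup G)) : G))
    {g k : G} (hg : g * t = t * g) (hk : k * t = t * k) (hk' : In S E Q k) :
    In S E Q (g * k * g⁻¹) := by
  have hQS := h.Q_le
  -- Frattini for conjugation by `g` on `Q`
  have hφF : conjHom Q g ∈ (groupFusionSystem (S : Subgroup G)).Hom Q :=
    ⟨hQS, fun x => hQS (h.Q_norm g hg x x.2), g, fun x => rfl⟩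
  obtain ⟨α, hα, φ₀, hφ₀, hfac⟩ := hfrat Q hQS _ hφF
  obtain ⟨n, hnN, hnt, hn⟩ := aut_elt S h α hα
  have hφ₀S : ∀ x : Q, φ₀ x ∈ (S : Subgroup G) := (E.le_of_mem hφ₀).2
  have hninv := comm_inv hnt
  -- `h0 = n⁻¹ g`
  have hh0t : (n⁻¹ * g) * t = t * (n⁻¹ * g) := comm_mul hninv hg
  have hh0 : In S E Q (n⁻¹ * g) := by
    refine hom_congr E hφ₀ (fun x => ?_)
    have e1 := hfac x (hφ₀S x)
    rw [hn ⟨φ₀ x, hφ₀S x⟩] at e1
    have e2 : g * (x : G) * g⁻¹ = n * φ₀ x * n⁻¹ := e1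
    show n⁻¹ * g * (x : G) * (n⁻¹ * g)⁻¹ = φ₀ x
    have e3 : φ₀ x = n⁻¹ * (n * φ₀ x * n⁻¹) * n := by group
    rw [e3, ← e2]; group
  -- `k1 = h0 k h0⁻¹`
  have hk1t : (n⁻¹ * g) * k * (n⁻¹ * g)⁻¹ * t = t * ((n⁻¹ * g) * k * (n⁻¹ * g)⁻¹) :=
    comm_mul (comm_mul hh0t hk) (comm_inv hh0t)
  have hk1 : In S E Q ((n⁻¹ * g) * k * (n⁻¹ * g)⁻¹) :=
    in_mul S h E (comm_inv hh0t) (in_mul S h E hk hh0 hk') (in_inv S h E hh0t hh0)
  have hgk : g * k * g⁻¹ = n * ((n⁻¹ * g) * k * (n⁻¹ * g)⁻¹) * n⁻¹ := by group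
  generalize (n⁻¹ * g) * k * (n⁻¹ * g)⁻¹ = k1 at hk1t hk1 hgk
  -- invariance
  obtain ⟨χ, hχ, hχx⟩ := hinv Q hQS _ hk1 α hα
  have hQQ' : Q ≤ (Q.subgroupOf (S : Subgroup G)).map
      ((S : Subgroup G).subtype.comp α.toMonoidHom) := by
    intro y hy
    have hx0 : n⁻¹ * y * n⁻¹⁻¹ ∈ Q := h.Q_norm n⁻¹ hninv y hy
    refine ⟨⟨n⁻¹ * y * n⁻¹⁻¹, hQS hx0⟩, Subgroup.mem_subgroupOf.mpr hx0, ?_⟩
    show ((α ⟨n⁻¹ * y * n⁻¹⁻¹, hQS hx0⟩ : ↥(S : Subgroup G)) : G) = y
    rw [hn]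
    show n * (n⁻¹ * y * n⁻¹⁻¹) * n⁻¹ = y
    group
  have hξ := restrict_mem E hχ hQQ'
  have hfin : In S E Q (n * k1 * n⁻¹) := by
    refine hom_congr E hξ (fun y => ?_)
    have hx0 : n⁻¹ * (y : G) * n⁻¹⁻¹ ∈ Q := h.Q_norm n⁻¹ hninv y y.2
    have hφx : conjHom Q k1 ⟨n⁻¹ * (y : G) * n⁻¹⁻¹, hx0⟩ ∈ (S : Subgroup G) :=
      hQS (h.Q_norm k1 hk1t _ hx0)
    have hαeq : ((α ⟨n⁻¹ * (y : G) * n⁻¹⁻¹, hQS hx0⟩ : ↥(S : Subgroup G)) : G) = y := by
      rw [hn]
      show n * (n⁻¹ * (y : G) * n⁻¹⁻¹) * n⁻¹ = y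
      group
    have hαx : ((α ⟨n⁻¹ * (y : G) * n⁻¹⁻¹, hQS hx0⟩ : ↥(S : Subgroup G)) : G) ∈
        (Q.subgroupOf (S : Subgroup G)).map ((S : Subgroup G).subtype.comp α.toMonoidHom) := by
      rw [hαeq]; exact hQQ' y.2
    have e1 := hχx ⟨n⁻¹ * (y : G) * n⁻¹⁻¹, hx0⟩ hφx hαx
    have e2 : (⟨((α ⟨n⁻¹ * (y : G) * n⁻¹⁻¹, hQS hx0⟩ : ↥(S : Subgroup G)) : G), hαx⟩ :
        ↥((Q.subgroupOf (S : Subgroup G)).map ((S : Subgroup G).subtype.comp α.toMonoidHom))) =
        Subgroup.inclusion hQQ' y := Subtype.ext hαeq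
    rw [e2] at e1
    show n * k1 * n⁻¹ * (y : G) * (n * k1 * n⁻¹)⁻¹ = χ (Subgroup.inclusion hQQ' y)
    rw [e1, hn]
    show n * k1 * n⁻¹ * (y : G) * (n * k1 * n⁻¹)⁻¹ =
      n * (k1 * (n⁻¹ * (y : G) * n⁻¹⁻¹) * k1⁻¹) * n⁻¹
    group
  rw [hgk]
  exact hfin


/-- the invariance condition of `IsInvariantIn`, for a subsystem over `S` -/
def HInv (E : FusionSystem (S : Subgroup G)) : Prop :=
  ∀ (P : Subgroup G) (hPT : P ≤ (S : Subgroup G)) (φ : P →* G), φ ∈ E.Hom P →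
      ∀ α ∈ (groupFusionSystem (S : Subgroup G)).autGroup (S : Subgroup G),
      ∃ χ ∈ E.Hom ((P.subgroupOf (S : Subgroup G)).map
          ((S : Subgroup G).subtype.comp α.toMonoidHom)),
        ∀ (x : P) (hφx : φ x ∈ (S : Subgroup G))
          (hαx : ((α ⟨x, hPT x.2⟩ : ↥(S : Subgroup G)) : G) ∈
            (P.subgroupOf (S : Subgroup G)).map ((S : Subgroup G).subtype.comp α.toMonoidHom)),
          χ ⟨(α ⟨x, hPT x.2⟩ : ↥(S : Subgroup G)), hαx⟩ =
            ((α ⟨φ x, hφx⟩ : ↥(S : Subgroup G)) : G)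

/-- the Frattini condition of `IsInvariantIn`, for a subsystem over `S` -/
def HFrat (E : FusionSystem (S : Subgroup G)) : Prop :=
  ∀ (P : Subgroup G), P ≤ (S : Subgroup G) → ∀ (φ : P →* G),
      φ ∈ (groupFusionSystem (S : Subgroup G)).Hom P →
      ∃ α ∈ (groupFusionSystem (S : Subgroup G)).autGroup (S : Subgroup G), ∃ φ₀ ∈ E.Hom P,
        ∀ (x : P) (hx : φ₀ x ∈ (S : Subgroup G)),
          φ x = ((α ⟨φ₀ x, hx⟩ : ↥(S : Subgroup G)) : G)

/-- involutions of the centraliser of `t` act on `Q` by maps of `E` -/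
theorem in_invol (h : Data (S : Subgroup G) t Q) (E : FusionSystem (S : Subgroup G))
    (hinv : HInv S E) (hfrat : HFrat S E) {u : G} (huu : u * u = 1) (hut : u * t = t * u) :
    In S E Q u := by
  classical
  let C : Subgroup G := Subgroup.centralizer {t}
  have hmemC : ∀ g : G, g ∈ C ↔ g * t = t * g := by
    intro g
    rw [Subgroup.mem_centralizer_iff]
    constructor
    · intro hg; exact (hg t rfl).symm
    · intro hg x hx; rw [Set.mem_singleton_iff.mp hx]; exact hg.symm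
  have hSC : (S : Subgroup G) ≤ C := fun s hs => (hmemC s).mpr (h.t_cent s hs)
  have hcS : Nat.card (S : Subgroup G) = 2 ^ (Nat.card G).factorization 2 :=
    S.card_eq_multiplicity
  have hP : Nat.card ((S : Subgroup G).subgroupOf C) = 2 ^ (Nat.card G).factorization 2 := by
    rw [← hcS]
    exact Nat.card_congr (Subgroup.subgroupOfEquivOfLe hSC).toEquiv
  have hG : ¬ 2 ^ ((Nat.card G).factorization 2 + 1) ∣ Nat.card C := by
    intro hd
    have := dvd_trans hd (Subgroup.card_subgroup_dvd_card C)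
    exact Nat.pow_succ_factorization_not_dvd (Nat.card_pos.ne') Nat.prime_two this
  have huC : u ∈ C := (hmemC u).mpr hut
  have huC2 : (⟨u, huC⟩ : C) ^ 2 ^ 1 = 1 := by
    rw [pow_one, pow_two]; exact Subtype.ext huu
  have hQ' : IsPGroup 2 (Subgroup.zpowers (⟨u, huC⟩ : C)) := by
    rintro ⟨y, hy⟩
    obtain ⟨j, rfl⟩ := Subgroup.mem_zpowers_iff.mp hy
    refine ⟨1, Subtype.ext ?_⟩
    show ((⟨u, huC⟩ : C) ^ j) ^ 2 ^ 1 = 1
    rw [← zpow_natCast, ← zpow_mul, mul_comm, zpow_mul, zpow_natCast, huC2, one_zpow]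
  obtain ⟨c, hc⟩ := J3Abs.exists_conj_le (G := ↥C) ((S : Subgroup G).subgroupOf C) _ hP hG _ hQ'
  have h1 := hc ⟨u, huC⟩ (Subgroup.mem_zpowers _)
  have h2 : (c : G) * u * (c : G)⁻¹ ∈ (S : Subgroup G) := Subgroup.mem_subgroupOf.mp h1
  have hct : (c : G) * t = t * (c : G) := (hmemC _).mp c.2
  have e : u = (c : G)⁻¹ * ((c : G) * u * (c : G)⁻¹) * ((c : G)⁻¹)⁻¹ := by group
  rw [e]
  exact in_conj S h E hinv hfrat (comm_inv hct) (h.t_cent _ h2) (in_of_mem S h E h2)

/-- the whole centraliser of `t` acts on `Q` by maps of `E` -/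
theorem in_all (h : Data (S : Subgroup G) t Q) (E : FusionSystem (S : Subgroup G))
    (hinv : HInv S E) (hfrat : HFrat S E) {g : G} (hg : g * t = t * g) : In S E Q g := by
  let K : Subgroup G :=
    { carrier := {g | g * t = t * g ∧ In S E Q g}
      mul_mem' := fun {a b} ha hb => ⟨comm_mul ha.1 hb.1, in_mul S h E hb.1 ha.2 hb.2⟩
      one_mem' := ⟨by rw [one_mul, mul_one], in_of_mem S h E (Subgroup.one_mem _)⟩
      inv_mem' := fun {a} ha => ⟨comm_inv ha.1, in_inv S h E ha.1 ha.2⟩ }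
  have := h.C_gen K (fun u huu hut => ⟨hut, in_invol S h E hinv hfrat huu hut⟩) g hg
  exact this.2

/-- conjugation on `S` by an element of the normaliser centralising `t` is a map of `E` -/
theorem conj_mem_E (h : Data (S : Subgroup G) t Q) (E : FusionSystem (S : Subgroup G))
    (hEsat : E.IsSaturated 2) (hsub : E.IsSubsystemOf (groupFusionSystem (S : Subgroup G)))
    (hinv : HInv S E) (hfrat : HFrat S E) {n : G}
    (hnN : n ∈ Subgroup.normalizer ((S : Subgroup G) : Set G)) (hnt : n * t = t * n) :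
    conjHom (S : Subgroup G) n ∈ E.Hom (S : Subgroup G) := by
  have hQS := h.Q_le
  have hnorm : ∀ g : G, g * t = t * g → g ∈ Subgroup.normalizer (Q : Set G) := by
    intro g hg
    rw [Subgroup.mem_normalizer_iff]
    intro x
    refine ⟨fun hx => h.Q_norm g hg x hx, fun hx => ?_⟩
    have := h.Q_norm g⁻¹ (comm_inv hg) _ hx
    have e : g⁻¹ * (g * x * g⁻¹) * g⁻¹⁻¹ = x := by group
    rwa [e] at this
  have hSN : (S : Subgroup G) ≤ Subgroup.normalizer (Q : Set G) :=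
    fun s hs => hnorm s (h.t_cent s hs)
  have hQfn : E.IsFullyNormalized Q := by
    refine ⟨hQS, fun Q' _ => ?_⟩
    have e : normalizerIn (S : Subgroup G) Q = (S : Subgroup G) := inf_eq_left.mpr hSN
    rw [e]
    exact Subgroup.card_le_of_le inf_le_left
  have hrec := ((saturated_iff_fn_receptive 2 S.isPGroup' E).mp hEsat).2 Q hQfn
  have hφ : conjHom Q n ∈ E.Hom Q := in_all S h E hinv hfrat hnt
  have hrange : (conjHom Q n).range = Q := by
    apply le_antisymm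
    · rintro _ ⟨x, rfl⟩
      exact h.Q_norm n hnt x x.2
    · intro y hy
      have hx0 : n⁻¹ * y * n⁻¹⁻¹ ∈ Q := h.Q_norm n⁻¹ (comm_inv hnt) y hy
      refine ⟨⟨_, hx0⟩, ?_⟩
      show n * (n⁻¹ * y * n⁻¹⁻¹) * n⁻¹ = y
      group
  obtain ⟨ψ, hψ, hψx⟩ := hrec.2 Q _ hφ hrange
  have hn' := Subgroup.mem_normalizer_iff.mp hnN
  have hle : (S : Subgroup G) ≤ extender (S : Subgroup G) Q (conjHom Q n) := by
    intro g hg
    apply Subgroup.subset_closure
    refine ⟨hg, hSN hg, n * g * n⁻¹, (hn' g).mp hg, fun x hx => ?_⟩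
    show n * (g * (x : G) * g⁻¹) * n⁻¹ = n * g * n⁻¹ * (n * (x : G) * n⁻¹) * (n * g * n⁻¹)⁻¹
    group
  have hψ' := restrict_mem E hψ hle
  obtain ⟨-, -, m, hm⟩ := hsub _ hψ'
  have hs : n⁻¹ * m ∈ (S : Subgroup G) := by
    apply h.Q_cent
    intro x hx
    have e1 := hm ⟨x, hQS hx⟩
    have e2 : (ψ.comp (Subgroup.inclusion hle)) ⟨x, hQS hx⟩ = n * x * n⁻¹ :=
      hψx x hx (hle (hQS hx))
    rw [e2] at e1
    calc n⁻¹ * m * x = n⁻¹ * (m * x * m⁻¹) * m := by group
      _ = n⁻¹ * (n * x * n⁻¹) * m := by rw [← e1]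
      _ = x * (n⁻¹ * m) := by group
  have hs' : (n⁻¹ * m)⁻¹ ∈ (S : Subgroup G) := Subgroup.inv_mem _ hs
  refine comp_mem' E (E.conj_mem (le_refl _) hs') hψ'
    (fun x => Subgroup.mul_mem _ (Subgroup.mul_mem _ hs' x.2) (Subgroup.inv_mem _ hs'))
    (fun x => ?_)
  rw [hm]
  show n * (x : G) * n⁻¹ = m * ((n⁻¹ * m)⁻¹ * (x : G) * (n⁻¹ * m)⁻¹⁻¹) * m⁻¹
  group

/-- **The criterion**: the `2`-fusion system of a group with such data is simple. -/
theorem simple_of_data (h : Data (S : Subgroup G) t Q) :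
    (groupFusionSystem (S : Subgroup G)).IsSimple 2 := by
  have hSbot : (S : Subgroup G) ≠ ⊥ := by
    intro e
    have := h.t_mem
    rw [e, Subgroup.mem_bot] at this
    exact h.t_ne this
  refine ⟨Cfsg.Agent.S5076.result 2 S, hSbot, ?_⟩
  intro T E hE
  obtain ⟨⟨hEsat, -, hsub, hsc, hinv, hfrat⟩, -⟩ := hE
  by_cases hT : T = ⊥
  · exact Or.inl hT
  right
  have hTS : T = (S : Subgroup G) := by
    apply le_antisymm hsc.1
    apply h.closed T hsc.1 hT
    intro x hx g hg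
    have hR : Subgroup.zpowers x ≤ T := Subgroup.zpowers_le.mpr hx
    have hφ : conjHom (Subgroup.zpowers x) g ∈
        (groupFusionSystem (S : Subgroup G)).Hom (Subgroup.zpowers x) := by
      refine ⟨hR.trans hsc.1, ?_, g, fun y => rfl⟩
      rintro ⟨y, hy⟩
      obtain ⟨j, rfl⟩ := Subgroup.mem_zpowers_iff.mp hy
      show g * x ^ j * g⁻¹ ∈ (S : Subgroup G)
      rw [← conj_zpow]
      exact zpow_mem hg j
    exact hsc.2 _ hR _ hφ ⟨x, Subgroup.mem_zpowers x⟩
  refine ⟨hTS, ?_⟩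
  subst hTS
  intro P
  apply Set.Subset.antisymm (hsub P)
  intro φ hφ
  have hP : P ≤ (S : Subgroup G) := hφ.1
  obtain ⟨α, hα, φ₀, hφ₀, hfac⟩ := hfrat P hP φ hφ
  obtain ⟨n, hnN, hnt, hn⟩ := aut_elt S h α hα
  have hC := conj_mem_E S h E hEsat hsub hinv hfrat hnN hnt
  have hφ₀S : ∀ x : P, φ₀ x ∈ (S : Subgroup G) := (E.le_of_mem hφ₀).2
  refine comp_mem' E hφ₀ hC hφ₀S (fun x => ?_)
  rw [hfac x (hφ₀S x)]
  exact hn ⟨φ₀ x, hφ₀S x⟩

end Main

/-- the criterion for an arbitrary Sylow `2`-subgroup, given the data for one subgroup of the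
full `2`-power order -/
theorem simple_of_data' {G : Type*} [Group G] [Finite G] {S0 : Subgroup G} {t : G}
    {Q : Subgroup G} (h : Data S0 t Q) (k : ℕ) (hS0 : Nat.card S0 = 2 ^ k)
    (hG : ¬ 2 ^ (k + 1) ∣ Nat.card G) (S : Sylow 2 G) :
    (groupFusionSystem (S : Subgroup G)).IsSimple 2 := by
  obtain ⟨g, hg⟩ := MulAction.exists_smul_eq G (J3Abs.sylowOf S0 k hS0 hG) S
  have h' := h.map (MulAut.conj g)
  have e : S0.map (MulAut.conj g).toMonoidHom = (S : Subgroup G) := by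
    rw [← hg, Sylow.coe_subgroup_smul, J3Abs.sylowOf_coe]
    rfl
  rw [e] at h'
  exact simple_of_data S h'

end Cfsg.Agent.H60J2.FusCrit
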