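import Cfsg.Agent.Lib.Helper60.J2FusSyl
import Cfsg.Agent.Lib.Helper60.J2FusCrit

/-!
# The 2-fusion system of the Hall–Janko group is simple (helper60)

The data of the criterion `FusCrit.simple_of_data'` for the permutation model: the Sylow
2-subgroup `fusS`, the 2-central involution `DP 0` and the subgroup `fusQ` generated by the
reflections commuting with it.
-/

set_option autoImplicit false

open Quaternion Cfsg.Spor

namespace Cfsg.Agent.H60J2

noncomputable section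

/-- A nontrivial subgroup of a `p`-subgroup `P` normalised by `P` contains a nontrivial element
centralised by `P` (after `Cfsg.Agent.Lib.Helper20.Gl1`). -/
theorem exists_central_of_normalized {G : Type*} [Group G] [Finite G] (p : ℕ)
    [Fact p.Prime] (V P : Subgroup G) (hN : ∀ h ∈ P, ∀ v ∈ V, h * v * h⁻¹ ∈ V)
    (hP : IsPGroup p P) (hVP : V ≤ P)
    (hV : V ≠ ⊥) : ∃ v ∈ V, v ≠ 1 ∧ ∀ h ∈ P, h * v = v * h := by
  classical
  let act : MulAction P V :=
    { smul := fun h v => ⟨(h : G) * v * (h : G)⁻¹, hN h h.2 v v.2⟩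
      one_smul := by intro v; apply Subtype.ext; show (1 : G) * v * (1 : G)⁻¹ = v; simp
      mul_smul := by
        intro a b v; apply Subtype.ext
        show ((a * b : P) : G) * v * ((a * b : P) : G)⁻¹ =
          (a : G) * ((b : G) * v * (b : G)⁻¹) * (a : G)⁻¹
        simp [mul_assoc] }
  have hVp : IsPGroup p V := hP.to_le hVP
  have hdvd : p ∣ Nat.card V := by
    obtain ⟨n, hn⟩ := IsPGroup.iff_card.mp hVp
    have hn0 : n ≠ 0 := by
      rintro rfl
      rw [pow_zero] at hn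
      exact hV (Subgroup.card_eq_one.mp hn)
    rw [hn]; exact dvd_pow_self p hn0
  have h1fix : (1 : V) ∈ MulAction.fixedPoints P V := by
    rw [MulAction.mem_fixedPoints]
    intro h
    apply Subtype.ext
    show (h : G) * ((1 : V) : G) * (h : G)⁻¹ = ((1 : V) : G)
    simp
  obtain ⟨b, hbfix, hb1⟩ := hP.exists_fixed_point_of_prime_dvd_card_of_fixed_point V hdvd h1fix
  refine ⟨b, b.2, ?_, ?_⟩
  · intro hb
    apply hb1
    apply Subtype.ext
    simp [hb]
  · intro h hh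
    rw [MulAction.mem_fixedPoints] at hbfix
    have := congrArg Subtype.val (hbfix ⟨h, hh⟩)
    have h2 : h * (b : G) * h⁻¹ = b := this
    calc h * (b : G) = h * b * h⁻¹ * h := by group
      _ = b * h := by rw [h2]

theorem lev_bound (K : Subgroup ↥PG) (ws : List (List Nat)) (fixed : List Nat) (pt n : Nat)
    (hpt : pt < 315) (h : fusLevOK ws fixed pt n = true)
    (hK : ∀ g : ↥PG, (∀ p ∈ fixed, ∀ hp : p < 315,
      (g : Equiv.Perm (Fin 315)) ⟨p, hp⟩ = ⟨p, hp⟩) → g ∈ K) :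
    n * Nat.card ↥(stabIn K ⟨pt, hpt⟩) ≤ Nat.card ↥K := by
  unfold fusLevOK at h
  have hall : ∀ a, a < n → okW (fW ws a) = true ∧
      (fixed.all (fun p => actN (fW ws a) p == p)) = true ∧
      (List.range n).all (fun b => a == b || actN (fW ws a) pt != actN (fW ws b) pt) = true := by
    intro a ha
    have h1 := range_all h ha
    rw [Bool.and_eq_true, Bool.and_eq_true] at h1
    exact ⟨h1.1.1, h1.1.2, h1.2⟩
  apply orbit_bound K ⟨pt, hpt⟩ n (fun a => pwP (fW ws a.1))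
  · intro a
    obtain ⟨h1, h2, -⟩ := hall a.1 a.2
    apply hK
    intro p hp hlt
    apply Fin.ext
    rw [pwP_apply _ ((okW_iff _).mp h1)]
    exact beq_iff_eq.mp (List.all_eq_true.mp h2 p hp)
  · intro a b hab
    obtain ⟨h1, -, h3⟩ := hall a.1 a.2
    obtain ⟨h1', -, -⟩ := hall b.1 b.2
    have h4 := congrArg Fin.val hab
    rw [pwP_apply _ ((okW_iff _).mp h1), pwP_apply _ ((okW_iff _).mp h1')] at h4
    have h5 := range_all h3 b.2
    rw [Bool.or_eq_true] at h5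
    rcases h5 with h5 | h5
    · exact Fin.ext (beq_iff_eq.mp h5)
    · exfalso
      rw [bne_iff_ne] at h5
      exact h5 h4

/-- The stabiliser of the point `0`. -/
def fusH0 : Subgroup ↥PG := stabIn ⊤ ⟨0, by norm_num⟩

/-- The stabiliser of `0, 9`. -/
def fusH1 : Subgroup ↥PG := stabIn fusH0 ⟨9, by norm_num⟩

/-- The stabiliser of `0, 9, 306`. -/
def fusH2 : Subgroup ↥PG := stabIn fusH1 ⟨306, by norm_num⟩

/-- The stabiliser of `0, 9, 306, 307`. -/
def fusH3 : Subgroup ↥PG := stabIn fusH2 ⟨307, by norm_num⟩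

/-- The stabiliser of `0, 9, 306, 307, 308`. -/
def fusH4 : Subgroup ↥PG := stabIn fusH3 ⟨308, by norm_num⟩

theorem PG_card : Nat.card ↥PG = 604800 := j2Perm_card

theorem card_H0 : 315 * Nat.card ↥fusH0 ≤ 604800 := by
  have h := orbit_bound ⊤ ⟨0, by norm_num⟩ 315 (fun y => pwP (fW fusWTo y.1))
    (fun _ => Subgroup.mem_top _) (by
      intro a b hab
      have h1 := pwP_wTo a
      have h2 := pwP_wTo b
      have h3 : ((pwP (fW fusWTo a.1) : ↥PG) : Equiv.Perm (Fin 315)) 0 =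
          ((pwP (fW fusWTo b.1) : ↥PG) : Equiv.Perm (Fin 315)) 0 := hab
      rw [h1, h2] at h3
      exact h3)
  rw [Subgroup.card_top, PG_card] at h
  exact h

theorem card_H1 : 10 * Nat.card ↥fusH1 ≤ Nat.card ↥fusH0 :=
  lev_bound fusH0 (fusOrb.getD 0 []) [0] 9 10 (by norm_num) fus_lev1
    (fun g hg => ⟨Subgroup.mem_top _, hg 0 (by simp) (by norm_num)⟩)

theorem card_H2 : 8 * Nat.card ↥fusH2 ≤ Nat.card ↥fusH1 :=
  lev_bound fusH1 (fusOrb.getD 1 []) [0, 9] 306 8 (by norm_num) fus_lev2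
    (fun g hg => ⟨⟨Subgroup.mem_top _, hg 0 (by simp) (by norm_num)⟩,
      hg 9 (by simp) (by norm_num)⟩)

theorem card_H3 : 6 * Nat.card ↥fusH3 ≤ Nat.card ↥fusH2 :=
  lev_bound fusH2 (fusOrb.getD 2 []) [0, 9, 306] 307 6 (by norm_num) fus_lev3
    (fun g hg => ⟨⟨⟨Subgroup.mem_top _, hg 0 (by simp) (by norm_num)⟩,
      hg 9 (by simp) (by norm_num)⟩, hg 306 (by simp) (by norm_num)⟩)

theorem card_H4 : 2 * Nat.card ↥fusH4 ≤ Nat.card ↥fusH3 :=
  lev_bound fusH3 (fusOrb.getD 3 []) [0, 9, 306, 307] 308 2 (by norm_num) fus_lev4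
    (fun g hg => ⟨⟨⟨⟨Subgroup.mem_top _, hg 0 (by simp) (by norm_num)⟩,
      hg 9 (by simp) (by norm_num)⟩, hg 306 (by simp) (by norm_num)⟩,
      hg 307 (by simp) (by norm_num)⟩)

theorem card_H4_le : Nat.card ↥fusH4 ≤ 2 := by
  have h0 := card_H0
  have h1 := card_H1
  have h2 := card_H2
  have h3 := card_H3
  have h4 := card_H4
  omega

theorem card_H0_le : Nat.card ↥fusH0 ≤ 1920 := by
  have h0 := card_H0
  omega

theorem DP_zero_ne_one : DP 0 ≠ 1 := by
  intro h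
  rw [← fusEN_z, ← fusEN_id] at h
  have := fusEN_inj (by norm_num) (by norm_num) h
  norm_num at this

theorem DP_zero_mem_S : DP 0 ∈ fusS := by
  rw [← fusEN_z]
  exact fusEN_mem (by norm_num)

theorem fusS_fix {s : ↥PG} (hs : s ∈ fusS) : (s : Equiv.Perm (Fin 315)) 0 = 0 := by
  have h : fusS ≤ fusH0 := by
    unfold fusS
    rw [Subgroup.closure_le]
    rintro x ⟨i, rfl⟩
    exact ⟨Subgroup.mem_top _, (fus_gen i.2).2.2⟩
  exact (h hs).2

theorem fus_Q_cent (g : ↥PG) (hg : ∀ x ∈ fusQ, g * x = x * g) : g ∈ fusS := by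
  have hfix : ∀ f ∈ fusF0, ∀ hf : f < 315,
      (g : Equiv.Perm (Fin 315)) ⟨f, hf⟩ = ⟨f, hf⟩ := by
    intro f hf hlt
    exact (comm_DP_iff g _).mp (hg _ (DP_mem_fusQ hf hlt))
  have hg4 : g ∈ fusH4 :=
    ⟨⟨⟨⟨⟨Subgroup.mem_top _, hfix 0 (by decide) _⟩, hfix 9 (by decide) _⟩,
      hfix 306 (by decide) _⟩, hfix 307 (by decide) _⟩, hfix 308 (by decide) _⟩
  have hzfix : ∀ f ∈ fusF0, ∀ hf : f < 315,
      ((DP 0 : ↥PG) : Equiv.Perm (Fin 315)) ⟨f, hf⟩ = ⟨f, hf⟩ := by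
    intro f hf hlt
    obtain ⟨_, e⟩ := F0_fix hf
    exact e
  have hz4 : DP 0 ∈ fusH4 :=
    ⟨⟨⟨⟨⟨Subgroup.mem_top _, hzfix 0 (by decide) _⟩, hzfix 9 (by decide) _⟩,
      hzfix 306 (by decide) _⟩, hzfix 307 (by decide) _⟩, hzfix 308 (by decide) _⟩
  have hz2 : orderOf (DP 0) = 2 :=
    orderOf_eq_prime (by rw [pow_two]; exact DP_mul_self 0) DP_zero_ne_one
  have hle : Subgroup.zpowers (DP 0) ≤ fusH4 := by
    rw [Subgroup.zpowers_le]
    exact hz4
  have heq : Subgroup.zpowers (DP 0) = fusH4 :=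
    Subgroup.eq_of_le_of_card_ge hle (by rw [Nat.card_zpowers, hz2]; exact card_H4_le)
  rw [← heq] at hg4
  exact (Subgroup.zpowers_le.mpr DP_zero_mem_S) hg4

theorem fus_X {i : Nat} (hi : i < 3) :
    (∀ t ∈ fW fusX i, t < 4) ∧ pwP (fW fusX i) * pwP (fW fusX i) = 1 ∧
      ((pwP (fW fusX i) : ↥PG) : Equiv.Perm (Fin 315)) 0 = 0 := by
  have h := range_all fus_x_check hi
  rw [Bool.and_eq_true] at h
  obtain ⟨h1, h2⟩ := h
  have hok := okW_append_left (baseEq_ok h1).1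
  refine ⟨hok, ?_, ?_⟩
  · have h3 := pwP_eq h1
    rw [pwP_append] at h3
    exact h3
  · apply Fin.ext
    rw [pwP_apply _ hok]
    exact beq_iff_eq.mp h2

theorem fus_c3 : orderOf (pwP fusC3) = 3 := by
  have h := fus_c3_check
  rw [Bool.and_eq_true] at h
  obtain ⟨h1, h2⟩ := h
  have hok := okW_append_left (baseEq_ok h1).1
  apply orderOf_eq_prime
  · have h3 := pwP_eq h1
    rw [pwP_append, pwP_append] at h3
    rw [pow_succ, pow_two]
    exact h3
  · intro h4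
    rw [bne_iff_ne] at h2
    apply h2
    have h5 : (((pwP fusC3 : ↥PG) : Equiv.Perm (Fin 315)) ⟨1, by norm_num⟩).1 = 1 := by
      rw [h4]
      rfl
    rw [pwP_apply _ hok] at h5
    exact h5

theorem fus_c5 : orderOf (pwP fusC5) = 5 := by
  have h := fus_c5_check
  rw [Bool.and_eq_true] at h
  obtain ⟨h1, h2⟩ := h
  have hok := okW_append_left (baseEq_ok h1).1
  have : Fact (Nat.Prime 5) := ⟨by norm_num⟩
  apply orderOf_eq_prime
  · have h3 := pwP_eq h1
    rw [pwP_append, pwP_append, pwP_append, pwP_append] at h3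
    rw [pow_succ, pow_succ, pow_succ, pow_two]
    exact h3
  · intro h4
    rw [bne_iff_ne] at h2
    apply h2
    have h5 : (((pwP fusC5 : ↥PG) : Equiv.Perm (Fin 315)) ⟨1, by norm_num⟩).1 = 1 := by
      rw [h4]
      rfl
    rw [pwP_apply _ hok] at h5
    exact h5

theorem fus_C_gen (K : Subgroup ↥PG)
    (hK : ∀ u : ↥PG, u * u = 1 → u * DP 0 = DP 0 * u → u ∈ K) (g : ↥PG)
    (hg : g * DP 0 = DP 0 * g) : g ∈ K := by
  have hmemH : ∀ x : ↥PG, x ∈ fusH0 ↔ (x : Equiv.Perm (Fin 315)) 0 = 0 :=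
    fun x => ⟨fun h => h.2, fun h => ⟨Subgroup.mem_top _, h⟩⟩
  have hinv : ∀ u : ↥PG, u * u = 1 → (u : Equiv.Perm (Fin 315)) 0 = 0 → u ∈ K ⊓ fusH0 :=
    fun u h1 h2 => ⟨hK u h1 ((comm_DP_iff u 0).mpr h2), (hmemH u).mpr h2⟩
  have hS : fusS ≤ K ⊓ fusH0 := by
    unfold fusS
    rw [Subgroup.closure_le]
    rintro x ⟨i, rfl⟩
    obtain ⟨-, h1, h2⟩ := fus_gen i.2
    exact hinv _ h1 h2
  have hX : ∀ i, i < 3 → pwP (fW fusX i) ∈ K ⊓ fusH0 := by
    intro i hi
    obtain ⟨-, h1, h2⟩ := fus_X hi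
    exact hinv _ h1 h2
  have hc3 : pwP fusC3 ∈ K ⊓ fusH0 := by
    unfold fusC3
    rw [pwP_append]
    exact mul_mem (hX 0 (by norm_num)) (hX 1 (by norm_num))
  have hc5 : pwP fusC5 ∈ K ⊓ fusH0 := by
    unfold fusC5
    rw [pwP_append]
    exact mul_mem (hX 0 (by norm_num)) (hX 2 (by norm_num))
  have hd3 : 3 ∣ Nat.card ↥(K ⊓ fusH0) := by
    have h := Subgroup.card_dvd_of_le (Subgroup.zpowers_le.mpr hc3)
    rw [Nat.card_zpowers, fus_c3] at h
    exact h
  have hd5 : 5 ∣ Nat.card ↥(K ⊓ fusH0) := by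
    have h := Subgroup.card_dvd_of_le (Subgroup.zpowers_le.mpr hc5)
    rw [Nat.card_zpowers, fus_c5] at h
    exact h
  have hd128 : 128 ∣ Nat.card ↥(K ⊓ fusH0) := by
    have h := Subgroup.card_dvd_of_le hS
    rw [fusS_card] at h
    exact h
  have h384 : 128 * 3 ∣ Nat.card ↥(K ⊓ fusH0) :=
    Nat.Coprime.mul_dvd_of_dvd_of_dvd (by norm_num) hd128 hd3
  have h1920 : 128 * 3 * 5 ∣ Nat.card ↥(K ⊓ fusH0) :=
    Nat.Coprime.mul_dvd_of_dvd_of_dvd (by norm_num) h384 hd5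
  have hge : 128 * 3 * 5 ≤ Nat.card ↥(K ⊓ fusH0) := Nat.le_of_dvd Nat.card_pos h1920
  have hH0 := card_H0_le
  have heq : K ⊓ fusH0 = fusH0 := Subgroup.eq_of_le_of_card_ge inf_le_right (by omega)
  have hgm : g ∈ K ⊓ fusH0 := by
    rw [heq]
    exact (hmemH g).mpr ((comm_DP_iff g 0).mp hg)
  exact hgm.1

theorem fus_Q_norm (g : ↥PG) (hg : g * DP 0 = DP 0 * g) :
    ∀ x ∈ fusQ, g * x * g⁻¹ ∈ fusQ := by
  intro x hx
  unfold fusQ at hx
  induction hx using Subgroup.closure_induction with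
  | mem y hy =>
    obtain ⟨i, hi, rfl⟩ := hy
    rw [DP_conj]
    apply Subgroup.subset_closure
    refine ⟨_, ?_, rfl⟩
    have h1 : ((DP 0 * g : ↥PG) : Equiv.Perm (Fin 315)) i =
        ((g * DP 0 : ↥PG) : Equiv.Perm (Fin 315)) i := by rw [hg]
    have h2 : ((DP 0 : ↥PG) : Equiv.Perm (Fin 315)) ((g : Equiv.Perm (Fin 315)) i) =
        (g : Equiv.Perm (Fin 315)) (((DP 0 : ↥PG) : Equiv.Perm (Fin 315)) i) := h1
    rw [h2, hi]
  | one =>
    rw [mul_one, mul_inv_cancel]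
    exact Subgroup.one_mem _
  | mul a b _ _ ha hb =>
    have e : g * (a * b) * g⁻¹ = (g * a * g⁻¹) * (g * b * g⁻¹) := by group
    rw [e]
    exact Subgroup.mul_mem _ ha hb
  | inv a _ ha =>
    have e : g * a⁻¹ * g⁻¹ = (g * a * g⁻¹)⁻¹ := by group
    rw [e]
    exact Subgroup.inv_mem _ ha

theorem fus_closed (T : Subgroup ↥PG) (hTS : T ≤ fusS) (hT : T ≠ ⊥)
    (hcl : ∀ x ∈ T, ∀ g : ↥PG, g * x * g⁻¹ ∈ fusS → g * x * g⁻¹ ∈ T) : fusS ≤ T := by
  have : Fact (Nat.Prime 2) := ⟨Nat.prime_two⟩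
  have hP : IsPGroup 2 ↥fusS := IsPGroup.of_card (n := 7) (by rw [fusS_card]; norm_num)
  obtain ⟨v, hvT, hv1, hvc⟩ := exists_central_of_normalized 2 T fusS
    (fun h hh v hv => hcl v hv h (fusS.mul_mem (fusS.mul_mem hh (hTS hv)) (fusS.inv_mem hh)))
    hP hTS hT
  obtain ⟨k, hk, rfl⟩ := fusS_le (hTS hvT)
  have hk' := fus_central hk (fun i hi => hvc _ (fusAN_mem hi))
  have hz : DP 0 ∈ T := by
    rcases hk' with rfl | rfl
    · exact absurd fusEN_id hv1
    · rw [← fusEN_z]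
      exact hvT
  have hD : ∀ i : Fin 315, ((DP 0 : ↥PG) : Equiv.Perm (Fin 315)) i = i → DP i ∈ T := by
    intro i hi
    have h1 := DP_conj (pwP (fW fusWTo i.1)) 0
    rw [pwP_wTo i] at h1
    rw [← h1]
    apply hcl _ hz
    rw [h1]
    exact DP_mem_fusS hi
  have hQ : fusQ ≤ T := by
    unfold fusQ
    rw [Subgroup.closure_le]
    rintro x ⟨i, hi, rfl⟩
    exact hD i hi
  have key : ∀ (j : Nat) (e : List Nat × List Nat × List Nat), j < 6 →
      fusChainOK j e = true → fusAN j ∈ T := by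
    intro j e hj he
    unfold fusChainOK at he
    rw [Bool.and_eq_true, Bool.and_eq_true, Bool.and_eq_true] at he
    obtain ⟨⟨⟨-, h2⟩, h3⟩, h4⟩ := he
    have hq : pwP (fusQw e.2.1) ∈ fusQ :=
      pwP_Qw_mem _ (fun f hf => List.contains_iff_mem.mp (List.all_eq_true.mp h2 f hf))
    have hq' : pwP (fusQw e.2.2) ∈ fusQ :=
      pwP_Qw_mem _ (fun f hf => List.contains_iff_mem.mp (List.all_eq_true.mp h3 f hf))
    have e1 : fusAN j = pwP e.1 * pwP (fusQw e.2.1) * (pwP e.1)⁻¹ * pwP (fusQw e.2.2) := by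
      unfold fusAN
      rw [pwP_eq h4, pwP_append, pwP_append, pwP_append, pwP_reverse]
    have hv : pwP e.1 * pwP (fusQw e.2.1) * (pwP e.1)⁻¹ ∈ T := by
      apply hcl _ (hQ hq)
      have e2 : pwP e.1 * pwP (fusQw e.2.1) * (pwP e.1)⁻¹ =
          fusAN j * (pwP (fusQw e.2.2))⁻¹ := by
        rw [e1]
        group
      rw [e2]
      exact fusS.mul_mem (fusAN_mem hj) (fusS.inv_mem (fusQ_le hq'))
    rw [e1]
    exact T.mul_mem hv (hQ hq')
  unfold fusS
  rw [Subgroup.closure_le]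
  rintro x ⟨i, rfl⟩
  show fusAN i.1 ∈ T
  by_cases h4 : i.1 < 4
  · have h := range_all fus_genF_check h4
    rw [Bool.and_eq_true] at h
    obtain ⟨h1, h2⟩ := h
    apply hQ
    unfold fusAN
    rw [pwP_eq h2]
    exact pwP_Dw_mem (List.contains_iff_mem.mp h1)
  · have hi : i.1 = 4 ∨ i.1 = 5 := by
      have := i.2
      omega
    have hch := fus_chain_check
    rw [Bool.and_eq_true] at hch
    rcases hi with hi | hi
    · rw [hi]
      exact key 4 _ (by norm_num) hch.1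
    · rw [hi]
      exact key 5 _ (by norm_num) hch.2

/-- The data of the simplicity criterion for the permutation model. -/
theorem fusData : FusCrit.Data fusS (DP 0) fusQ where
  t_sq := DP_mul_self 0
  t_ne := DP_zero_ne_one
  closed := fus_closed
  t_mem := DP_zero_mem_S
  t_cent := fun s hs => (comm_DP_iff s 0).mpr (fusS_fix hs)
  t_uniq := by
    intro u hu _ hu1 hc
    obtain ⟨k, hk, rfl⟩ := fusS_le hu
    rcases fus_central hk (fun i hi => hc _ (fusAN_mem hi)) with rfl | rfl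
    · exact absurd fusEN_id hu1
    · exact fusEN_z
  Q_le := fusQ_le
  Q_norm := fus_Q_norm
  Q_cent := fus_Q_cent
  C_gen := fus_C_gen

/-- The 2-fusion system of any group isomorphic to the permutation model is simple. -/
theorem fus_simple {G : Type*} [Group G] [Finite G] (e : ↥PG ≃* G) (S : Sylow 2 G) :
    (Cfsg.groupFusionSystem (S : Subgroup G)).IsSimple 2 := by
  have hd := fusData.map e
  have hcard : Nat.card ↥(fusS.map e.toMonoidHom) = 2 ^ 7 := by
    rw [Subgroup.card_map_of_injective e.injective, fusS_card]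
    norm_num
  have hG : ¬ 2 ^ (7 + 1) ∣ Nat.card G := by
    rw [← Nat.card_congr e.toEquiv, PG_card]
    norm_num
  exact FusCrit.simple_of_data' hd 7 hcard hG S

end

end Cfsg.Agent.H60J2
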