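import Cfsg.Agent.Lib.Helper60.J2Simple
import Cfsg.Agent.Lib.Helper60.J2FusCert

/-!
# Words in the permutation model of the Hall–Janko group (helper60)

`PG` is the group generated by the four permutations `j2Perm` of the 315 reflections;
`pwP w` the element of a word, `DP i` the image of the reflection of index `i`.  Two elements
agreeing on the four base points are equal; a bound for point stabilisers.
-/

set_option autoImplicit false

open Quaternion Cfsg.Spor

namespace Cfsg.Agent.H60J2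

noncomputable section

attribute [local irreducible] GreflN

/-- The permutation group on the 315 reflections. -/
abbrev PG : Subgroup (Equiv.Perm (Fin 315)) := Subgroup.closure (Set.range j2Perm)

/-- The generator of index `t`. -/
def jN (t : Nat) : ↥PG :=
  if h : t < 4 then ⟨j2Perm ⟨t, h⟩, Subgroup.subset_closure ⟨⟨t, h⟩, rfl⟩⟩ else 1

/-- The element of a word (the first letter acts first). -/
def pwP : List Nat → ↥PG
  | [] => 1
  | t :: w => pwP w * jN t

theorem okW_iff (w : List Nat) : okW w = true ↔ ∀ t ∈ w, t < 4 := by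
  unfold okW
  rw [List.all_eq_true]
  constructor
  · intro h t ht
    exact of_decide_eq_true (h t ht)
  · intro h t ht
    exact decide_eq_true (h t ht)

theorem jN_apply {t : Nat} (ht : t < 4) (i : Fin 315) :
    (((jN t : ↥PG) : Equiv.Perm (Fin 315)) i).1 = tabN t i.1 := by
  unfold jN
  rw [dif_pos ht]
  show (j2Fun ⟨t, ht⟩ i).1 = tabN t i.1
  exact j2Fun_val ⟨t, ht⟩ i

theorem pwP_apply : ∀ (w : List Nat), (∀ t ∈ w, t < 4) → ∀ i : Fin 315,
    (((pwP w : ↥PG) : Equiv.Perm (Fin 315)) i).1 = actN w i.1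
  | [], _, i => rfl
  | t :: w, hw, i => by
    have ht : t < 4 := hw t (List.mem_cons_self)
    have hw' : ∀ s ∈ w, s < 4 := fun s hs => hw s (List.mem_cons_of_mem _ hs)
    show (((pwP w : ↥PG) : Equiv.Perm (Fin 315))
      (((jN t : ↥PG) : Equiv.Perm (Fin 315)) i)).1 = actN (t :: w) i.1
    rw [pwP_apply w hw', jN_apply ht, actN_cons]

theorem pwP_append : ∀ (u v : List Nat), pwP (u ++ v) = pwP v * pwP u
  | [], v => by
    show pwP v = pwP v * 1
    rw [mul_one]
  | t :: u, v => by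
    show pwP (u ++ v) * jN t = pwP v * (pwP u * jN t)
    rw [pwP_append u v, mul_assoc]

theorem jN_mul_self (t : Nat) : jN t * jN t = 1 := by
  unfold jN
  split_ifs with h
  · apply Subtype.ext
    apply Equiv.ext
    intro i
    exact j2Fun_invol ⟨t, h⟩ i
  · rw [mul_one]

theorem jN_inv (t : Nat) : (jN t)⁻¹ = jN t := inv_eq_of_mul_eq_one_left (jN_mul_self t)

theorem pwP_cons (t : Nat) (w : List Nat) : pwP (t :: w) = pwP w * jN t := rfl

theorem pwP_nil : pwP [] = 1 := rfl

theorem pwP_reverse : ∀ w : List Nat, pwP w.reverse = (pwP w)⁻¹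
  | [] => by
    show (1 : ↥PG) = 1⁻¹
    rw [inv_one]
  | t :: w => by
    rw [List.reverse_cons, pwP_append, pwP_reverse w, pwP_cons, pwP_cons, pwP_nil, one_mul,
      mul_inv_rev, jN_inv]

theorem rho_mem_PG (g : ↥twoJ2) : rho g ∈ PG := by
  show rho g ∈ Subgroup.closure (Set.range j2Perm)
  rw [← rho_range]
  exact ⟨g, rfl⟩

/-- The image of the reflection of index `i`. -/
def DP (i : Fin 315) : ↥PG := ⟨rho (rN i.1), rho_mem_PG _⟩

theorem exists_rho (g : ↥PG) : ∃ γ : ↥twoJ2, rho γ = (g : Equiv.Perm (Fin 315)) := by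
  have h : (g : Equiv.Perm (Fin 315)) ∈ Subgroup.closure (Set.range j2Perm) := g.2
  rw [← rho_range] at h
  exact h

theorem rN_conj_idx (γ : ↥twoJ2) (i : Fin 315) : γ * rN i.1 * γ⁻¹ = rN (rho γ i).1 := by
  apply Subtype.ext
  show (γ : Equiv.Perm icoLeech) * GreflN i.1 * (γ : Equiv.Perm icoLeech)⁻¹ = GreflN (rho γ i).1
  rw [GreflN_eq, GreflN_eq, rho_apply]
  exact conjIdx_spec γ i

theorem DP_conj (g : ↥PG) (i : Fin 315) :
    g * DP i * g⁻¹ = DP ((g : Equiv.Perm (Fin 315)) i) := by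
  obtain ⟨γ, hγ⟩ := exists_rho g
  apply Subtype.ext
  show (g : Equiv.Perm (Fin 315)) * rho (rN i.1) * (g : Equiv.Perm (Fin 315))⁻¹ =
    rho (rN ((g : Equiv.Perm (Fin 315)) i).1)
  rw [← hγ, ← map_inv, ← map_mul, ← map_mul, rN_conj_idx]

theorem DP_mul_self (i : Fin 315) : DP i * DP i = 1 := by
  apply Subtype.ext
  show rho (rN i.1) * rho (rN i.1) = 1
  rw [← map_mul, rN_mul_self, map_one]

theorem DP_gen (t : Fin 4) : DP (genIdx t) = jN t.1 := by
  apply Subtype.ext
  have e1 : rN (genIdx t).1 = gen t := Subtype.ext (GreflN_eq (genIdx t))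
  have e2 : ((jN t.1 : ↥PG) : Equiv.Perm (Fin 315)) = j2Perm t := by
    unfold jN
    rw [dif_pos t.2]
  show rho (rN (genIdx t).1) = ((jN t.1 : ↥PG) : Equiv.Perm (Fin 315))
  rw [e1, e2, rho_gen]

theorem genIdx_zero : genIdx 0 = 0 := Fin.ext genNat_zero

theorem DP_zero : DP 0 = jN 0 := by
  have h := DP_gen 0
  rw [genIdx_zero] at h
  exact h

/-- The group is simple. -/
theorem PG_simple : IsSimpleGroup ↥PG := by
  obtain ⟨e⟩ := j2_equiv
  exact (MulEquiv.isSimpleGroup_congr e).mp J2_simple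

theorem PG_center : Subgroup.center ↥PG = ⊥ := by
  have := PG_simple
  rcases (Subgroup.center ↥PG).normal_of_characteristic.eq_bot_or_eq_top with h | h
  · exact h
  · exfalso
    obtain ⟨e⟩ := j2_equiv
    obtain ⟨a, b, hab⟩ := J2_noncomm
    apply hab
    have h1 : e b ∈ Subgroup.center ↥PG := by rw [h]; exact Subgroup.mem_top _
    have h2 := Subgroup.mem_center_iff.mp h1 (e a)
    apply e.injective
    rw [map_mul, map_mul, h2]

theorem eq_one_of_base (r : ↥PG)
    (h : ∀ t : Fin 4, (r : Equiv.Perm (Fin 315)) (genIdx t) = genIdx t) : r = 1 := by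
  have hc : ∀ t : Fin 4, (r : Equiv.Perm (Fin 315)) * j2Perm t =
      j2Perm t * (r : Equiv.Perm (Fin 315)) := by
    intro t
    have h1 := DP_conj r (genIdx t)
    rw [h t, DP_gen] at h1
    have h2 : r * jN t.1 = jN t.1 * r := mul_inv_eq_iff_eq_mul.mp h1
    have h3 := congrArg Subtype.val h2
    have e2 : ((jN t.1 : ↥PG) : Equiv.Perm (Fin 315)) = j2Perm t := by
      unfold jN
      rw [dif_pos t.2]
    have h4 : (r : Equiv.Perm (Fin 315)) * ((jN t.1 : ↥PG) : Equiv.Perm (Fin 315)) =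
        ((jN t.1 : ↥PG) : Equiv.Perm (Fin 315)) * (r : Equiv.Perm (Fin 315)) := h3
    rw [e2] at h4
    exact h4
  have hall : ∀ x : Equiv.Perm (Fin 315), x ∈ Subgroup.closure (Set.range j2Perm) →
      x * (r : Equiv.Perm (Fin 315)) = (r : Equiv.Perm (Fin 315)) * x := by
    intro x hx
    induction hx using Subgroup.closure_induction with
    | mem y hy =>
      obtain ⟨t, rfl⟩ := hy
      exact (hc t).symm
    | one => rw [one_mul, mul_one]
    | mul a b _ _ ha hb => rw [mul_assoc, hb, ← mul_assoc, ha, mul_assoc]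
    | inv a _ ha =>
      have : a⁻¹ * (r : Equiv.Perm (Fin 315)) = a⁻¹ * ((r : Equiv.Perm (Fin 315)) * a) * a⁻¹ := by
        group
      rw [this, ← ha]
      group
  have hcen : r ∈ Subgroup.center ↥PG := by
    rw [Subgroup.mem_center_iff]
    intro x
    apply Subtype.ext
    exact hall x.1 x.2
  rw [PG_center, Subgroup.mem_bot] at hcen
  exact hcen

theorem genNat_mem : ∀ t : Fin 4, genNat t.1 ∈ [0, 131, 61, 254] := by decide

theorem pwP_eq {u v : List Nat} (h : baseEq u v = true) : pwP u = pwP v := by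
  unfold baseEq at h
  rw [Bool.and_eq_true, Bool.and_eq_true, List.all_eq_true] at h
  obtain ⟨⟨hu, hv⟩, hb⟩ := h
  rw [okW_iff] at hu hv
  have h1 : (pwP v)⁻¹ * pwP u = 1 := by
    apply eq_one_of_base
    intro t
    have e1 : ((pwP u : ↥PG) : Equiv.Perm (Fin 315)) (genIdx t) =
        ((pwP v : ↥PG) : Equiv.Perm (Fin 315)) (genIdx t) := by
      apply Fin.ext
      rw [pwP_apply u hu, pwP_apply v hv]
      have := hb _ (genNat_mem t)
      exact beq_iff_eq.mp this
    show ((pwP v : ↥PG) : Equiv.Perm (Fin 315))⁻¹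
      (((pwP u : ↥PG) : Equiv.Perm (Fin 315)) (genIdx t)) = genIdx t
    rw [e1]
    exact Equiv.symm_apply_apply _ _
  exact (inv_mul_eq_one.mp h1).symm

/-- The stabiliser of a point in a subgroup. -/
def stabIn (K : Subgroup ↥PG) (x : Fin 315) : Subgroup ↥PG where
  carrier := {g | g ∈ K ∧ (g : Equiv.Perm (Fin 315)) x = x}
  mul_mem' := by
    rintro a b ⟨ha, ha'⟩ ⟨hb, hb'⟩
    refine ⟨K.mul_mem ha hb, ?_⟩
    show (a : Equiv.Perm (Fin 315)) ((b : Equiv.Perm (Fin 315)) x) = x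
    rw [hb', ha']
  one_mem' := ⟨K.one_mem, rfl⟩
  inv_mem' := by
    rintro a ⟨ha, ha'⟩
    refine ⟨K.inv_mem ha, ?_⟩
    show (a : Equiv.Perm (Fin 315))⁻¹ x = x
    rw [Equiv.Perm.inv_eq_iff_eq, ha']

theorem mem_stabIn {K : Subgroup ↥PG} {x : Fin 315} {g : ↥PG} :
    g ∈ stabIn K x ↔ g ∈ K ∧ (g : Equiv.Perm (Fin 315)) x = x := Iff.rfl

theorem orbit_bound (K : Subgroup ↥PG) (x : Fin 315) (n : ℕ) (e : Fin n → ↥PG)
    (he : ∀ j, e j ∈ K)
    (hinj : ∀ a b, ((e a : ↥PG) : Equiv.Perm (Fin 315)) x =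
      ((e b : ↥PG) : Equiv.Perm (Fin 315)) x → a = b) :
    n * Nat.card ↥(stabIn K x) ≤ Nat.card ↥K := by
  let φ : Fin n × ↥(stabIn K x) → ↥K := fun p => ⟨e p.1 * p.2.1, K.mul_mem (he p.1) p.2.2.1⟩
  have hφ : Function.Injective φ := by
    rintro ⟨a, s⟩ ⟨b, s'⟩ hab
    have h1 : e a * s.1 = e b * s'.1 := congrArg Subtype.val hab
    have h2 : ((e a : ↥PG) : Equiv.Perm (Fin 315)) x = ((e b : ↥PG) : Equiv.Perm (Fin 315)) x := by
      have h3 := congrArg (fun g : ↥PG => (g : Equiv.Perm (Fin 315)) x) h1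
      have h4 : ((e a : ↥PG) : Equiv.Perm (Fin 315)) (((s.1 : ↥PG) : Equiv.Perm (Fin 315)) x) =
          ((e b : ↥PG) : Equiv.Perm (Fin 315)) (((s'.1 : ↥PG) : Equiv.Perm (Fin 315)) x) := h3
      rw [s.2.2, s'.2.2] at h4
      exact h4
    have hab' : a = b := hinj a b h2
    subst hab'
    have h5 : s.1 = s'.1 := mul_left_cancel h1
    rw [Subtype.ext h5]
  have h := Nat.card_le_card_of_injective φ hφ
  rw [Nat.card_prod, Nat.card_fin] at h
  exact h

end

end Cfsg.Agent.H60J2
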