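import Cfsg.Agent.Lib.Helper60.J2FusModel

/-!
# A Sylow 2-subgroup of the Hall–Janko group in the permutation model (helper60)

`fusS` is generated by six involutions fixing the point `0`; it has order 128 and its only
central involution is the reflection `DP 0`.  `fusQ` is generated by the reflections commuting
with `DP 0`.
-/

set_option autoImplicit false

open Quaternion Cfsg.Spor

namespace Cfsg.Agent.H60J2

noncomputable section

attribute [local irreducible] GreflN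

theorem range_all {n : Nat} {p : Nat → Bool} (h : (List.range n).all p = true) {k : Nat}
    (hk : k < n) : p k = true :=
  List.all_eq_true.mp h k (List.mem_range.mpr hk)

theorem okW_append_left {u v : List Nat} (h : okW (u ++ v) = true) : ∀ t ∈ u, t < 4 :=
  fun t ht => (okW_iff _).mp h t (List.mem_append_left _ ht)

theorem okW_append_right {u v : List Nat} (h : okW (u ++ v) = true) : ∀ t ∈ v, t < 4 :=
  fun t ht => (okW_iff _).mp h t (List.mem_append_right _ ht)

theorem baseEq_ok {u v : List Nat} (h : baseEq u v = true) : okW u = true ∧ okW v = true := by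
  unfold baseEq at h
  rw [Bool.and_eq_true, Bool.and_eq_true] at h
  exact h.1

theorem okW_append {u v : List Nat} (hu : ∀ t ∈ u, t < 4) (hv : ∀ t ∈ v, t < 4) :
    ∀ t ∈ u ++ v, t < 4 := by
  intro t ht
  rcases List.mem_append.mp ht with h | h
  · exact hu t h
  · exact hv t h

/-- The group acts transitively: the word `fusWTo y` maps `0` to `y`. -/
theorem pwP_wTo (y : Fin 315) :
    ((pwP (fW fusWTo y.1) : ↥PG) : Equiv.Perm (Fin 315)) 0 = y := by
  have h := range_all fus_wTo_check y.2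
  rw [Bool.and_eq_true] at h
  obtain ⟨h1, h2⟩ := h
  apply Fin.ext
  rw [pwP_apply _ ((okW_iff _).mp h1)]
  exact beq_iff_eq.mp h2

theorem DP_word (y : Fin 315) : DP y = pwP (fusDw y.1) := by
  have h1 := DP_conj (pwP (fW fusWTo y.1)) 0
  rw [pwP_wTo y, DP_zero] at h1
  rw [← h1]
  unfold fusDw
  rw [pwP_append, pwP_cons, pwP_reverse]

theorem rN_gen (t : Fin 4) : rN (genIdx t).1 = gen t := Subtype.ext (GreflN_eq (genIdx t))

theorem DP_zero_inj {c : Fin 315} (h : DP c = DP 0) : c = 0 := by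
  by_contra hc
  have h3 : rho (rN c.1) = rho (rN 0) := congrArg Subtype.val h
  have h1 : rho (rN 0 * rN c.1) = 1 := by
    rw [map_mul, h3, ← map_mul, rN_mul_self, map_one]
  have h4 : EN (Subgroup.center ↥twoJ2) 0 c.1 := by
    unfold EN
    rw [← rho_ker, MonoidHom.mem_ker]
    exact h1
  have hc' : c.1 ≠ 0 := fun e => hc (Fin.ext e)
  have h5 := all_equiv (N := Subgroup.center ↥twoJ2) c.2 hc' h4 (genNat 0) (genNat 1)
    (genNat_lt 0 (by norm_num)) (genNat_lt 1 (by norm_num))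
  rw [← rho_ker, MonoidHom.mem_ker, map_mul] at h5
  have e0 : rho (rN (genNat 0)) = j2Perm 0 := (congrArg rho (rN_gen 0)).trans (rho_gen 0)
  have e1 : rho (rN (genNat 1)) = j2Perm 1 := (congrArg rho (rN_gen 1)).trans (rho_gen 1)
  rw [e0, e1] at h5
  have h6 : j2Perm 1 * j2Perm 0 = 1 := by
    have : j2Perm 1 = (j2Perm 0)⁻¹ := eq_inv_of_mul_eq_one_right h5
    rw [this, inv_mul_cancel]
  have h2 : j2Perm 0 * j2Perm 1 = j2Perm 1 * j2Perm 0 := by rw [h5, h6]
  obtain ⟨j, hj, hne⟩ := tab_noncomm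
  have h7 := congrArg (fun p : Equiv.Perm (Fin 315) => (p ⟨j, hj⟩).1) h2
  have h8 : (j2Fun 0 (j2Fun 1 ⟨j, hj⟩)).1 = (j2Fun 1 (j2Fun 0 ⟨j, hj⟩)).1 := h7
  rw [j2Fun_val, j2Fun_val, j2Fun_val, j2Fun_val] at h8
  exact hne h8

theorem DP_injective : Function.Injective DP := by
  intro i j hij
  have hgi : (((pwP (fW fusWTo i.1))⁻¹ : ↥PG) : Equiv.Perm (Fin 315)) i = 0 := by
    show ((pwP (fW fusWTo i.1) : ↥PG) : Equiv.Perm (Fin 315))⁻¹ i = 0
    rw [Equiv.Perm.inv_eq_iff_eq]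
    exact (pwP_wTo i).symm
  have h1 : DP ((((pwP (fW fusWTo i.1))⁻¹ : ↥PG) : Equiv.Perm (Fin 315)) j) = DP 0 := by
    rw [← DP_conj, ← hij, DP_conj, hgi]
  have h2 := DP_zero_inj h1
  have h3 : (((pwP (fW fusWTo i.1))⁻¹ : ↥PG) : Equiv.Perm (Fin 315)) i =
      (((pwP (fW fusWTo i.1))⁻¹ : ↥PG) : Equiv.Perm (Fin 315)) j := by rw [hgi, h2]
  exact (Equiv.injective _) h3

theorem comm_DP_iff (g : ↥PG) (i : Fin 315) :
    g * DP i = DP i * g ↔ (g : Equiv.Perm (Fin 315)) i = i := by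
  constructor
  · intro h
    have h1 := DP_conj g i
    rw [h, mul_inv_cancel_right] at h1
    exact (DP_injective h1).symm
  · intro h
    have h1 := DP_conj g i
    rw [h] at h1
    exact mul_inv_eq_iff_eq_mul.mp h1

/-- The generators of the Sylow subgroup. -/
def fusAN (i : Nat) : ↥PG := pwP (fW fusGen i)

/-- The elements of the Sylow subgroup. -/
def fusEN (k : Nat) : ↥PG := pwP (fW fusL k)

/-- The Sylow subgroup. -/
def fusS : Subgroup ↥PG := Subgroup.closure (Set.range (fun i : Fin 6 => fusAN i.1))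

theorem fusAN_mem {i : Nat} (hi : i < 6) : fusAN i ∈ fusS :=
  Subgroup.subset_closure ⟨⟨i, hi⟩, rfl⟩

theorem fus_sig {i k : Nat} (hi : i < 6) (hk : k < 128) :
    fusSigma i k < 128 ∧ fusAN i * fusEN k = fusEN (fusSigma i k) := by
  have h := range_all (range_all fus_sig_check hi) hk
  rw [Bool.and_eq_true] at h
  obtain ⟨h1, h2⟩ := h
  refine ⟨of_decide_eq_true h1, ?_⟩
  have h3 := pwP_eq h2
  rw [pwP_append] at h3
  exact h3

theorem fus_gen {i : Nat} (hi : i < 6) :
    (∀ t ∈ fW fusGen i, t < 4) ∧ fusAN i * fusAN i = 1 ∧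
      ((fusAN i : ↥PG) : Equiv.Perm (Fin 315)) 0 = 0 := by
  have h := range_all fus_gen_check hi
  rw [Bool.and_eq_true] at h
  obtain ⟨h1, h2⟩ := h
  have hok := okW_append_left (baseEq_ok h1).1
  refine ⟨hok, ?_, ?_⟩
  · have h3 := pwP_eq h1
    rw [pwP_append] at h3
    exact h3
  · apply Fin.ext
    show (((pwP (fW fusGen i) : ↥PG) : Equiv.Perm (Fin 315)) 0).1 = 0
    rw [pwP_apply _ hok]
    exact beq_iff_eq.mp h2

theorem fusAN_inv {i : Nat} (hi : i < 6) : (fusAN i)⁻¹ = fusAN i :=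
  inv_eq_of_mul_eq_one_left (fus_gen hi).2.1

theorem fusL_ok {k : Nat} (hk : k < 128) : ∀ t ∈ fW fusL k, t < 4 := by
  have h := range_all (range_all fus_sig_check (show 0 < 6 by norm_num)) hk
  rw [Bool.and_eq_true] at h
  exact okW_append_left (baseEq_ok h.2).1

theorem fusEN_id : fusEN 17 = 1 := by
  unfold fusEN
  rw [fus_id_check]
  rfl

theorem fusEN_z : fusEN 16 = DP 0 := by
  have h := pwP_eq fus_z_check
  rw [pwP_cons, pwP_nil, one_mul] at h
  rw [DP_zero]
  exact h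

/-- Every element of the Sylow subgroup is in the list. -/
theorem fusS_le {x : ↥PG} (hx : x ∈ fusS) : ∃ k, k < 128 ∧ x = fusEN k := by
  unfold fusS at hx
  induction hx using Subgroup.closure_induction_left with
  | one => exact ⟨17, by norm_num, fusEN_id.symm⟩
  | mul_left x hx y _ ih =>
    obtain ⟨i, rfl⟩ := hx
    obtain ⟨k, hk, rfl⟩ := ih
    obtain ⟨h1, h2⟩ := fus_sig i.2 hk
    exact ⟨_, h1, h2⟩
  | inv_mul_cancel x hx y _ ih =>
    obtain ⟨i, rfl⟩ := hx
    obtain ⟨k, hk, rfl⟩ := ih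
    obtain ⟨h1, h2⟩ := fus_sig i.2 hk
    refine ⟨_, h1, ?_⟩
    show (fusAN i.1)⁻¹ * fusEN k = _
    rw [fusAN_inv i.2]
    exact h2

theorem fusTree_sound : ∀ (l : List (Nat × Nat × Nat)) (known : List Nat),
    fusTreeOK l known = true → (∀ k ∈ known, k < 128 ∧ fusEN k ∈ fusS) →
    ∀ k, k < 128 → fusEN k ∈ fusS
  | [], known, hok, hk => by
    intro k hlt
    unfold fusTreeOK at hok
    have h1 := range_all hok hlt
    exact (hk k (List.contains_iff_mem.mp h1)).2
  | e :: es, known, hok, hk => by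
    unfold fusTreeOK at hok
    rw [Bool.and_eq_true, Bool.and_eq_true, Bool.and_eq_true] at hok
    obtain ⟨⟨⟨h1, h2⟩, h3⟩, h4⟩ := hok
    apply fusTree_sound es (e.1 :: known) h4
    intro k hk'
    rcases List.mem_cons.mp hk' with rfl | hk''
    · have hi : e.2.1 < 6 := of_decide_eq_true h2
      have hσ : fusSigma e.2.1 e.2.2 = e.1 := of_decide_eq_true h3
      obtain ⟨hlt, hmem⟩ := hk e.2.2 (List.contains_iff_mem.mp h1)
      obtain ⟨h5, h6⟩ := fus_sig hi hlt
      rw [hσ] at h5 h6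
      refine ⟨h5, ?_⟩
      rw [← h6]
      exact fusS.mul_mem (fusAN_mem hi) hmem
    · exact hk k hk''

theorem fusEN_mem {k : Nat} (hk : k < 128) : fusEN k ∈ fusS := by
  refine fusTree_sound fusTree [17] fus_tree_check ?_ k hk
  intro k hk'
  rw [List.mem_singleton] at hk'
  subst hk'
  refine ⟨by norm_num, ?_⟩
  rw [fusEN_id]
  exact fusS.one_mem

theorem fusEN_key {k : Nat} (hk : k < 128) (b : Fin 315) :
    actN (fW fusL k) b.1 = (((fusEN k : ↥PG) : Equiv.Perm (Fin 315)) b).1 := by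
  unfold fusEN
  rw [pwP_apply _ (fusL_ok hk)]

theorem fusEN_inj {a b : Nat} (ha : a < 128) (hb : b < 128) (h : fusEN a = fusEN b) : a = b := by
  have hk : fusKey (fW fusL a) = fusKey (fW fusL b) := by
    unfold fusKey
    rw [fusEN_key ha ⟨0, by norm_num⟩, fusEN_key ha ⟨131, by norm_num⟩,
      fusEN_key ha ⟨61, by norm_num⟩, fusEN_key ha ⟨254, by norm_num⟩,
      fusEN_key hb ⟨0, by norm_num⟩, fusEN_key hb ⟨131, by norm_num⟩,
      fusEN_key hb ⟨61, by norm_num⟩, fusEN_key hb ⟨254, by norm_num⟩, h]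
  have h1 := beq_iff_eq.mp (range_all fus_key_check ha)
  have h2 := beq_iff_eq.mp (range_all fus_key_check hb)
  have h3 : fusKeys.getD a 0 = fusKeys.getD b 0 := by rw [← h1, ← h2, hk]
  have h4 := range_all (range_all fus_key_nodup ha) hb
  rw [Bool.or_eq_true] at h4
  rcases h4 with h4 | h4
  · exact beq_iff_eq.mp h4
  · exfalso
    rw [bne_iff_ne] at h4
    exact h4 h3

theorem fusS_card : Nat.card ↥fusS = 128 := by
  let e : Fin 128 → ↥fusS := fun k => ⟨fusEN k.1, fusEN_mem k.2⟩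
  have hbij : Function.Bijective e := by
    constructor
    · intro a b hab
      have h1 : fusEN a.1 = fusEN b.1 := congrArg Subtype.val hab
      exact Fin.ext (fusEN_inj a.2 b.2 h1)
    · rintro ⟨x, hx⟩
      obtain ⟨k, hk, rfl⟩ := fusS_le hx
      exact ⟨⟨k, hk⟩, rfl⟩
  rw [← Nat.card_congr (Equiv.ofBijective e hbij), Nat.card_fin]

theorem fus_central {k : Nat} (hk : k < 128)
    (hc : ∀ i, i < 6 → fusAN i * fusEN k = fusEN k * fusAN i) : k = 17 ∨ k = 16 := by
  have h := range_all fus_cen_check hk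
  rw [Bool.or_eq_true, Bool.or_eq_true] at h
  rcases h with (h | h) | h
  · exact Or.inl (beq_iff_eq.mp h)
  · exact Or.inr (beq_iff_eq.mp h)
  · exfalso
    unfold fusCenOK at h
    rw [Bool.and_eq_true, Bool.and_eq_true] at h
    obtain ⟨⟨h1, h2⟩, h3⟩ := h
    have hi : (fusCen.getD k (0, 0)).1 < 6 := of_decide_eq_true h1
    have hx : (fusCen.getD k (0, 0)).2 < 315 := of_decide_eq_true h2
    rw [bne_iff_ne] at h3
    apply h3
    have h4 := hc _ hi
    unfold fusAN fusEN at h4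
    rw [← pwP_append, ← pwP_append] at h4
    have h5 : (((pwP (fW fusL k ++ fW fusGen (fusCen.getD k (0, 0)).1) : ↥PG) :
        Equiv.Perm (Fin 315)) ⟨_, hx⟩).1 =
        (((pwP (fW fusGen (fusCen.getD k (0, 0)).1 ++ fW fusL k) : ↥PG) :
        Equiv.Perm (Fin 315)) ⟨_, hx⟩).1 := by rw [h4]
    rw [pwP_apply _ (okW_append (fusL_ok hk) (fus_gen hi).1),
      pwP_apply _ (okW_append (fus_gen hi).1 (fusL_ok hk))] at h5
    exact h5

/-- The subgroup generated by the reflections commuting with the reflection `0`. -/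
def fusQ : Subgroup ↥PG :=
  Subgroup.closure {x | ∃ i : Fin 315, ((DP 0 : ↥PG) : Equiv.Perm (Fin 315)) i = i ∧ x = DP i}

theorem DP_zero_apply (i : Fin 315) :
    (((DP 0 : ↥PG) : Equiv.Perm (Fin 315)) i).1 = tabN 0 i.1 := by
  rw [DP_zero]
  exact jN_apply (by norm_num) i

theorem fix_mem_F0 {i : Fin 315} (h : ((DP 0 : ↥PG) : Equiv.Perm (Fin 315)) i = i) :
    i.1 ∈ fusF0 := by
  have h1 := range_all fus_fix_check i.2
  rw [Bool.or_eq_true] at h1
  rcases h1 with h1 | h1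
  · exfalso
    rw [bne_iff_ne] at h1
    apply h1
    rw [← DP_zero_apply, h]
  · exact List.contains_iff_mem.mp h1

theorem F0_fix {f : Nat} (hf : f ∈ fusF0) : ∃ h : f < 315,
    ((DP 0 : ↥PG) : Equiv.Perm (Fin 315)) ⟨f, h⟩ = ⟨f, h⟩ := by
  have h1 := List.all_eq_true.mp fus_F0_check f hf
  rw [Bool.and_eq_true] at h1
  obtain ⟨h2, h3⟩ := h1
  refine ⟨of_decide_eq_true h2, ?_⟩
  apply Fin.ext
  rw [DP_zero_apply]
  exact beq_iff_eq.mp h3

theorem DP_mem_fusS {i : Fin 315} (h : ((DP 0 : ↥PG) : Equiv.Perm (Fin 315)) i = i) :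
    DP i ∈ fusS := by
  have h1 := fix_mem_F0 h
  obtain ⟨j, hj, e⟩ := List.mem_iff_getElem.mp h1
  have hj' : j < 11 := hj
  have e2 : fusF0.getD j 0 = i.1 := by
    rw [List.getD_eq_getElem _ _ hj]
    exact e
  have h2 := range_all fus_kF_check hj'
  rw [Bool.and_eq_true] at h2
  obtain ⟨h3, h4⟩ := h2
  rw [e2] at h4
  rw [DP_word, pwP_eq h4]
  exact fusEN_mem (of_decide_eq_true h3)

theorem fusQ_le : fusQ ≤ fusS := by
  unfold fusQ
  rw [Subgroup.closure_le]
  rintro x ⟨i, hi, rfl⟩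
  exact DP_mem_fusS hi

theorem DP_mem_fusQ {f : Nat} (hf : f ∈ fusF0) (h : f < 315) : DP ⟨f, h⟩ ∈ fusQ := by
  obtain ⟨h', e⟩ := F0_fix hf
  exact Subgroup.subset_closure ⟨⟨f, h⟩, e, rfl⟩

theorem pwP_Dw_mem {f : Nat} (hf : f ∈ fusF0) : pwP (fusDw f) ∈ fusQ := by
  obtain ⟨h', -⟩ := F0_fix hf
  have := DP_mem_fusQ hf h'
  rw [DP_word] at this
  exact this

theorem pwP_Qw_mem : ∀ fs : List Nat, (∀ f ∈ fs, f ∈ fusF0) → pwP (fusQw fs) ∈ fusQ
  | [], _ => fusQ.one_mem
  | f :: fs, h => by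
    show pwP (fusDw f ++ fusQw fs) ∈ fusQ
    rw [pwP_append]
    exact fusQ.mul_mem (pwP_Qw_mem fs (fun g hg => h g (List.mem_cons_of_mem _ hg)))
      (pwP_Dw_mem (h f List.mem_cons_self))

end

end Cfsg.Agent.H60J2
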