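import Cfsg.Agent.Lib.Helper60.J2Perm

/-!
# The icosian reflection group is perfect (helper60)

A normal subgroup containing all products of two reflections is the whole group, because of an
odd-length relation among the reflections.
-/

set_option autoImplicit false

open Quaternion Cfsg.Spor

open scoped commutatorElement

namespace Cfsg.Agent.H60J2

noncomputable section

theorem Grefl_inv (i : Fin repsP.length) : (Grefl i)⁻¹ = Grefl i := Equiv.ext (fun _ => rfl)

theorem GreflN_inv (k : Nat) : (GreflN k)⁻¹ = GreflN k := by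
  unfold GreflN
  split_ifs with h
  · exact Grefl_inv _
  · exact inv_one

attribute [local irreducible] GreflN

/-- The reflection of index `k` as an element of the reflection group. -/
def rN (k : Nat) : ↥twoJ2 := ⟨GreflN k, GreflN_mem k⟩

theorem rN_val (k : Nat) : ((rN k : ↥twoJ2) : Equiv.Perm icoLeech) = GreflN k := rfl

theorem rN_inv (k : Nat) : (rN k)⁻¹ = rN k := Subtype.ext (GreflN_inv k)

theorem rN_mul_self (k : Nat) : rN k * rN k = 1 := by
  nth_rewrite 1 [← rN_inv k]
  exact inv_mul_cancel _

theorem isRefl_GreflN {k : Nat} (h : k < 315) : IsIcoReflection (GreflN k) := by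
  have h2 := isRefl_GreflF ⟨k, h⟩
  rw [← GreflN_eq] at h2
  exact h2

/-- A normal subgroup containing all products of two reflections is everything. -/
theorem eq_top_of_pairs (N : Subgroup ↥twoJ2) [hN : N.Normal]
    (h : ∀ a b : Nat, a < 315 → b < 315 → rN a * rN b ∈ N) : N = ⊤ := by
  have h5 : rN 308 * ((rN 310 * rN 307) * (rN 306 * rN 9)) = 1 := by
    apply Subtype.ext
    have h0 := odd_rel
    show GreflN 308 * ((GreflN 310 * GreflN 307) * (GreflN 306 * GreflN 9)) = 1
    rw [← h0]
    simp only [gw, mul_assoc, one_mul]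
  have hr : rN 308 ∈ N := by
    have h1 : (rN 310 * rN 307) * (rN 306 * rN 9) ∈ N :=
      mul_mem (h _ _ (by norm_num) (by norm_num)) (h _ _ (by norm_num) (by norm_num))
    have h2 : rN 308 = ((rN 310 * rN 307) * (rN 306 * rN 9))⁻¹ := eq_inv_of_mul_eq_one_left h5
    rw [h2]
    exact inv_mem h1
  have hle : twoJ2 ≤ N.map (Subgroup.subtype twoJ2) := by
    show Subgroup.closure {f | IsIcoReflection f} ≤ _
    rw [Subgroup.closure_le]
    intro f hf
    obtain ⟨g, hg, e⟩ := refl_conjugate _ f (isRefl_GreflN (k := 308) (by norm_num)) hf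
    exact ⟨⟨g, hg⟩ * rN 308 * ⟨g, hg⟩⁻¹, hN.conj_mem _ hr _, e⟩
  rw [eq_top_iff]
  intro x _
  obtain ⟨y, hy, e⟩ := hle x.2
  have e' : y = x := Subtype.ext e
  rw [← e']
  exact hy

theorem rN_mul_mem_commutator {a b : Nat} (ha : a < 315) (hb : b < 315) :
    rN a * rN b ∈ commutator ↥twoJ2 := by
  obtain ⟨g, hg, e⟩ := refl_conjugate _ _ (isRefl_GreflN ha) (isRefl_GreflN hb)
  have h : rN a * rN b = ⁅rN a, (⟨g, hg⟩ : ↥twoJ2)⁆ := by
    apply Subtype.ext
    show GreflN a * GreflN b = GreflN a * g * (GreflN a)⁻¹ * g⁻¹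
    rw [GreflN_inv, ← e]
    simp only [mul_assoc]
  rw [h, commutator_def]
  exact Subgroup.commutator_mem_commutator (Subgroup.mem_top _) (Subgroup.mem_top _)

/-- The icosian reflection group is perfect. -/
theorem commutator_eq_top : commutator ↥twoJ2 = ⊤ :=
  eq_top_of_pairs _ (fun _ _ ha hb => rN_mul_mem_commutator ha hb)

/-- The central involution `-1` lies in the commutator subgroup. -/
theorem zPerm_mem_commutator : (⟨zPerm, zPerm_mem⟩ : ↥twoJ2) ∈ commutator ↥twoJ2 := by
  rw [commutator_eq_top]
  exact Subgroup.mem_top _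

end

end Cfsg.Agent.H60J2
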