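import Cfsg.Agent.Lib.Helper60.J2PrimCert
import Cfsg.Agent.Lib.Helper60.J2Perfect

/-!
# Normal subgroups of the icosian reflection group (helper60)

A normal subgroup not contained in the centre is the whole group: the action on the 315
reflections is primitive, and the group is generated by the reflections, which satisfy an
odd-length relation.
-/

set_option autoImplicit false

open Quaternion Cfsg.Spor

namespace Cfsg.Agent.H60J2

noncomputable section

attribute [local irreducible] GreflN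

/-- The relation "the product of the two reflections lies in `N`". -/
def EN (N : Subgroup ↥twoJ2) (a b : Nat) : Prop := rN a * rN b ∈ N

theorem EN_refl (N : Subgroup ↥twoJ2) (a : Nat) : EN N a a := by
  unfold EN
  rw [rN_mul_self]
  exact one_mem _

theorem EN_symm {N : Subgroup ↥twoJ2} {a b : Nat} (h : EN N a b) : EN N b a := by
  have h1 := inv_mem h
  rw [mul_inv_rev, rN_inv, rN_inv] at h1
  exact h1

theorem EN_trans {N : Subgroup ↥twoJ2} {a b c : Nat} (h1 : EN N a b) (h2 : EN N b c) :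
    EN N a c := by
  have h3 := mul_mem h1 h2
  have e : rN a * rN b * (rN b * rN c) = rN a * rN c := by
    rw [mul_assoc, ← mul_assoc (rN b), rN_mul_self, one_mul]
  rw [e] at h3
  exact h3

theorem rN_conj {t a : Nat} (ht : t < 4) (ha : a < 315) :
    rN (genNat t) * rN a * (rN (genNat t))⁻¹ = rN (tabN t a) ∧ tabN t a < 315 := by
  obtain ⟨h1, h2⟩ := row_spec (rows_check t ht) ⟨a, ha⟩
  exact ⟨Subtype.ext h1, h2⟩

theorem EN_gen {N : Subgroup ↥twoJ2} [hN : N.Normal] {t a b : Nat} (ht : t < 4) (ha : a < 315)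
    (hb : b < 315) (h : EN N a b) : EN N (tabN t a) (tabN t b) := by
  obtain ⟨e1, -⟩ := rN_conj ht ha
  obtain ⟨e2, -⟩ := rN_conj ht hb
  unfold EN
  rw [← e1, ← e2]
  have h1 := hN.conj_mem _ h (rN (genNat t))
  have e : rN (genNat t) * rN a * (rN (genNat t))⁻¹ *
      (rN (genNat t) * rN b * (rN (genNat t))⁻¹) =
      rN (genNat t) * (rN a * rN b) * (rN (genNat t))⁻¹ := by
    group
  rw [e]
  exact h1

theorem actN_cons (t : Nat) (w : List Nat) (x : Nat) : actN (t :: w) x = actN w (tabN t x) := rfl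

theorem actN_nil (x : Nat) : actN [] x = x := rfl

theorem actN_lt : ∀ (w : List Nat) (a : Nat), (∀ t ∈ w, t < 4) → a < 315 → actN w a < 315
  | [], a, _, ha => ha
  | t :: w, a, hw, ha => by
      rw [actN_cons]
      exact actN_lt w _ (fun s hs => hw s (List.mem_cons_of_mem _ hs))
        (rN_conj (hw t List.mem_cons_self) ha).2

theorem EN_word {N : Subgroup ↥twoJ2} [hN : N.Normal] : ∀ (w : List Nat) (a b : Nat),
    (∀ t ∈ w, t < 4) → a < 315 → b < 315 → EN N a b → EN N (actN w a) (actN w b)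
  | [], _, _, _, _, _, h => h
  | t :: w, a, b, hw, ha, hb, h => by
      rw [actN_cons, actN_cons]
      have ht := hw t List.mem_cons_self
      exact EN_word w _ _ (fun s hs => hw s (List.mem_cons_of_mem _ hs)) (rN_conj ht ha).2
        (rN_conj ht hb).2 (EN_gen ht ha hb h)

theorem EN_rule {N : Subgroup ↥twoJ2} [hN : N.Normal] {w : List Nat} {x y : Nat}
    (hw : ∀ t ∈ w, t < 4) (hx : x < 315) (hy : y < 315) (h1 : EN N 0 x) (h2 : EN N 0 y)
    (h3 : EN N 0 (actN w x)) : EN N 0 (actN w y) :=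
  EN_trans h3 (EN_word w x y hw hx hy (EN_trans (EN_symm h1) h2))

theorem red_spec {c : Nat} (hc : c < 315) (hc0 : c ≠ 0) : redOK c = true := by
  have h := red_check
  rw [List.all_eq_true] at h
  have h1 := h c (List.mem_range.mpr hc)
  simpa [hc0] using h1

theorem orbT_mem {c : Nat} (hc : c < 315) (hc0 : c ≠ 0) : orbT c ∈ [1, 2, 3, 4, 5] := by
  have h := red_spec hc hc0
  simp only [redOK, Bool.and_eq_true, decide_eq_true_eq] at h
  exact h.1.1.1.1.1.2

theorem orbT_ne_zero {c : Nat} (hc : c < 315) (hc0 : c ≠ 0) : orbT c ≠ 0 := by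
  have h := orbT_mem hc hc0
  intro h0
  rw [h0] at h
  simp at h

theorem red_iff {N : Subgroup ↥twoJ2} [hN : N.Normal] {c : Nat} (hc : c < 315) (hc0 : c ≠ 0) :
    EN N 0 c ↔ EN N 0 (repOf (orbT c)) := by
  have h := red_spec hc hc0
  simp only [redOK, Bool.and_eq_true, decide_eq_true_eq, List.all_eq_true] at h
  obtain ⟨⟨⟨⟨⟨⟨hw, -⟩, hr⟩, h1⟩, h2⟩, h3⟩, h4⟩ := h
  have hw' : ∀ t ∈ (redWords.getD c []).reverse, t < 4 := by
    intro t ht
    exact hw t (List.mem_reverse.mp ht)
  constructor
  · intro hE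
    have h5 := EN_rule (N := N) hw' (by norm_num : (0 : Nat) < 315) hc (EN_refl N 0) hE
      (by rw [h3]; exact EN_refl N 0)
    rw [h4] at h5
    exact h5
  · intro hE
    have h5 := EN_rule (N := N) hw (by norm_num : (0 : Nat) < 315) hr (EN_refl N 0) hE
      (by rw [h1]; exact EN_refl N 0)
    rw [h2] at h5
    exact h5

/-- All points of the orbit `o` are equivalent to `0`. -/
def KnownO (N : Subgroup ↥twoJ2) (o : Nat) : Prop := ∀ c, c < 315 → orbT c = o → EN N 0 c

theorem known_zero (N : Subgroup ↥twoJ2) : KnownO N 0 := by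
  intro c hc ho
  by_cases hc0 : c = 0
  · rw [hc0]
    exact EN_refl N 0
  · exact absurd ho (orbT_ne_zero hc hc0)

theorem known_of {N : Subgroup ↥twoJ2} [hN : N.Normal] {c : Nat} (hc : c < 315)
    (h : EN N 0 c) : KnownO N (orbT c) := by
  by_cases hc0 : c = 0
  · rw [hc0, orbT_zero]
    exact known_zero N
  · intro c' hc' ho
    have hc0' : c' ≠ 0 := by
      intro h0
      rw [h0, orbT_zero] at ho
      exact orbT_ne_zero hc hc0 ho.symm
    rw [red_iff hc' hc0', ho, ← red_iff hc hc0]
    exact h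

theorem cross_sound {N : Subgroup ↥twoJ2} [hN : N.Normal] :
    ∀ (steps : List (Nat × Nat × List Nat)) (known : List Nat),
      crossOK steps known = true → (∀ o ∈ known, KnownO N o) → ∀ c, c < 315 → EN N 0 c
  | [], known, h, hk => by
      intro c hc
      simp only [crossOK, List.all_eq_true, List.mem_range, List.contains_iff_mem] at h
      exact hk _ (h c hc) c hc rfl
  | e :: rest, known, h, hk => by
      simp only [crossOK, Bool.and_eq_true, decide_eq_true_eq, List.all_eq_true,
        List.contains_iff_mem] at h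
      obtain ⟨⟨⟨⟨⟨⟨hx, hy⟩, hw⟩, kx⟩, ky⟩, kw⟩, hrest⟩ := h
      have e1 : EN N 0 e.1 := hk _ kx _ hx rfl
      have e2 : EN N 0 e.2.1 := hk _ ky _ hy rfl
      have e3 : EN N 0 (actN e.2.2 e.1) := hk _ kw _ (actN_lt _ _ hw hx) rfl
      have e4 : EN N 0 (actN e.2.2 e.2.1) := EN_rule hw hx hy e1 e2 e3
      refine cross_sound rest _ hrest ?_
      intro o ho
      rcases List.mem_cons.mp ho with rfl | ho
      · exact known_of (actN_lt _ _ hw hy) e4
      · exact hk o ho

/-- If some reflection of nonzero index is equivalent to the reflection of index `0`, then all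
are. -/
theorem all_equiv {N : Subgroup ↥twoJ2} [hN : N.Normal] {c : Nat} (hc : c < 315) (hc0 : c ≠ 0)
    (h : EN N 0 c) : ∀ a b, a < 315 → b < 315 → rN a * rN b ∈ N := by
  have hm := orbT_mem hc hc0
  have hcc := cross_check
  rw [List.all_eq_true] at hcc
  have h1 := hcc _ hm
  have h2 : ∀ c', c' < 315 → EN N 0 c' := by
    refine cross_sound _ _ h1 ?_
    intro o ho
    simp only [List.mem_cons, List.not_mem_nil, or_false] at ho
    rcases ho with rfl | rfl
    · exact known_zero N
    · exact known_of hc h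
  intro a b ha hb
  exact EN_trans (EN_symm (h2 a ha)) (h2 b hb)

/-- A normal subgroup of the reflection group not contained in the centre is everything. -/
theorem normal_eq_top (N : Subgroup ↥twoJ2) [hN : N.Normal]
    (hNc : ¬ N ≤ Subgroup.center ↥twoJ2) : N = ⊤ := by
  obtain ⟨n, hn, hnc⟩ := SetLike.not_le_iff_exists.mp hNc
  rw [← rho_ker, MonoidHom.mem_ker] at hnc
  obtain ⟨a, ha⟩ : ∃ a : Fin 315, conjIdx n a ≠ a := by
    by_contra hall
    push Not at hall
    exact hnc (Equiv.ext hall)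
  have e := conjIdx_spec n a
  rw [← GreflN_eq, ← GreflN_eq] at e
  -- the product of the reflections of indices `b = n • a` and `a` lies in `N`
  have h1 : rN (conjIdx n a).1 * rN a.1 ∈ N := by
    have e2 : rN (conjIdx n a).1 * rN a.1 = n * (rN a.1 * n⁻¹ * (rN a.1)⁻¹) := by
      apply Subtype.ext
      show GreflN (conjIdx n a).1 * GreflN a.1 =
        (n : Equiv.Perm icoLeech) * (GreflN a.1 * (n : Equiv.Perm icoLeech)⁻¹ * (GreflN a.1)⁻¹)
      rw [← e, GreflN_inv]
      simp only [mul_assoc]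
    rw [e2]
    exact mul_mem hn (hN.conj_mem _ (inv_mem hn) _)
  -- move the first reflection to index `0`
  obtain ⟨g, hg, eg⟩ := refl_conjugate (GreflF (conjIdx n a)) (GreflF 0) (isRefl_GreflF _)
    (isRefl_GreflF _)
  have e3 := conjIdx_spec ⟨g, hg⟩ a
  have hne : conjIdx ⟨g, hg⟩ a ≠ 0 := by
    intro h0
    rw [h0, ← eg] at e3
    have e4 : GreflF a = GreflF (conjIdx n a) := by
      have e5 : (g : Equiv.Perm icoLeech) * GreflF a * g⁻¹ = g * GreflF (conjIdx n a) * g⁻¹ := e3
      exact mul_left_cancel (mul_right_cancel e5)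
    exact ha (GreflF_injective e4).symm
  have h2 : EN N 0 (conjIdx ⟨g, hg⟩ a).1 := by
    have e6 : rN 0 * rN (conjIdx ⟨g, hg⟩ a).1 =
        (⟨g, hg⟩ : ↥twoJ2) * (rN (conjIdx n a).1 * rN a.1) * (⟨g, hg⟩ : ↥twoJ2)⁻¹ := by
      apply Subtype.ext
      show GreflN 0 * GreflN (conjIdx ⟨g, hg⟩ a).1 =
        g * (GreflN (conjIdx n a).1 * GreflN a.1) * g⁻¹
      have z : GreflN 0 = GreflF 0 := GreflN_eq 0
      have e7 : GreflN 0 = g * GreflN (conjIdx n a).1 * g⁻¹ := by
        rw [z, GreflN_eq]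
        exact eg.symm
      have e8 : GreflN (conjIdx ⟨g, hg⟩ a).1 = g * GreflN a.1 * g⁻¹ := by
        rw [GreflN_eq, GreflN_eq]
        exact e3.symm
      rw [e7, e8]
      group
    unfold EN
    rw [e6]
    exact hN.conj_mem _ h1 _
  have hne' : (conjIdx ⟨g, hg⟩ a).1 ≠ 0 := fun h0 => hne (Fin.ext h0)
  exact eq_top_of_pairs N (all_equiv (conjIdx ⟨g, hg⟩ a).2 hne' h2)

end

end Cfsg.Agent.H60J2
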