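import Cfsg.Agent.Lib.Helper60.J2Prim

/-!
# The Hall–Janko group is simple and non-abelian (helper60)
-/

set_option autoImplicit false

open Quaternion Cfsg.Spor

namespace Cfsg.Agent.H60J2

noncomputable section

attribute [local irreducible] GreflN

theorem j2Fun_val (t : Fin 4) (i : Fin 315) : (j2Fun t i).1 = tabN t.1 i.1 := by
  show ((j2Tab.getD t.1 []).getD i.1 0) % 315 = tabN t.1 i.1
  exact Nat.mod_eq_of_lt (rN_conj t.2 i.2).2

theorem J2_noncomm : ∃ a b : J2, a * b ≠ b * a := by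
  obtain ⟨j, hj, hne⟩ := tab_noncomm
  refine ⟨(QuotientGroup.mk (gen 0) : J2), (QuotientGroup.mk (gen 1) : J2), ?_⟩
  intro h
  rw [← QuotientGroup.mk_mul, ← QuotientGroup.mk_mul, QuotientGroup.eq] at h
  rw [← rho_ker, MonoidHom.mem_ker, map_mul, map_inv, map_mul, map_mul, rho_gen, rho_gen] at h
  have h2 : j2Perm 0 * j2Perm 1 = j2Perm 1 * j2Perm 0 := by
    rw [inv_mul_eq_one] at h
    exact h
  have h3 := congrArg (fun p : Equiv.Perm (Fin 315) => (p ⟨j, hj⟩).1) h2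
  have h4 : (j2Fun 0 (j2Fun 1 ⟨j, hj⟩)).1 = (j2Fun 1 (j2Fun 0 ⟨j, hj⟩)).1 := h3
  rw [j2Fun_val, j2Fun_val, j2Fun_val, j2Fun_val] at h4
  exact hne h4

theorem J2_simple : IsSimpleGroup J2 := by
  obtain ⟨a, b, hab⟩ := J2_noncomm
  have hnt : Nontrivial J2 := ⟨⟨a * b, b * a, hab⟩⟩
  refine @IsSimpleGroup.mk _ _ hnt (fun H hH => ?_)
  have hNn : (H.comap (QuotientGroup.mk' (Subgroup.center ↥twoJ2))).Normal := hH.comap _
  by_cases hN : H.comap (QuotientGroup.mk' (Subgroup.center ↥twoJ2)) ≤ Subgroup.center ↥twoJ2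
  · left
    rw [eq_bot_iff]
    intro x hx
    obtain ⟨g, rfl⟩ := QuotientGroup.mk_surjective x
    have hg : g ∈ H.comap (QuotientGroup.mk' (Subgroup.center ↥twoJ2)) := hx
    rw [Subgroup.mem_bot]
    exact (QuotientGroup.eq_one_iff g).mpr (hN hg)
  · right
    have hT := normal_eq_top _ hN
    rw [eq_top_iff]
    intro x _
    obtain ⟨g, rfl⟩ := QuotientGroup.mk_surjective x
    have hg : g ∈ H.comap (QuotientGroup.mk' (Subgroup.center ↥twoJ2)) := by
      rw [hT]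
      exact Subgroup.mem_top _
    exact hg

end

end Cfsg.Agent.H60J2
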