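import Mathlib
import Cfsg.Agent.Lib.Helper88.MCStmt

/-!
# S4245 / NILIDX (core): a finite group with a cyclic subgroup of prime power index is solvable,
given the Kegel-Wielandt theorem as a hypothesis.
-/

set_option autoImplicit false

universe u

namespace Cfsg.Agent.Lib.Helper60.MCNILIDXCore

open Cfsg.Agent.Lib.Helper88.MCStmt

/-- the statement of Kegel-Wielandt (S0564) at universe `u` -/
def KW : Prop :=
  ∀ (G : Type u) [Group G] [Finite G] (A B : Subgroup G),
    Group.IsNilpotent A → Group.IsNilpotent B → (∀ g : G, ∃ a ∈ A, ∃ b ∈ B, g = a * b) →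
    Group.IsSolvable G

/-- a subgroup `B` of prime power index and a Sylow `p`-subgroup `P` factorize `G = B P` -/
theorem factorize (G : Type u) [Group G] [Finite G] (B : Subgroup G) (p k : ℕ) [Fact p.Prime]
    (hidx : B.index = p ^ k) (P : Sylow p G) :
    ∀ g : G, ∃ a ∈ B, ∃ b ∈ (P : Subgroup G), g = a * b := by
  have hp : p.Prime := Fact.out
  have hcop : Nat.Coprime B.index (P : Subgroup G).index := by
    rw [hidx]
    exact Nat.Coprime.pow_left k ((Nat.Prime.coprime_iff_not_dvd hp).mpr P.not_dvd_index)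
  have h1 : B.relIndex (P : Subgroup G) * (P : Subgroup G).index
      = (B ⊓ (P : Subgroup G)).index := by
    have := Subgroup.relIndex_inf_mul_relIndex B (P : Subgroup G) ⊤
    simpa [Subgroup.relIndex_top_right] using this
  have h2 : B.index * (P : Subgroup G).index ∣ (B ⊓ (P : Subgroup G)).index :=
    Nat.Coprime.mul_dvd_of_dvd_of_dvd hcop (Subgroup.index_dvd_of_le inf_le_left)
      (Subgroup.index_dvd_of_le inf_le_right)
  have hPi : (P : Subgroup G).index ≠ 0 := Subgroup.index_ne_zero_of_finite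
  have h3 : B.index ∣ B.relIndex (P : Subgroup G) := by
    rw [← h1] at h2
    exact Nat.dvd_of_mul_dvd_mul_right (Nat.pos_of_ne_zero hPi) h2
  let f : (↥(P : Subgroup G) ⧸ B.subgroupOf (P : Subgroup G)) → G ⧸ B :=
    Quotient.map' (fun x => (x : G)) (by
      intro a b h
      rw [QuotientGroup.leftRel_apply] at h ⊢
      exact h)
  have hf : Function.Injective f := by
    intro a b
    refine Quotient.inductionOn₂' a b ?_
    intro x y h
    have h' : (QuotientGroup.mk (x : G) : G ⧸ B) = QuotientGroup.mk (y : G) := h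
    rw [QuotientGroup.eq] at h'
    exact QuotientGroup.eq.mpr h'
  have hle : Nat.card (G ⧸ B)
      ≤ Nat.card (↥(P : Subgroup G) ⧸ B.subgroupOf (P : Subgroup G)) :=
    Nat.le_of_dvd Nat.card_pos h3
  have hbij := hf.bijective_of_nat_card_le hle
  intro g
  obtain ⟨q, hq⟩ := hbij.2 (QuotientGroup.mk g⁻¹)
  induction q using Quotient.inductionOn' with
  | h x =>
    have h' : (QuotientGroup.mk (x : G) : G ⧸ B) = QuotientGroup.mk g⁻¹ := hq
    rw [QuotientGroup.eq] at h'
    refine ⟨((x : G)⁻¹ * g⁻¹)⁻¹, B.inv_mem h', (x : G)⁻¹, ?_, ?_⟩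
    · exact (P : Subgroup G).inv_mem x.2
    · group

theorem main_of (hKW : KW.{u}) : NilIdx.{u} := by
  intro G _ _ B p k hp hcyc hidx
  haveI : Fact p.Prime := ⟨hp⟩
  obtain ⟨P⟩ : Nonempty (Sylow p G) := inferInstance
  have hBnil : Group.IsNilpotent B := by
    letI : CommGroup B := IsCyclic.commGroup
    infer_instance
  have hPnil : Group.IsNilpotent (P : Subgroup G) := P.isPGroup'.isNilpotent
  exact hKW G B (P : Subgroup G) hBnil hPnil (factorize G B p k hidx P)

end Cfsg.Agent.Lib.Helper60.MCNILIDXCore
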