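import Mathlib
import Cfsg.Agent.Lib.Helper88.MCStmt
import Cfsg.Agent.Lib.Helper60.MCNILIDXCore
import Cfsg.Agent.S0564

/-!
# S4245 / NILIDX: a finite group with a cyclic subgroup of prime power index is solvable
(Kegel-Wielandt `Cfsg.Agent.S0564.result` applied to `G = B P`).
-/

set_option autoImplicit false

universe u

namespace Cfsg.Agent.Lib.Helper60.MCNILIDX

open Cfsg.Agent.Lib.Helper88.MCStmt

theorem main : NilIdx.{u} :=
  Cfsg.Agent.Lib.Helper60.MCNILIDXCore.main_of
    (fun G _ _ A B hA hB hAB => Cfsg.Agent.S0564.result A B hA hB hAB)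

end Cfsg.Agent.Lib.Helper60.MCNILIDX
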