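import Mathlib

set_option autoImplicit false

/-!
# Order types (helper60): permutations of `Fin n` coded as lists of images, kernel-friendly operations

A permutation `σ` of `Fin n` is coded by the list `[σ 0, σ 1, …]` of natural numbers.  Products of
codes are computed by `mulL`; the lemmas below relate these computations to the group
`Equiv.Perm (Fin n)`.
-/

namespace Cfsg.Agent.Lib.Helper60.OT

/-- `nth l j` is the `j`-th entry of `l` (or `0`) -/
def nth : List ℕ → ℕ → ℕ
  | [], _ => 0
  | a :: _, 0 => a
  | _ :: l, (j + 1) => nth l j

theorem nth_eq_getD (l : List ℕ) (j : ℕ) : nth l j = l.getD j 0 := by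
  induction l generalizing j with
  | nil => simp [nth]
  | cons a l ih =>
    cases j with
    | zero => simp [nth]
    | succ j => simp [nth, ih]

/-- equality test of lists of numbers -/
def eqL : List ℕ → List ℕ → Bool
  | [], [] => true
  | a :: l, b :: l' => Nat.beq a b && eqL l l'
  | _, _ => false

theorem eqL_iff (a b : List ℕ) : eqL a b = true ↔ a = b := by
  induction a generalizing b with
  | nil => cases b <;> simp [eqL]
  | cons x a ih =>
    cases b with
    | nil => simp [eqL]
    | cons y b => simp [eqL, ih]

theorem eqL_self (a : List ℕ) : eqL a a = true := (eqL_iff a a).2 rfl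

/-- membership test in a list of lists -/
def memLL (a : List ℕ) : List (List ℕ) → Bool
  | [] => false
  | b :: l => eqL a b || memLL a l

theorem memLL_iff (a : List ℕ) (l : List (List ℕ)) : memLL a l = true ↔ a ∈ l := by
  induction l with
  | nil => simp [memLL]
  | cons b l ih => simp [memLL, ih, eqL_iff]

/-- no repetitions -/
def nodupLL : List (List ℕ) → Bool
  | [] => true
  | a :: l => !(memLL a l) && nodupLL l

theorem nodup_of_nodupLL (l : List (List ℕ)) (h : nodupLL l = true) : l.Nodup := by
  induction l with
  | nil => exact List.nodup_nil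
  | cons a l ih =>
    simp only [nodupLL, Bool.and_eq_true, Bool.not_eq_true'] at h
    refine List.nodup_cons.2 ⟨?_, ih h.2⟩
    intro ha
    have := (memLL_iff a l).2 ha
    rw [h.1] at this
    exact Bool.false_ne_true this

/-- membership test in a list of numbers -/
def memN (a : ℕ) : List ℕ → Bool
  | [] => false
  | b :: l => Nat.beq a b || memN a l

theorem memN_iff (a : ℕ) (l : List ℕ) : memN a l = true ↔ a ∈ l := by
  induction l with
  | nil => simp [memN]
  | cons b l ih => simp [memN, ih]

/-- no repetitions, for lists of numbers -/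
def nodupN : List ℕ → Bool
  | [] => true
  | a :: l => !(memN a l) && nodupN l

theorem nodup_of_nodupN (l : List ℕ) (h : nodupN l = true) : l.Nodup := by
  induction l with
  | nil => exact List.nodup_nil
  | cons a l ih =>
    simp only [nodupN, Bool.and_eq_true, Bool.not_eq_true'] at h
    refine List.nodup_cons.2 ⟨?_, ih h.2⟩
    intro ha
    have := (memN_iff a l).2 ha
    rw [h.1] at this
    exact Bool.false_ne_true this

/-- product of codes: `(a * b) i = a (b i)` -/
def mulL (a b : List ℕ) : List ℕ := b.map (nth a)

/-- code of the identity -/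
def idL (n : ℕ) : List ℕ := List.range n

/-- `l` is the code of a permutation of `Fin n` -/
def validL (n : ℕ) (l : List ℕ) : Bool :=
  Nat.beq l.length n && l.all (fun x => Nat.blt x n) && nodupN l

variable {n : ℕ}

/-- the code of a permutation -/
def code (σ : Equiv.Perm (Fin n)) : List ℕ := List.ofFn (fun i => (σ i).val)

theorem code_length (σ : Equiv.Perm (Fin n)) : (code σ).length = n := by simp [code]

theorem nth_code (σ : Equiv.Perm (Fin n)) (i : Fin n) : nth (code σ) i.val = (σ i).val := by
  rw [nth_eq_getD, code, List.getD_eq_getElem?_getD, List.getElem?_ofFn]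
  simp

theorem code_mul (σ τ : Equiv.Perm (Fin n)) : code (σ * τ) = mulL (code σ) (code τ) := by
  have e : mulL (code σ) (code τ) = List.ofFn (fun i => nth (code σ) ((τ i).val)) := by
    unfold mulL
    conv_lhs => rw [show code τ = List.ofFn (fun i => (τ i).val) from rfl, List.map_ofFn]
    rfl
  rw [e, code]
  congr 1
  funext i
  simp only [Equiv.Perm.mul_apply]
  exact (nth_code σ (τ i)).symm

theorem code_one : code (1 : Equiv.Perm (Fin n)) = idL n := by
  rw [code, idL]
  apply List.ext_getElem
  · simp
  · intro i h1 h2
    simp

theorem code_inj : Function.Injective (code : Equiv.Perm (Fin n) → List ℕ) := by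
  intro σ τ h
  have h2 := List.ofFn_injective h
  apply Equiv.ext
  intro i
  exact Fin.ext (congrFun h2 i)

theorem exists_perm_of_valid (l : List ℕ) (h : validL n l = true) :
    ∃ σ : Equiv.Perm (Fin n), code σ = l := by
  unfold validL at h
  simp only [Bool.and_eq_true, Nat.beq_eq, List.all_eq_true, Nat.blt_eq] at h
  obtain ⟨⟨hlen, hlt⟩, hnd⟩ := h
  have hnd' := nodup_of_nodupN l hnd
  subst hlen
  let f : Fin l.length → Fin l.length := fun i => ⟨l.get i, hlt _ (List.get_mem l i)⟩
  have hf : Function.Injective f := by
    intro i j hij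
    have h3 : l.get i = l.get j := congrArg Fin.val hij
    exact (List.Nodup.get_inj_iff hnd').1 h3
  have hb : Function.Bijective f := Finite.injective_iff_bijective.1 hf
  refine ⟨Equiv.ofBijective f hb, ?_⟩
  rw [code]
  apply List.ext_getElem
  · simp
  · intro i h1 h2
    simp [f]

/-- powers of codes -/
def powL (n : ℕ) (a : List ℕ) : ℕ → List ℕ
  | 0 => idL n
  | k + 1 => mulL a (powL n a k)

theorem code_pow (σ : Equiv.Perm (Fin n)) (k : ℕ) : code (σ ^ k) = powL n (code σ) k := by
  induction k with
  | zero => rw [pow_zero, code_one, powL]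
  | succ k ih => rw [pow_succ', code_mul, ih, powL]

/-- evaluation of a word in the generator codes `gs` -/
def evalW (n : ℕ) (gs : List (List ℕ)) (w : List ℕ) : List ℕ :=
  w.foldr (fun i acc => mulL (gs.getD i (idL n)) acc) (idL n)

/-- decoding of a packed list of `k` numbers `< 64` -/
def unp : ℕ → ℕ → List ℕ
  | 0, _ => []
  | k + 1, c => (c % 64) :: unp k (c / 64)

/-- decoding of a packed word (digits `i + 1` in base 8, ended by `0`), with fuel -/
def unw : ℕ → ℕ → List ℕ
  | 0, _ => []
  | f + 1, c => bif Nat.beq c 0 then [] else (c % 8 - 1) :: unw f (c / 8)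

/-- decoding of a packed list of numbers `< 128` (digits `x + 1`, ended by `0`), with fuel -/
def uno : ℕ → ℕ → List ℕ
  | 0, _ => []
  | f + 1, c => bif Nat.beq c 0 then [] else (c % 128 - 1) :: uno f (c / 128)

end Cfsg.Agent.Lib.Helper60.OT
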