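import Mathlib

set_option autoImplicit false

/-!
# Order types (helper60): the numbers of solutions of `x ^ d = 1` determine the numbers of elements
of each order; behaviour under direct products and powers
-/

namespace Cfsg.Agent.Lib.Helper60.OT

/-- the number of solutions of `x ^ d = 1` in `A` -/
noncomputable def tors (d : ℕ) (A : Type*) [Group A] : ℕ := Nat.card {x : A // x ^ d = 1}

/-- the number of elements of order `d` of `A` -/
noncomputable def ordc (d : ℕ) (A : Type*) [Group A] : ℕ := Nat.card {x : A // orderOf x = d}

theorem tors_prod (d : ℕ) (A B : Type*) [Group A] [Group B] :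
    tors d (A × B) = tors d A * tors d B := by
  unfold tors
  rw [← Nat.card_prod]
  apply Nat.card_congr
  refine (Equiv.subtypeEquivRight ?_).trans
    (Equiv.subtypeProdEquivProd (p := fun a : A => a ^ d = 1) (q := fun b : B => b ^ d = 1))
  intro p
  rw [Prod.ext_iff]
  simp

theorem tors_pi (d k : ℕ) (A : Type*) [Group A] : tors d (Fin k → A) = tors d A ^ k := by
  unfold tors
  have e : {f : Fin k → A // f ^ d = 1} ≃ (Fin k → {a : A // a ^ d = 1}) := by
    refine (Equiv.subtypeEquivRight ?_).trans
      (Equiv.subtypePiEquivPi (p := fun (_ : Fin k) (a : A) => a ^ d = 1))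
    intro f
    rw [funext_iff]
    simp
  rw [Nat.card_congr e, Nat.card_pi]
  simp

theorem ordc_zero (A : Type*) [Group A] [Finite A] : ordc 0 A = 0 := by
  unfold ordc
  rw [Nat.card_eq_zero]
  left
  exact ⟨fun x => (orderOf_pos x.1).ne' x.2⟩

theorem tors_eq_sum (A : Type*) [Group A] [Finite A] (n : ℕ) (hn : n ≠ 0) :
    tors n A = ∑ d ∈ n.divisors, ordc d A := by
  classical
  have := Fintype.ofFinite A
  have h1 : tors n A = (Finset.univ.filter (fun x : A => x ^ n = 1)).card := by
    unfold tors
    rw [Nat.card_eq_fintype_card, Fintype.card_subtype]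
  have h2 : ∀ d, ordc d A = (Finset.univ.filter (fun x : A => orderOf x = d)).card := by
    intro d
    unfold ordc
    rw [Nat.card_eq_fintype_card, Fintype.card_subtype]
  rw [h1, Finset.card_eq_sum_card_fiberwise (f := fun x : A => orderOf x) (t := n.divisors)]
  · apply Finset.sum_congr rfl
    intro d hd
    rw [h2 d]
    congr 1
    ext x
    simp only [Finset.mem_filter, Finset.mem_univ, true_and]
    constructor
    · rintro ⟨_, h⟩; exact h
    · intro h
      refine ⟨?_, h⟩
      rw [← orderOf_dvd_iff_pow_eq_one, h]
      exact Nat.dvd_of_mem_divisors hd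
  · intro x hx
    simp only [Finset.coe_filter, Finset.mem_univ, true_and, Set.mem_ofPred_eq] at hx
    simp only [Finset.mem_coe, Nat.mem_divisors]
    exact ⟨orderOf_dvd_of_pow_eq_one hx, hn⟩

/-- two finite groups with the same numbers of solutions of `x ^ d = 1` for all `d` have the same
number of elements of each order -/
theorem ordc_eq_of_tors (A B : Type*) [Group A] [Group B] [Finite A] [Finite B]
    (h : ∀ d, tors d A = tors d B) : ∀ n, ordc n A = ordc n B := by
  intro n
  induction n using Nat.strong_induction_on with
  | _ n ih =>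
    rcases Nat.eq_zero_or_pos n with rfl | hn
    · rw [ordc_zero, ordc_zero]
    · have hA := tors_eq_sum A n hn.ne'
      have hB := tors_eq_sum B n hn.ne'
      rw [← Nat.cons_self_properDivisors hn.ne', Finset.sum_cons] at hA hB
      have hs : ∑ d ∈ n.properDivisors, ordc d A = ∑ d ∈ n.properDivisors, ordc d B := by
        apply Finset.sum_congr rfl
        intro d hd
        exact ih d (Nat.mem_properDivisors.1 hd).2
      have := h n
      omega

end Cfsg.Agent.Lib.Helper60.OT
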