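import Mathlib

set_option autoImplicit false

/-!
# Order types (helper60): general group lemmas

* a criterion for `⁅⟨S⟩, ⟨S⟩⁆ ≤ ⟨T⟩` in terms of generators, solvability by adjoining a
  normalizing element, a non-solvability criterion, solvability of powers;
* counting the solutions of `x ^ m = 1` in a subgroup from a table of keys and orders.
-/

namespace Cfsg.Agent.Lib.Helper60.OT

open scoped commutatorElement

/-- `f a b` holds along two lists (the second at least as long as the first) -/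
def zipAll {α β : Type} (f : α → β → Bool) : List α → List β → Bool
  | [], _ => true
  | _ :: _, [] => false
  | a :: l, b :: l' => f a b && zipAll f l l'

theorem zipAll_exists {α β : Type} (f : α → β → Bool) : ∀ (l : List α) (l' : List β),
    zipAll f l l' = true → ∀ a ∈ l, ∃ b, (a, b) ∈ l.zip l' ∧ f a b = true := by
  intro l
  induction l with
  | nil => intro l' _ a ha; simp at ha
  | cons x l ih =>
    intro l' h a ha
    cases l' with
    | nil => simp [zipAll] at h
    | cons b l' =>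
      simp only [zipAll, Bool.and_eq_true] at h
      rcases List.mem_cons.1 ha with rfl | ha'
      · exact ⟨b, by simp, h.1⟩
      · obtain ⟨c, hc, hf⟩ := ih l' h.2 a ha'
        exact ⟨c, by simp [hc], hf⟩

section General

variable {P : Type*} [Group P]

/-- the elements `g` of the normalizer of `N` with `g h g⁻¹ h⁻¹ ∈ N` -/
def commSub (N : Subgroup P) (h : P) : Subgroup P where
  carrier := {g | g ∈ Subgroup.normalizer (N : Set P) ∧ g * h * g⁻¹ * h⁻¹ ∈ N}
  one_mem' := ⟨Subgroup.one_mem _, by simp⟩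
  mul_mem' := by
    rintro a b ⟨ha, ha'⟩ ⟨hb, hb'⟩
    refine ⟨Subgroup.mul_mem _ ha hb, ?_⟩
    have e : a * b * h * (a * b)⁻¹ * h⁻¹ = a * (b * h * b⁻¹ * h⁻¹) * a⁻¹ * (a * h * a⁻¹ * h⁻¹) := by
      group
    rw [e]
    exact N.mul_mem ((Subgroup.mem_normalizer_iff.1 ha _).1 hb') ha'
  inv_mem' := by
    rintro a ⟨ha, ha'⟩
    have hai : a⁻¹ ∈ Subgroup.normalizer (N : Set P) := Subgroup.inv_mem _ ha
    refine ⟨hai, ?_⟩
    have e : a⁻¹ * h * a⁻¹⁻¹ * h⁻¹ = a⁻¹ * (a * h * a⁻¹ * h⁻¹)⁻¹ * a⁻¹⁻¹ := by group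
    rw [e]
    exact (Subgroup.mem_normalizer_iff.1 hai _).1 (N.inv_mem ha')

/-- the derived subgroup of `⟨S⟩` lies in `⟨T⟩` if the generators `S` conjugate `T` into `⟨T⟩`
and the commutators of the elements of `S` lie in `⟨T⟩` -/
theorem commutator_closure_le [Finite P] (S T : Set P)
    (h1 : ∀ s ∈ S, ∀ t ∈ T, s * t * s⁻¹ ∈ Subgroup.closure T)
    (h2 : ∀ s ∈ S, ∀ s' ∈ S, s * s' * s⁻¹ * s'⁻¹ ∈ Subgroup.closure T) :
    ⁅Subgroup.closure S, Subgroup.closure S⁆ ≤ Subgroup.closure T := by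
  set N := Subgroup.closure T with hN
  -- conjugation by `s ∈ S` maps `N` into `N`
  have step1 : ∀ s ∈ S, ∀ x ∈ N, s * x * s⁻¹ ∈ N := by
    intro s hs x hx
    induction hx using Subgroup.closure_induction with
    | mem t ht => exact h1 s hs t ht
    | one => simp
    | mul x y _ _ ihx ihy =>
      have e : s * (x * y) * s⁻¹ = (s * x * s⁻¹) * (s * y * s⁻¹) := by group
      rw [e]; exact N.mul_mem ihx ihy
    | inv x _ ih =>
      have e : s * x⁻¹ * s⁻¹ = (s * x * s⁻¹)⁻¹ := by group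
      rw [e]; exact N.inv_mem ih
  have step1' : ∀ s ∈ S, ∀ k : ℕ, ∀ x ∈ N, s ^ k * x * (s ^ k)⁻¹ ∈ N := by
    intro s hs k
    induction k with
    | zero => intro x hx; simpa using hx
    | succ k ih =>
      intro x hx
      have e : s ^ (k + 1) * x * (s ^ (k + 1))⁻¹ = s * (s ^ k * x * (s ^ k)⁻¹) * s⁻¹ := by
        rw [pow_succ']; group
      rw [e]; exact step1 s hs _ (ih x hx)
  have step2 : ∀ s ∈ S, s ∈ Subgroup.normalizer (N : Set P) := by
    intro s hs
    rw [Subgroup.mem_normalizer_iff]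
    intro x
    refine ⟨step1 s hs x, fun hx => ?_⟩
    have e : s⁻¹ = s ^ (orderOf s - 1) := by
      rw [eq_comm, ← mul_eq_one_iff_eq_inv, ← pow_succ,
        Nat.sub_add_cancel (orderOf_pos s), pow_orderOf_eq_one]
    have h3 := step1' s hs (orderOf s - 1) _ hx
    rw [← e] at h3
    have e2 : s⁻¹ * (s * x * s⁻¹) * s⁻¹⁻¹ = x := by group
    rwa [e2] at h3
  have step3 : ∀ t ∈ S, Subgroup.closure S ≤ commSub N t := by
    intro t ht
    rw [Subgroup.closure_le]
    intro s hs
    exact ⟨step2 s hs, h2 s hs t ht⟩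
  have step4 : ∀ g ∈ Subgroup.closure S, Subgroup.closure S ≤ commSub N g := by
    intro g hg
    rw [Subgroup.closure_le]
    intro s hs
    refine ⟨step2 s hs, ?_⟩
    have h3 := (step3 s hs hg).2
    have e : s * g * s⁻¹ * g⁻¹ = (g * s * g⁻¹ * s⁻¹)⁻¹ := by group
    rw [e]; exact N.inv_mem h3
  rw [Subgroup.commutator_le]
  intro g₁ hg₁ g₂ hg₂
  have h3 := (step4 g₂ hg₂ hg₁).2
  rw [commutatorElement_def]
  exact h3

/-- if the derived subgroup of `H` lies in a solvable subgroup `N`, then `H` is solvable -/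
theorem isSolvable_of_commutator_le (H N : Subgroup P) (h : ⁅H, H⁆ ≤ N)
    [hN : Group.IsSolvable ↥N] : Group.IsSolvable ↥H := by
  have hinj : Function.Injective (Subgroup.inclusion (inf_le_left : N ⊓ H ≤ N)) :=
    Subgroup.inclusion_injective _
  have : Group.IsSolvable ↥(N ⊓ H) := Group.isSolvable_of_isSolvable_injective hinj
  refine Group.isSolvable_of_ker_le_range (Subgroup.inclusion (inf_le_right : N ⊓ H ≤ H))
    (Abelianization.of : ↥H →* Abelianization ↥H) ?_
  intro x hx
  rw [Abelianization.ker_of] at hx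
  have hx2 : (x : P) ∈ (commutator ↥H).map H.subtype := ⟨x, hx, rfl⟩
  rw [commutator_def, Subgroup.map_commutator, ← MonoidHom.range_eq_map, Subgroup.range_subtype]
    at hx2
  exact ⟨⟨x.1, ⟨h hx2, x.2⟩⟩, rfl⟩

/-- adjoining to a solvable `⟨T⟩` an element `a` conjugating `T` into `⟨T⟩` gives a solvable
group -/
theorem isSolvable_closure_insert [Finite P] (a : P) (T : Set P)
    (h : ∀ t ∈ T, a * t * a⁻¹ ∈ Subgroup.closure T)
    [Group.IsSolvable ↥(Subgroup.closure T)] :
    Group.IsSolvable ↥(Subgroup.closure (insert a T)) := by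
  apply isSolvable_of_commutator_le (Subgroup.closure (insert a T)) (Subgroup.closure T)
  have hT : ∀ t ∈ T, t ∈ Subgroup.closure T := fun t ht => Subgroup.subset_closure ht
  apply commutator_closure_le
  · intro s hs t ht
    rcases Set.mem_insert_iff.1 hs with rfl | hs
    · exact h t ht
    · exact mul_mem (mul_mem (hT s hs) (hT t ht)) (inv_mem (hT s hs))
  · intro s hs s' hs'
    rcases Set.mem_insert_iff.1 hs with e1 | k1 <;> rcases Set.mem_insert_iff.1 hs' with e2 | k2
    · rw [e1, e2]; simp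
    · rw [e1]; exact mul_mem (h s' k2) (inv_mem (hT s' k2))
    · rw [e2]
      have e : s * a * s⁻¹ * a⁻¹ = s * (a * s * a⁻¹)⁻¹ := by group
      rw [e]; exact mul_mem (hT s k1) (inv_mem (h s k1))
    · exact mul_mem (mul_mem (mul_mem (hT s k1) (hT s' k2)) (inv_mem (hT s k1)))
        (inv_mem (hT s' k2))

/-- a subgroup containing `x ≠ 1`, `z`, and a conjugate `u` of `x` with `x z u x = z x u`
(that is, `x = z [x, u] z⁻¹`) is not solvable -/
theorem not_isSolvable_of_trick (K : Subgroup P) (x y z u : P) (hx : x ∈ K) (hy : y ∈ K)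
    (hz : z ∈ K) (hx1 : x ≠ 1) (hu : u * y = y * x) (h : x * z * u * x = z * x * u) :
    ¬ Group.IsSolvable ↥K := by
  have hu' : u = y * x * y⁻¹ := by rw [← hu]; group
  have key0 : x = z * ⁅x, y * x * y⁻¹⁆ * z⁻¹ := by
    rw [← hu', commutatorElement_def]
    have e : z * (x * u * x⁻¹ * u⁻¹) * z⁻¹ = (z * x * u) * x⁻¹ * u⁻¹ * z⁻¹ := by group
    rw [e, ← h]; group
  let X : ↥K := ⟨x, hx⟩
  let Y : ↥K := ⟨y, hy⟩
  let Z : ↥K := ⟨z, hz⟩
  have key : X = Z * ⁅X, Y * X * Y⁻¹⁆ * Z⁻¹ := by
    apply Subtype.ext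
    rw [commutatorElement_def] at key0 ⊢
    simp only [X, Y, Z, Subgroup.coe_mul, Subgroup.coe_inv]
    exact key0
  refine not_isSolvable_of_mem_derivedSeries (g := X) (fun hX => hx1 (congrArg Subtype.val hX)) ?_
  intro k
  induction k with
  | zero => exact Subgroup.mem_top X
  | succ k ih =>
    rw [key, (derivedSeries_normal _ _).mem_comm_iff, inv_mul_cancel_left]
    exact Subgroup.commutator_mem_commutator ih ((derivedSeries_normal _ _).conj_mem _ ih _)

/-- finite powers of solvable groups are solvable -/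
theorem isSolvable_pi (ι : Type*) (B : Type*) [Group B] [hB : Group.IsSolvable B] :
    Group.IsSolvable (ι → B) := by
  obtain ⟨k, hk⟩ := hB
  refine ⟨⟨k, ?_⟩⟩
  rw [eq_bot_iff]
  intro x hx
  rw [Subgroup.mem_bot]
  funext i
  have h1 : (Pi.evalMonoidHom (fun _ : ι => B) i) x ∈
      (derivedSeries (ι → B) k).map (Pi.evalMonoidHom (fun _ : ι => B) i) := ⟨x, hx, rfl⟩
  have h2 := map_derivedSeries_le_derivedSeries (Pi.evalMonoidHom (fun _ : ι => B) i) k h1
  rw [hk, Subgroup.mem_bot] at h2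
  exact h2

/-- the first exponent in a divisor-closed test sequence is the order -/
theorem orderOf_eq_of_first_hit (σ : P) (d : ℕ) (hd0 : 0 < d) (h : σ ^ d = 1)
    (hp : ∀ d', d' ∣ d → d' < d → σ ^ d' ≠ 1) : orderOf σ = d := by
  have h1 : orderOf σ ∣ d := orderOf_dvd_of_pow_eq_one h
  have h2 : orderOf σ ≤ d := Nat.le_of_dvd hd0 h1
  rcases Nat.lt_or_ge (orderOf σ) d with h3 | h3
  · exact absurd (pow_orderOf_eq_one σ) (hp _ h1 h3)
  · exact le_antisymm h2 h3

/-- counting the solutions of `x ^ m = 1` in a subgroup `B` from a table `E` of pairs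
(key, order) of its elements -/
theorem card_tors_of_table (B : Subgroup P) (key : P → ℕ) (hinj : Function.Injective key)
    (E : List (ℕ × ℕ)) (hnd : (E.map Prod.fst).Nodup)
    (hc : ∀ σ ∈ B, ∃ o, (key σ, o) ∈ E)
    (hs : ∀ p ∈ E, ∃ σ ∈ B, key σ = p.1 ∧ orderOf σ = p.2 ∧ p.2 ∣ 84) (m : ℕ) :
    Nat.card {x : B // x ^ m = 1} =
      (E.filter (fun p => Nat.beq (Nat.mod (Nat.gcd m 84) p.2) 0)).length := by
  classical
  set d := Nat.gcd m 84 with hd
  set A : Set P := {σ | σ ∈ B ∧ σ ^ m = 1} with hA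
  set F := (E.filter (fun p => Nat.beq (Nat.mod d p.2) 0)).map Prod.fst with hF
  have h1 : Nat.card {x : B // x ^ m = 1} = Nat.card A := by
    apply Nat.card_congr
    refine ⟨fun x => ⟨x.1.1, x.1.2, by simpa using congrArg Subtype.val x.2⟩,
      fun y => ⟨⟨y.1, y.2.1⟩, by apply Subtype.ext; simpa using y.2.2⟩, ?_, ?_⟩
    · intro x; rfl
    · intro y; rfl
  have h2 : Nat.card A = A.ncard := Nat.card_coe_set_eq A
  have h3 : (key '' A).ncard = A.ncard := Set.ncard_image_of_injective _ hinj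
  have hFnd : F.Nodup := by
    have hsub : F.Sublist (E.map Prod.fst) := List.Sublist.map _ List.filter_sublist
    exact hsub.nodup hnd
  have h4 : key '' A = {c | c ∈ F} := by
    ext c
    constructor
    · rintro ⟨σ, ⟨hσ, hpow⟩, rfl⟩
      obtain ⟨o, ho⟩ := hc σ hσ
      obtain ⟨σ', _, hk, hord, h84⟩ := hs _ ho
      have hσσ : σ' = σ := hinj hk
      rw [hσσ] at hord
      have hom : o ∣ m := by
        have : orderOf σ ∣ m := orderOf_dvd_of_pow_eq_one hpow
        rwa [hord] at this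
      have hod : o ∣ d := Nat.dvd_gcd hom h84
      show key σ ∈ F
      rw [hF, List.mem_map]
      refine ⟨(key σ, o), ?_, rfl⟩
      rw [List.mem_filter]
      refine ⟨ho, ?_⟩
      have : d % o = 0 := Nat.mod_eq_zero_of_dvd hod
      show Nat.beq (d % o) 0 = true
      rw [this]; rfl
    · intro hcF
      have hcF' : c ∈ F := hcF
      rw [hF, List.mem_map] at hcF'
      obtain ⟨⟨c', o⟩, hp, rfl⟩ := hcF'
      rw [List.mem_filter] at hp
      obtain ⟨hpE, hpd⟩ := hp
      have hod : o ∣ d := by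
        have h5 : d % o = 0 := by
          have h6 : Nat.beq (d % o) 0 = true := hpd
          exact Nat.eq_of_beq_eq_true h6
        exact Nat.dvd_of_mod_eq_zero h5
      obtain ⟨σ, hσ, hk, hord, _⟩ := hs _ hpE
      have hom : o ∣ m := dvd_trans hod (Nat.gcd_dvd_left m 84)
      refine ⟨σ, ⟨hσ, ?_⟩, hk⟩
      have h7 : orderOf σ ∣ m := by
        have h8 : orderOf σ = o := hord
        rw [h8]; exact hom
      exact orderOf_dvd_iff_pow_eq_one.1 h7
  have h5 : ({c | c ∈ F} : Set ℕ) = ↑F.toFinset := by ext c; simp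
  rw [h1, h2, ← h3, h4, h5, Set.ncard_coe_finset, List.toFinset_card_of_nodup hFnd, hF,
    List.length_map]

end General

end Cfsg.Agent.Lib.Helper60.OT
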