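import Cfsg.Agent.Lib.Helper60.OTCode
import Cfsg.Agent.Lib.Helper60.OTCount
import Cfsg.Agent.Lib.Helper60.OTGen

set_option autoImplicit false

/-!
# Order types (helper60): tuples of permutations of `Fin 8` packed into one number

An element `f : Fin K → Equiv.Perm (Fin 8)` is coded by the number `keyK K f` whose digits in
base `8` are the values of the `f s`.  The product of keys `mulK` is written with the basic
operations of `ℕ`, so that the kernel evaluates it quickly.
-/

namespace Cfsg.Agent.Lib.Helper60.OT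

/-- evaluate `v` first and pass the numeral on -/
def forceN {α : Type} (v : ℕ) (k : ℕ → α) : α :=
  match v with
  | 0 => k 0
  | Nat.succ v' => k (Nat.succ v')

theorem forceN_eq {α : Type} (v : ℕ) (k : ℕ → α) : forceN v k = k v := by
  cases v <;> rfl

theorem blt_iff (x y : ℕ) : Nat.blt x y = true ↔ x < y := by rw [Nat.blt_eq]

/-- the `j`-th digit in base 8 -/
def d8 (x j : ℕ) : ℕ := Nat.mod (Nat.div x (Nat.pow 8 j)) 8

theorem d8_eq (x j : ℕ) : d8 x j = x / 8 ^ j % 8 := rfl

theorem d8_lt (x j : ℕ) : d8 x j < 8 := Nat.mod_lt _ (by norm_num)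

/-- product of two packed permutations of `Fin 8`: `(x * y) i = x (y i)` -/
def mul8 (x y : ℕ) : ℕ :=
  Nat.add (d8 x (d8 y 0)) (Nat.mul 8 (
  Nat.add (d8 x (d8 y 1)) (Nat.mul 8 (
  Nat.add (d8 x (d8 y 2)) (Nat.mul 8 (
  Nat.add (d8 x (d8 y 3)) (Nat.mul 8 (
  Nat.add (d8 x (d8 y 4)) (Nat.mul 8 (
  Nat.add (d8 x (d8 y 5)) (Nat.mul 8 (
  Nat.add (d8 x (d8 y 6)) (Nat.mul 8 (
  d8 x (d8 y 7)))))))))))))))

theorem mul8_eq (x y : ℕ) : mul8 x y =
    d8 x (d8 y 0) + 8 * (d8 x (d8 y 1) + 8 * (d8 x (d8 y 2) + 8 * (d8 x (d8 y 3) + 8 *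
      (d8 x (d8 y 4) + 8 * (d8 x (d8 y 5) + 8 * (d8 x (d8 y 6) + 8 * d8 x (d8 y 7))))))) := rfl

/-- the value of a permutation of `Fin 8` at a number -/
def ev (σ : Equiv.Perm (Fin 8)) (i : ℕ) : ℕ := if h : i < 8 then (σ ⟨i, h⟩).val else 0

theorem ev_lt (σ : Equiv.Perm (Fin 8)) (i : ℕ) : ev σ i < 8 := by
  unfold ev
  split_ifs with h
  · exact (σ ⟨i, h⟩).isLt
  · norm_num

theorem ev_mul (σ τ : Equiv.Perm (Fin 8)) (i : ℕ) (hi : i < 8) :
    ev σ (ev τ i) = ev (σ * τ) i := by
  have h1 : ev τ i = (τ ⟨i, hi⟩).val := by unfold ev; rw [dif_pos hi]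
  have h2 : ev (σ * τ) i = (σ (τ ⟨i, hi⟩)).val := by unfold ev; rw [dif_pos hi]; rfl
  rw [h1, h2]
  unfold ev
  rw [dif_pos (τ ⟨i, hi⟩).isLt]

/-- the packed code of a permutation of `Fin 8` -/
def pk8 (σ : Equiv.Perm (Fin 8)) : ℕ :=
  ev σ 0 + 8 * (ev σ 1 + 8 * (ev σ 2 + 8 * (ev σ 3 + 8 * (ev σ 4 + 8 * (ev σ 5 + 8 *
    (ev σ 6 + 8 * ev σ 7))))))

theorem pk8_lt (σ : Equiv.Perm (Fin 8)) : pk8 σ < 16777216 := by
  have h0 := ev_lt σ 0; have h1 := ev_lt σ 1; have h2 := ev_lt σ 2; have h3 := ev_lt σ 3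
  have h4 := ev_lt σ 4; have h5 := ev_lt σ 5; have h6 := ev_lt σ 6; have h7 := ev_lt σ 7
  unfold pk8
  omega

theorem d8_pack (a0 a1 a2 a3 a4 a5 a6 a7 : ℕ) (h0 : a0 < 8) (h1 : a1 < 8) (h2 : a2 < 8)
    (h3 : a3 < 8) (h4 : a4 < 8) (h5 : a5 < 8) (h6 : a6 < 8) (h7 : a7 < 8) :
    d8 (a0 + 8 * (a1 + 8 * (a2 + 8 * (a3 + 8 * (a4 + 8 * (a5 + 8 * (a6 + 8 * a7))))))) 0 = a0 ∧
    d8 (a0 + 8 * (a1 + 8 * (a2 + 8 * (a3 + 8 * (a4 + 8 * (a5 + 8 * (a6 + 8 * a7))))))) 1 = a1 ∧
    d8 (a0 + 8 * (a1 + 8 * (a2 + 8 * (a3 + 8 * (a4 + 8 * (a5 + 8 * (a6 + 8 * a7))))))) 2 = a2 ∧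
    d8 (a0 + 8 * (a1 + 8 * (a2 + 8 * (a3 + 8 * (a4 + 8 * (a5 + 8 * (a6 + 8 * a7))))))) 3 = a3 ∧
    d8 (a0 + 8 * (a1 + 8 * (a2 + 8 * (a3 + 8 * (a4 + 8 * (a5 + 8 * (a6 + 8 * a7))))))) 4 = a4 ∧
    d8 (a0 + 8 * (a1 + 8 * (a2 + 8 * (a3 + 8 * (a4 + 8 * (a5 + 8 * (a6 + 8 * a7))))))) 5 = a5 ∧
    d8 (a0 + 8 * (a1 + 8 * (a2 + 8 * (a3 + 8 * (a4 + 8 * (a5 + 8 * (a6 + 8 * a7))))))) 6 = a6 ∧
    d8 (a0 + 8 * (a1 + 8 * (a2 + 8 * (a3 + 8 * (a4 + 8 * (a5 + 8 * (a6 + 8 * a7))))))) 7 = a7 := by
  simp only [d8_eq]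
  norm_num
  refine ⟨?_, ?_, ?_, ?_, ?_, ?_, ?_, ?_⟩ <;> omega

theorem d8_pk8 (σ : Equiv.Perm (Fin 8)) (j : ℕ) (hj : j < 8) : d8 (pk8 σ) j = ev σ j := by
  have h := d8_pack (ev σ 0) (ev σ 1) (ev σ 2) (ev σ 3) (ev σ 4) (ev σ 5) (ev σ 6) (ev σ 7)
    (ev_lt σ 0) (ev_lt σ 1) (ev_lt σ 2) (ev_lt σ 3) (ev_lt σ 4) (ev_lt σ 5) (ev_lt σ 6) (ev_lt σ 7)
  obtain ⟨h0, h1, h2, h3, h4, h5, h6, h7⟩ := h
  unfold pk8
  interval_cases j
  · exact h0
  · exact h1
  · exact h2
  · exact h3
  · exact h4
  · exact h5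
  · exact h6
  · exact h7

theorem mul8_pk8 (σ τ : Equiv.Perm (Fin 8)) : mul8 (pk8 σ) (pk8 τ) = pk8 (σ * τ) := by
  rw [mul8_eq, d8_pk8 τ 0 (by norm_num), d8_pk8 τ 1 (by norm_num), d8_pk8 τ 2 (by norm_num),
    d8_pk8 τ 3 (by norm_num), d8_pk8 τ 4 (by norm_num), d8_pk8 τ 5 (by norm_num),
    d8_pk8 τ 6 (by norm_num), d8_pk8 τ 7 (by norm_num),
    d8_pk8 σ _ (ev_lt τ 0), d8_pk8 σ _ (ev_lt τ 1), d8_pk8 σ _ (ev_lt τ 2),
    d8_pk8 σ _ (ev_lt τ 3), d8_pk8 σ _ (ev_lt τ 4), d8_pk8 σ _ (ev_lt τ 5),
    d8_pk8 σ _ (ev_lt τ 6), d8_pk8 σ _ (ev_lt τ 7),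
    ev_mul σ τ 0 (by norm_num), ev_mul σ τ 1 (by norm_num), ev_mul σ τ 2 (by norm_num),
    ev_mul σ τ 3 (by norm_num), ev_mul σ τ 4 (by norm_num), ev_mul σ τ 5 (by norm_num),
    ev_mul σ τ 6 (by norm_num), ev_mul σ τ 7 (by norm_num)]
  rfl

theorem pk8_inj : Function.Injective pk8 := by
  intro σ τ h
  have key : ∀ j, j < 8 → ev σ j = ev τ j := by
    intro j hj
    rw [← d8_pk8 σ j hj, h, d8_pk8 τ j hj]
  apply Equiv.ext
  intro i
  apply Fin.ext
  have h1 := key i.val i.isLt
  unfold ev at h1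
  rw [dif_pos i.isLt, dif_pos i.isLt] at h1
  exact h1

theorem pk8_one : pk8 1 = 16434824 := by
  unfold pk8 ev
  simp

/-- `c` is the packed code of a permutation of `Fin 8` -/
def valid8 (c : ℕ) : Bool :=
  Nat.blt c 16777216 &&
    nodupN [d8 c 0, d8 c 1, d8 c 2, d8 c 3, d8 c 4, d8 c 5, d8 c 6, d8 c 7]

theorem exists_of_valid8 (c : ℕ) (h : valid8 c = true) : ∃ σ : Equiv.Perm (Fin 8), pk8 σ = c := by
  unfold valid8 at h
  simp only [Bool.and_eq_true, Nat.blt_eq] at h
  obtain ⟨hlt, hnd⟩ := h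
  have hnd' := nodup_of_nodupN _ hnd
  let φ : Fin 8 → Fin 8 := fun i => ⟨d8 c i.val, d8_lt c i.val⟩
  have e : [d8 c 0, d8 c 1, d8 c 2, d8 c 3, d8 c 4, d8 c 5, d8 c 6, d8 c 7] =
      List.ofFn (fun i : Fin 8 => d8 c i.val) := by
    simp [List.ofFn_succ]
  have hinj : Function.Injective φ := by
    intro i j hij
    have h1 : d8 c i.val = d8 c j.val := congrArg Fin.val hij
    rw [e] at hnd'
    exact List.nodup_ofFn.1 hnd' h1
  have hb := Finite.injective_iff_bijective.1 hinj
  refine ⟨Equiv.ofBijective φ hb, ?_⟩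
  have hev : ∀ j, j < 8 → ev (Equiv.ofBijective φ hb) j = d8 c j := by
    intro j hj
    unfold ev
    rw [dif_pos hj]
    rfl
  unfold pk8
  rw [hev 0 (by norm_num), hev 1 (by norm_num), hev 2 (by norm_num), hev 3 (by norm_num),
    hev 4 (by norm_num), hev 5 (by norm_num), hev 6 (by norm_num), hev 7 (by norm_num)]
  simp only [d8_eq]
  norm_num
  omega

/-! ### Tuples -/

/-- the ambient group -/
abbrev PK (K : ℕ) : Type := Fin K → Equiv.Perm (Fin 8)

/-- the key of a tuple of permutations -/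
def keyK : (K : ℕ) → PK K → ℕ
  | 0, _ => 0
  | K + 1, f => pk8 (f 0) + 16777216 * keyK K (fun i => f i.succ)

theorem keyK_succ (K : ℕ) (f : PK (K + 1)) :
    keyK (K + 1) f = pk8 (f 0) + 16777216 * keyK K (fun i => f i.succ) := rfl

/-- product of keys, segment by segment -/
def mulGo : ℕ → ℕ → ℕ → ℕ
  | 0, _, _ => 0
  | K + 1, a, b => Nat.add (mul8 (Nat.mod a 16777216) (Nat.mod b 16777216))
      (Nat.mul 16777216 (mulGo K (Nat.div a 16777216) (Nat.div b 16777216)))

/-- product of keys -/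
def mulK (K a b : ℕ) : ℕ := forceN a (fun a' => forceN b (fun b' => mulGo K a' b'))

/-- the key of the identity -/
def idK : ℕ → ℕ
  | 0 => 0
  | K + 1 => Nat.add 16434824 (Nat.mul 16777216 (idK K))

theorem mod_key (a b : ℕ) (h : a < 16777216) : Nat.mod (a + 16777216 * b) 16777216 = a := by
  show (a + 16777216 * b) % 16777216 = a
  omega

theorem div_key (a b : ℕ) (h : a < 16777216) : Nat.div (a + 16777216 * b) 16777216 = b := by
  show (a + 16777216 * b) / 16777216 = b
  omega

theorem mulGo_key (K : ℕ) (f g : PK K) : mulGo K (keyK K f) (keyK K g) = keyK K (f * g) := by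
  induction K with
  | zero => rfl
  | succ K ih =>
    rw [keyK_succ, keyK_succ, keyK_succ]
    unfold mulGo
    rw [mod_key _ _ (pk8_lt (f 0)), mod_key _ _ (pk8_lt (g 0)), div_key _ _ (pk8_lt (f 0)),
      div_key _ _ (pk8_lt (g 0)), mul8_pk8, ih]
    rfl

theorem mulK_key (K : ℕ) (f g : PK K) : mulK K (keyK K f) (keyK K g) = keyK K (f * g) := by
  unfold mulK
  rw [forceN_eq, forceN_eq, mulGo_key]

theorem keyK_inj (K : ℕ) : Function.Injective (keyK K) := by
  induction K with
  | zero => intro f g _; funext i; exact i.elim0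
  | succ K ih =>
    intro f g h
    rw [keyK_succ, keyK_succ] at h
    have hf := pk8_lt (f 0)
    have hg := pk8_lt (g 0)
    have h1 : pk8 (f 0) = pk8 (g 0) := by omega
    have h2 : keyK K (fun i => f i.succ) = keyK K (fun i => g i.succ) := by omega
    have h3 := pk8_inj h1
    have h4 := ih h2
    funext i
    exact Fin.cases h3 (fun j => congrFun h4 j) i

theorem keyK_one (K : ℕ) : keyK K 1 = idK K := by
  induction K with
  | zero => rfl
  | succ K ih =>
    show pk8 1 + 16777216 * keyK K 1 = idK (K + 1)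
    rw [ih, pk8_one]
    rfl

theorem beq_key_one (K : ℕ) (τ : PK K) : Nat.beq (keyK K τ) (idK K) = true ↔ τ = 1 := by
  constructor
  · intro h
    have h1 := Nat.eq_of_beq_eq_true h
    rw [← keyK_one] at h1
    exact keyK_inj K h1
  · intro h
    rw [h, keyK_one]
    exact Nat.beq_refl _

/-- `a` is the key of a tuple -/
def validK : ℕ → ℕ → Bool
  | 0, a => Nat.beq a 0
  | K + 1, a => valid8 (Nat.mod a 16777216) && validK K (Nat.div a 16777216)

theorem exists_of_validK (K : ℕ) : ∀ a, validK K a = true → ∃ f : PK K, keyK K f = a := by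
  induction K with
  | zero =>
    intro a h
    refine ⟨fun i => i.elim0, ?_⟩
    have h1 : a = 0 := Nat.eq_of_beq_eq_true h
    rw [h1]
    rfl
  | succ K ih =>
    intro a h
    simp only [validK, Bool.and_eq_true] at h
    obtain ⟨σ, hσ⟩ := exists_of_valid8 _ h.1
    obtain ⟨f, hf⟩ := ih _ h.2
    refine ⟨Fin.cons σ f, ?_⟩
    rw [keyK_succ]
    have e1 : (Fin.cons σ f : PK (K + 1)) 0 = σ := rfl
    have e2 : (fun i : Fin K => (Fin.cons σ f : PK (K + 1)) i.succ) = f := by
      funext i
      simp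
    rw [e1, e2, hσ, hf]
    exact Nat.mod_add_div a 16777216

/-! ### Search trees of elements -/

/-- a search tree; a node carries the key of an element, the key of its parent in a spanning
tree of the Cayley graph, the index of the generator leading to it, its depth and its order -/
inductive BT : Type
  | leaf : BT
  | node (l : BT) (key par j dep ord : ℕ) (r : BT) : BT

/-- an entry of a search tree -/
structure Ent where
  /-- key of the element -/
  key : ℕ
  /-- key of the parent -/
  par : ℕ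
  /-- index of the generator -/
  j : ℕ
  /-- depth -/
  dep : ℕ
  /-- order -/
  ord : ℕ

namespace BT

/-- the entries in order -/
def ents : BT → List Ent
  | leaf => []
  | node l key par j dep ord r => ents l ++ ⟨key, par, j, dep, ord⟩ :: ents r

/-- `depth + 1` of the entry with key `x`, or `0` -/
def look : BT → ℕ → ℕ
  | leaf, _ => 0
  | node l key _ _ dep _ r, x =>
    bif Nat.blt x key then look l x else bif Nat.blt key x then look r x else Nat.succ dep

/-- a test on all entries -/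
def all (p : ℕ → ℕ → ℕ → ℕ → ℕ → Bool) : BT → Bool
  | leaf => true
  | node l key par j dep ord r => p key par j dep ord && (all p l && all p r)

/-- the keys are increasing and within bounds -/
def bnd : BT → ℕ → ℕ → Bool
  | leaf, _, _ => true
  | node l key _ _ _ _ r, lo, hi =>
    Nat.ble lo key && Nat.blt key hi && (bnd l lo key && bnd r (Nat.succ key) hi)

/-- the number of entries whose order divides `d` -/
def cnt : BT → ℕ → ℕ
  | leaf, _ => 0
  | node l _ _ _ _ ord r, d =>
    Nat.add (cnt l d) (Nat.add (bif Nat.beq (Nat.mod d ord) 0 then 1 else 0) (cnt r d))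

theorem look_spec (T : BT) (x : ℕ) (h : T.look x ≠ 0) :
    ∃ e ∈ T.ents, e.key = x ∧ T.look x = Nat.succ e.dep := by
  induction T with
  | leaf => exact absurd rfl h
  | node l key par j dep ord r ihl ihr =>
    cases h1 : Nat.blt x key with
    | true =>
      have e1 : (node l key par j dep ord r).look x = l.look x := by
        simp only [look, h1, cond_true]
      rw [e1] at h ⊢
      obtain ⟨e, he, hk⟩ := ihl h
      exact ⟨e, by simp [ents, he], hk⟩
    | false =>
      cases h2 : Nat.blt key x with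
      | true =>
        have e1 : (node l key par j dep ord r).look x = r.look x := by
          simp only [look, h1, h2, cond_true, cond_false]
        rw [e1] at h ⊢
        obtain ⟨e, he, hk⟩ := ihr h
        exact ⟨e, by simp [ents, he], hk⟩
      | false =>
        have e1 : (node l key par j dep ord r).look x = Nat.succ dep := by
          simp only [look, h1, h2, cond_false]
        have h3 : ¬ x < key := by
          intro h3
          have := (blt_iff _ _).2 h3
          rw [h1] at this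
          exact Bool.false_ne_true this
        have h4 : ¬ key < x := by
          intro h4
          have := (blt_iff _ _).2 h4
          rw [h2] at this
          exact Bool.false_ne_true this
        refine ⟨⟨key, par, j, dep, ord⟩, by simp [ents], ?_, e1⟩
        show key = x
        omega

theorem all_spec (p : ℕ → ℕ → ℕ → ℕ → ℕ → Bool) (T : BT) (h : T.all p = true) :
    ∀ e ∈ T.ents, p e.key e.par e.j e.dep e.ord = true := by
  induction T with
  | leaf => intro e he; simp [ents] at he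
  | node l key par j dep ord r ihl ihr =>
    intro e he
    simp only [all, Bool.and_eq_true] at h
    simp only [ents, List.mem_append, List.mem_cons] at he
    rcases he with he | rfl | he
    · exact ihl h.2.1 e he
    · exact h.1
    · exact ihr h.2.2 e he

theorem bnd_spec (T : BT) : ∀ lo hi, T.bnd lo hi = true →
    (T.ents.map Ent.key).Pairwise (· < ·) ∧ ∀ e ∈ T.ents, lo ≤ e.key ∧ e.key < hi := by
  induction T with
  | leaf => intro lo hi _; simp [ents]
  | node l key par j dep ord r ihl ihr =>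
    intro lo hi h
    simp only [bnd, Bool.and_eq_true, Nat.ble_eq, Nat.blt_eq] at h
    obtain ⟨⟨h1, h2⟩, h3, h4⟩ := h
    obtain ⟨pl, bl⟩ := ihl lo key h3
    obtain ⟨pr, br⟩ := ihr (Nat.succ key) hi h4
    constructor
    · simp only [ents, List.map_append, List.map_cons]
      rw [List.pairwise_append]
      refine ⟨pl, ?_, ?_⟩
      · rw [List.pairwise_cons]
        refine ⟨?_, pr⟩
        intro a ha
        obtain ⟨e, he, rfl⟩ := List.mem_map.1 ha
        have := (br e he).1
        exact this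
      · intro a ha b hb
        obtain ⟨e, he, rfl⟩ := List.mem_map.1 ha
        have h5 := (bl e he).2
        rcases List.mem_cons.1 hb with rfl | hb
        · exact h5
        · obtain ⟨e', he', rfl⟩ := List.mem_map.1 hb
          have h6 : Nat.succ key ≤ e'.key := (br e' he').1
          exact lt_trans h5 h6
    · intro e he
      simp only [ents, List.mem_append, List.mem_cons] at he
      rcases he with he | rfl | he
      · have := bl e he
        exact ⟨this.1, lt_trans this.2 h2⟩
      · exact ⟨h1, h2⟩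
      · have := br e he
        exact ⟨le_trans h1 (le_trans (Nat.le_succ key) this.1), this.2⟩

theorem cnt_eq (T : BT) (d : ℕ) :
    T.cnt d = ((T.ents.map (fun e => (e.key, e.ord))).filter
      (fun p => Nat.beq (Nat.mod d p.2) 0)).length := by
  induction T with
  | leaf => rfl
  | node l key par j dep ord r ihl ihr =>
    simp only [cnt, ents, List.map_append, List.map_cons, List.filter_append, List.filter_cons,
      List.length_append]
    rw [ihl, ihr]
    cases Nat.beq (Nat.mod d ord) 0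
    · simp
    · simp
      omega

end BT

/-! ### Blocks -/

/-- the subgroup generated by the tuples whose keys are in `gs` -/
def blkK (K : ℕ) (gs : List ℕ) : Subgroup (PK K) := Subgroup.closure {f | keyK K f ∈ gs}

/-- the `j`-th entry of a list, with default `e` -/
def nthg : List ℕ → ℕ → ℕ → ℕ
  | [], _, e => e
  | g :: _, 0, _ => g
  | _ :: l, j + 1, e => nthg l j e

theorem nthg_mem (l : List ℕ) (j e : ℕ) : nthg l j e = e ∨ nthg l j e ∈ l := by
  induction l generalizing j with
  | nil => left; rfl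
  | cons g l ih =>
    cases j with
    | zero => right; simp [nthg]
    | succ j =>
      rcases ih j with h | h
      · left; simpa [nthg] using h
      · right; simp only [nthg]; exact List.mem_cons_of_mem _ h

/-- the order of the element with key `x` (if it divides 84), by a chain of powers; `e` is the
key of the identity -/
def ordK (K e x : ℕ) : ℕ :=
  bif Nat.beq x e then 1 else
  forceN (mulK K x x) fun p2 => bif Nat.beq p2 e then 2 else
  forceN (mulK K p2 x) fun p3 => bif Nat.beq p3 e then 3 else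
  forceN (mulK K p2 p2) fun p4 => bif Nat.beq p4 e then 4 else
  forceN (mulK K p3 p3) fun p6 => bif Nat.beq p6 e then 6 else
  forceN (mulK K p6 x) fun p7 => bif Nat.beq p7 e then 7 else
  forceN (mulK K p6 p6) fun p12 => bif Nat.beq p12 e then 12 else
  forceN (mulK K p7 p7) fun p14 => bif Nat.beq p14 e then 14 else
  forceN (mulK K p14 p7) fun p21 => bif Nat.beq p21 e then 21 else
  forceN (mulK K p14 p14) fun p28 => bif Nat.beq p28 e then 28 else
  forceN (mulK K p21 p21) fun p42 => bif Nat.beq p42 e then 42 else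
  forceN (mulK K p42 p42) fun p84 => bif Nat.beq p84 e then 84 else 0

theorem ordK_spec (K : ℕ) (σ : PK K) (o : ℕ) (h : ordK K (idK K) (keyK K σ) = o) (ho : o ≠ 0) :
    orderOf σ = o ∧ o ∣ 84 := by
  have e2 : mulK K (keyK K σ) (keyK K σ) = keyK K (σ ^ 2) := by rw [mulK_key, pow_two]
  have e3 : mulK K (keyK K (σ ^ 2)) (keyK K σ) = keyK K (σ ^ 3) := by rw [mulK_key, ← pow_succ]
  have e4 : mulK K (keyK K (σ ^ 2)) (keyK K (σ ^ 2)) = keyK K (σ ^ 4) := by
    rw [mulK_key, ← pow_add]
  have e6 : mulK K (keyK K (σ ^ 3)) (keyK K (σ ^ 3)) = keyK K (σ ^ 6) := by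
    rw [mulK_key, ← pow_add]
  have e7 : mulK K (keyK K (σ ^ 6)) (keyK K σ) = keyK K (σ ^ 7) := by rw [mulK_key, ← pow_succ]
  have e12 : mulK K (keyK K (σ ^ 6)) (keyK K (σ ^ 6)) = keyK K (σ ^ 12) := by
    rw [mulK_key, ← pow_add]
  have e14 : mulK K (keyK K (σ ^ 7)) (keyK K (σ ^ 7)) = keyK K (σ ^ 14) := by
    rw [mulK_key, ← pow_add]
  have e21 : mulK K (keyK K (σ ^ 14)) (keyK K (σ ^ 7)) = keyK K (σ ^ 21) := by
    rw [mulK_key, ← pow_add]
  have e28 : mulK K (keyK K (σ ^ 14)) (keyK K (σ ^ 14)) = keyK K (σ ^ 28) := by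
    rw [mulK_key, ← pow_add]
  have e42 : mulK K (keyK K (σ ^ 21)) (keyK K (σ ^ 21)) = keyK K (σ ^ 42) := by
    rw [mulK_key, ← pow_add]
  have e84 : mulK K (keyK K (σ ^ 42)) (keyK K (σ ^ 42)) = keyK K (σ ^ 84) := by
    rw [mulK_key, ← pow_add]
  have e1 : keyK K σ = keyK K (σ ^ 1) := by rw [pow_one]
  unfold ordK at h
  simp only [forceN_eq, e2, e3, e4, e6, e7, e12, e14, e21, e28, e42, e84] at h
  rw [e1] at h
  simp only [cond_eq_ite, beq_key_one] at h
  have fin : ∀ d : ℕ, 0 < d → d ∣ 84 → σ ^ d = 1 →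
      (∀ d', d' ∣ d → d' < d → σ ^ d' ≠ 1) → d = o → orderOf σ = o ∧ o ∣ 84 := by
    intro d hd0 hd84 hd hp hdo
    rw [← hdo]
    exact ⟨orderOf_eq_of_first_hit σ d hd0 hd hp, hd84⟩
  split_ifs at h with h1 h2 h3 h4 h6 h7 h12 h14 h21 h28 h42 h84
  · refine fin 1 (by norm_num) (by norm_num) h1 ?_ h
    intro d' hdd hlt
    interval_cases d' <;> first | assumption | omega
  · refine fin 2 (by norm_num) (by norm_num) h2 ?_ h
    intro d' hdd hlt
    interval_cases d' <;> first | assumption | omega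
  · refine fin 3 (by norm_num) (by norm_num) h3 ?_ h
    intro d' hdd hlt
    interval_cases d' <;> first | assumption | omega
  · refine fin 4 (by norm_num) (by norm_num) h4 ?_ h
    intro d' hdd hlt
    interval_cases d' <;> first | assumption | omega
  · refine fin 6 (by norm_num) (by norm_num) h6 ?_ h
    intro d' hdd hlt
    interval_cases d' <;> first | assumption | omega
  · refine fin 7 (by norm_num) (by norm_num) h7 ?_ h
    intro d' hdd hlt
    interval_cases d' <;> first | assumption | omega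
  · refine fin 12 (by norm_num) (by norm_num) h12 ?_ h
    intro d' hdd hlt
    interval_cases d' <;> first | assumption | omega
  · refine fin 14 (by norm_num) (by norm_num) h14 ?_ h
    intro d' hdd hlt
    interval_cases d' <;> first | assumption | omega
  · refine fin 21 (by norm_num) (by norm_num) h21 ?_ h
    intro d' hdd hlt
    interval_cases d' <;> first | assumption | omega
  · refine fin 28 (by norm_num) (by norm_num) h28 ?_ h
    intro d' hdd hlt
    interval_cases d' <;> first | assumption | omega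
  · refine fin 42 (by norm_num) (by norm_num) h42 ?_ h
    intro d' hdd hlt
    interval_cases d' <;> first | assumption | omega
  · refine fin 84 (by norm_num) (by norm_num) h84 ?_ h
    intro d' hdd hlt
    interval_cases d' <;> first | assumption | omega
  · exact absurd h.symm ho

/-- the test on a node: it is the identity or the product of a generator and its parent; the
products with the generators are in the tree; the order is right -/
def nodeOK (K : ℕ) (gs : List ℕ) (e : ℕ) (T : BT) (key par j dep ord : ℕ) : Bool :=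
  (bif Nat.beq dep 0 then Nat.beq key e
    else (Nat.beq (mulK K (nthg gs j e) par) key && Nat.beq (T.look par) dep)) &&
  gs.all (fun g => forceN (mulK K g key) (fun p => Nat.blt 0 (T.look p))) &&
  (Nat.blt 0 ord && Nat.beq (ordK K e key) ord)

/-- the certificate of a block: `T` is the table of the elements of `blkK K gs` -/
def blockOK (K : ℕ) (gs : List ℕ) (T : BT) : Bool :=
  forceN (idK K) (fun e =>
    gs.all (validK K) && Nat.blt 0 (T.look e) && T.bnd 0 (Nat.pow 16777216 K) &&
      T.all (nodeOK K gs e T))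

theorem blockOK_spec (K : ℕ) (gs : List ℕ) (T : BT) (h : blockOK K gs T = true) :
    (∀ σ ∈ blkK K gs, ∃ e ∈ T.ents, e.key = keyK K σ) ∧
    (∀ e ∈ T.ents, ∃ σ ∈ blkK K gs, keyK K σ = e.key ∧ orderOf σ = e.ord ∧ e.ord ∣ 84) ∧
    (T.ents.map Ent.key).Nodup := by
  unfold blockOK at h
  rw [forceN_eq] at h
  simp only [Bool.and_eq_true] at h
  obtain ⟨⟨⟨hv, he⟩, hb⟩, hall⟩ := h
  have hall' := BT.all_spec _ T hall
  have hgen : ∀ g ∈ gs, ∃ ρ : PK K, keyK K ρ = g := fun g hg =>
    exists_of_validK K g (List.all_eq_true.1 hv g hg)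
  -- every entry is the key of an element of the block
  have hsound : ∀ d, ∀ e ∈ T.ents, e.dep = d → ∃ σ ∈ blkK K gs, keyK K σ = e.key := by
    intro d
    induction d using Nat.strong_induction_on with
    | _ d ih =>
      intro e he hd
      have hn := hall' e he
      unfold nodeOK at hn
      simp only [Bool.and_eq_true] at hn
      obtain ⟨⟨h1, _⟩, _⟩ := hn
      by_cases h0 : e.dep = 0
      · have h00 : Nat.beq e.dep 0 = true := by rw [h0]; rfl
        rw [h00, cond_true] at h1
        exact ⟨1, Subgroup.one_mem _, by rw [keyK_one]; exact (Nat.eq_of_beq_eq_true h1).symm⟩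
      · have h00 : Nat.beq e.dep 0 = false := by
          cases hc : Nat.beq e.dep 0 with
          | true => exact absurd (Nat.eq_of_beq_eq_true hc) h0
          | false => rfl
        rw [h00, cond_false, Bool.and_eq_true] at h1
        obtain ⟨hm, hl⟩ := h1
        have hm' := Nat.eq_of_beq_eq_true hm
        have hl' := Nat.eq_of_beq_eq_true hl
        have hne : T.look e.par ≠ 0 := by rw [hl']; exact h0
        obtain ⟨e', he', hk', hd'⟩ := BT.look_spec T e.par hne
        have hlt : e'.dep < d := by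
          rw [hl'] at hd'
          rw [← hd, hd']
          exact Nat.lt_succ_self _
        obtain ⟨τ, hτ, hτk⟩ := ih e'.dep hlt e' he' rfl
        have hρ : ∃ ρ ∈ blkK K gs, keyK K ρ = nthg gs e.j (idK K) := by
          rcases nthg_mem gs e.j (idK K) with h5 | h5
          · exact ⟨1, Subgroup.one_mem _, by rw [keyK_one, h5]⟩
          · obtain ⟨ρ, hρ⟩ := hgen _ h5
            refine ⟨ρ, Subgroup.subset_closure ?_, hρ⟩
            show keyK K ρ ∈ gs
            rw [hρ]; exact h5
        obtain ⟨ρ, hρ, hρk⟩ := hρ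
        refine ⟨ρ * τ, Subgroup.mul_mem _ hρ hτ, ?_⟩
        rw [← mulK_key, hρk, hτk, hk', hm']
  -- the keys of the elements of the block are in the tree
  have hcomp : ∀ σ ∈ blkK K gs, T.look (keyK K σ) ≠ 0 := by
    have key : ∀ g ∈ Submonoid.closure {f : PK K | keyK K f ∈ gs},
        ∀ τ : PK K, T.look (keyK K τ) ≠ 0 → T.look (keyK K (g * τ)) ≠ 0 := by
      intro g hg
      induction hg using Submonoid.closure_induction with
      | mem s hs =>
        intro τ hτ
        obtain ⟨e, he, hk, _⟩ := BT.look_spec T _ hτ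
        have hn := hall' e he
        unfold nodeOK at hn
        simp only [Bool.and_eq_true] at hn
        obtain ⟨⟨_, h2⟩, _⟩ := hn
        have h3 := List.all_eq_true.1 h2 (keyK K s) hs
        rw [forceN_eq, hk, mulK_key] at h3
        have h4 : 0 < T.look (keyK K (s * τ)) := (blt_iff _ _).1 h3
        exact Nat.pos_iff_ne_zero.1 h4
      | one => intro τ hτ; simpa using hτ
      | mul x y _ _ ihx ihy =>
        intro τ hτ
        rw [mul_assoc]
        exact ihx _ (ihy τ hτ)
    intro σ hσ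
    have hσ' : σ ∈ Submonoid.closure {f : PK K | keyK K f ∈ gs} := by
      rw [← Subgroup.closure_toSubmonoid_of_finite]; exact hσ
    have h1 : T.look (keyK K (1 : PK K)) ≠ 0 := by
      rw [keyK_one]
      exact Nat.pos_iff_ne_zero.1 ((blt_iff _ _).1 he)
    have h2 := key σ hσ' 1 h1
    rwa [mul_one] at h2
  refine ⟨?_, ?_, ?_⟩
  · intro σ hσ
    obtain ⟨e, he, hk, _⟩ := BT.look_spec T _ (hcomp σ hσ)
    exact ⟨e, he, hk⟩
  · intro e he
    obtain ⟨σ, hσ, hk⟩ := hsound e.dep e he rfl
    have hn := hall' e he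
    unfold nodeOK at hn
    simp only [Bool.and_eq_true] at hn
    obtain ⟨_, h3, h4⟩ := hn
    have h5 : 0 < e.ord := (blt_iff _ _).1 h3
    have h6 := Nat.eq_of_beq_eq_true h4
    rw [← hk] at h6
    obtain ⟨h7, h8⟩ := ordK_spec K σ e.ord h6 (Nat.pos_iff_ne_zero.1 h5)
    exact ⟨σ, hσ, hk, h7, h8⟩
  · have h1 := (BT.bnd_spec T 0 _ hb).1
    exact h1.imp (fun hab => Nat.ne_of_lt hab)

/-- membership in a block from the table -/
theorem mem_blkK_of_look (K : ℕ) (gs : List ℕ) (T : BT) (h : blockOK K gs T = true) (σ : PK K)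
    (hσ : T.look (keyK K σ) ≠ 0) : σ ∈ blkK K gs := by
  obtain ⟨_, h2, _⟩ := blockOK_spec K gs T h
  obtain ⟨e, he, hk, _⟩ := BT.look_spec T _ hσ
  obtain ⟨τ, hτ, hτk, _⟩ := h2 e he
  have : τ = σ := keyK_inj K (by rw [hτk, hk])
  rw [← this]; exact hτ

/-- the number of solutions of `x ^ m = 1` in a block, from its table -/
theorem tors_blkK (K : ℕ) (gs : List ℕ) (T : BT) (h : blockOK K gs T = true) (m : ℕ) :
    tors m ↥(blkK K gs) = T.cnt (Nat.gcd m 84) := by
  obtain ⟨h1, h2, h3⟩ := blockOK_spec K gs T h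
  rw [BT.cnt_eq]
  unfold tors
  apply card_tors_of_table (blkK K gs) (keyK K) (keyK_inj K)
  · rw [List.map_map]
    exact h3
  · intro σ hσ
    obtain ⟨e, he, hk⟩ := h1 σ hσ
    exact ⟨e.ord, List.mem_map.2 ⟨e, he, by rw [hk]⟩⟩
  · intro p hp
    obtain ⟨e, he, rfl⟩ := List.mem_map.1 hp
    exact h2 e he

/-! ### Solvability -/

/-- the value of a word (a list of indices) in the keys `A` -/
def evalK (K e : ℕ) (A : List ℕ) : List ℕ → ℕ
  | [] => e
  | i :: w => mulK K (nthg A i e) (evalK K e A w)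

/-- for every `t ∈ A` a word `w` in `A` with `a * t = w * a` -/
def pcStep (K e a : ℕ) (A : List ℕ) (ws : List (List ℕ)) : Bool :=
  zipAll (fun t w => Nat.beq (mulK K a t) (mulK K (evalK K e A w) a)) A ws

/-- a chain certificate: each key normalizes the group generated by the later ones -/
def pcOK (K e : ℕ) : List ℕ → List (List (List ℕ)) → Bool
  | [], _ => true
  | _ :: _, [] => false
  | a :: A, ws :: W => validK K a && pcStep K e a A ws && pcOK K e A W

theorem pcOK_valid (K e : ℕ) : ∀ (A : List ℕ) (W : List (List (List ℕ))),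
    pcOK K e A W = true → ∀ t ∈ A, validK K t = true := by
  intro A
  induction A with
  | nil => intro W _ t ht; simp at ht
  | cons a A ih =>
    intro W h t ht
    cases W with
    | nil => simp [pcOK] at h
    | cons ws W =>
      simp only [pcOK, Bool.and_eq_true] at h
      rcases List.mem_cons.1 ht with rfl | ht
      · exact h.1.1
      · exact ih W h.2 t ht

theorem exists_evalK (K : ℕ) (A : List ℕ) (hA : ∀ t ∈ A, ∃ ρ : PK K, keyK K ρ = t)
    (w : List ℕ) : ∃ ω ∈ blkK K A, keyK K ω = evalK K (idK K) A w := by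
  induction w with
  | nil => exact ⟨1, Subgroup.one_mem _, by rw [keyK_one]; rfl⟩
  | cons i w ih =>
    obtain ⟨τ, hτ, hτk⟩ := ih
    have hρ : ∃ ρ ∈ blkK K A, keyK K ρ = nthg A i (idK K) := by
      rcases nthg_mem A i (idK K) with h5 | h5
      · exact ⟨1, Subgroup.one_mem _, by rw [keyK_one, h5]⟩
      · obtain ⟨ρ, hρ⟩ := hA _ h5
        refine ⟨ρ, Subgroup.subset_closure ?_, hρ⟩
        show keyK K ρ ∈ A
        rw [hρ]; exact h5
    obtain ⟨ρ, hρ, hρk⟩ := hρ
    refine ⟨ρ * τ, Subgroup.mul_mem _ hρ hτ, ?_⟩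
    rw [← mulK_key, hρk, hτk]
    rfl

theorem blkK_nil (K : ℕ) : blkK K [] = ⊥ := by
  unfold blkK
  simp

theorem blkK_cons (K : ℕ) (α : PK K) (A : List ℕ) :
    blkK K (keyK K α :: A) = Subgroup.closure (insert α {f | keyK K f ∈ A}) := by
  unfold blkK
  congr 1
  ext f
  simp only [Set.mem_ofPred_eq, List.mem_cons, Set.mem_insert_iff]
  constructor
  · rintro (h | h)
    · exact Or.inl (keyK_inj K h)
    · exact Or.inr h
  · rintro (h | h)
    · exact Or.inl (by rw [h])
    · exact Or.inr h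

theorem isSolvable_of_pcOK (K : ℕ) : ∀ (A : List ℕ) (W : List (List (List ℕ))),
    pcOK K (idK K) A W = true → Group.IsSolvable ↥(blkK K A) := by
  intro A
  induction A with
  | nil =>
    intro W _
    apply Group.isSolvable_of_comm
    have h1 : ∀ a : ↥(blkK K []), a = 1 := by
      intro a
      have ha : (a : PK K) ∈ (⊥ : Subgroup (PK K)) := by
        rw [← blkK_nil]; exact a.2
      exact Subtype.ext (Subgroup.mem_bot.1 ha)
    intro a b
    rw [h1 a, h1 b]
  | cons a A ih =>
    intro W h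
    cases W with
    | nil => simp [pcOK] at h
    | cons ws W =>
      simp only [pcOK, Bool.and_eq_true] at h
      obtain ⟨⟨hva, hstep⟩, hrest⟩ := h
      have hvA : ∀ t ∈ A, ∃ ρ : PK K, keyK K ρ = t := fun t ht =>
        exists_of_validK K t (pcOK_valid K _ A W hrest t ht)
      obtain ⟨α, hα⟩ := exists_of_validK K a hva
      have hsolv : Group.IsSolvable ↥(Subgroup.closure {f : PK K | keyK K f ∈ A}) := ih W hrest
      rw [← hα, blkK_cons]
      apply isSolvable_closure_insert
      intro t ht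
      obtain ⟨w, _, hw⟩ := zipAll_exists _ A ws hstep (keyK K t) ht
      obtain ⟨ω, hω, hωk⟩ := exists_evalK K A hvA w
      have h3 : α * t = ω * α := by
        apply keyK_inj K
        rw [← mulK_key, ← mulK_key, hωk, hα]
        exact Nat.eq_of_beq_eq_true hw
      have h4 : α * t * α⁻¹ = ω := by rw [h3]; group
      rw [h4]; exact hω

/-- the solvability certificate of a block: its generators are among the keys of a chain -/
def solvOK (K : ℕ) (gs A : List ℕ) (W : List (List (List ℕ))) : Bool :=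
  gs.all (fun g => memN g A) && forceN (idK K) (fun e => pcOK K e A W)

theorem isSolvable_blkK (K : ℕ) (gs A : List ℕ) (W : List (List (List ℕ)))
    (h : solvOK K gs A W = true) : Group.IsSolvable ↥(blkK K gs) := by
  unfold solvOK at h
  rw [forceN_eq, Bool.and_eq_true] at h
  obtain ⟨hsub, hpc⟩ := h
  have : Group.IsSolvable ↥(blkK K A) := isSolvable_of_pcOK K A W hpc
  have hle : blkK K gs ≤ blkK K A := by
    apply Subgroup.closure_mono
    intro f hf
    exact (memN_iff _ _).1 (List.all_eq_true.1 hsub _ hf)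
  exact Group.isSolvable_of_isSolvable_injective (Subgroup.inclusion_injective hle)

/-- the non-solvability certificate: the generators are `x, y, z`, and `u = y x y⁻¹`,
`x z u x = z x u` -/
def trickOK (K : ℕ) (x y z u : ℕ) : Bool :=
  validK K x && validK K y && validK K z && validK K u &&
    forceN (idK K) (fun e => !(Nat.beq x e)) &&
    Nat.beq (mulK K u y) (mulK K y x) &&
    Nat.beq (mulK K (mulK K (mulK K x z) u) x) (mulK K (mulK K z x) u)

theorem not_isSolvable_blkK (K : ℕ) (x y z u : ℕ) (h : trickOK K x y z u = true) :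
    ¬ Group.IsSolvable ↥(blkK K [x, y, z]) := by
  unfold trickOK at h
  rw [forceN_eq] at h
  simp only [Bool.and_eq_true, Bool.not_eq_true'] at h
  obtain ⟨⟨⟨⟨⟨⟨hx, hy⟩, hz⟩, hu⟩, hne⟩, h1⟩, h2⟩ := h
  obtain ⟨X, hX⟩ := exists_of_validK K x hx
  obtain ⟨Y, hY⟩ := exists_of_validK K y hy
  obtain ⟨Z, hZ⟩ := exists_of_validK K z hz
  obtain ⟨U, hU⟩ := exists_of_validK K u hu
  have mem : ∀ (F : PK K), keyK K F ∈ [x, y, z] → F ∈ blkK K [x, y, z] := fun F hF =>
    Subgroup.subset_closure hF
  apply not_isSolvable_of_trick (blkK K [x, y, z]) X Y Z U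
    (mem X (by rw [hX]; simp)) (mem Y (by rw [hY]; simp)) (mem Z (by rw [hZ]; simp))
  · intro hX1
    have : Nat.beq x (idK K) = true := by
      rw [← hX, hX1, keyK_one]; exact Nat.beq_refl _
    rw [hne] at this
    exact Bool.false_ne_true this
  · apply keyK_inj K
    rw [← mulK_key, ← mulK_key, hU, hY, hX]
    exact Nat.eq_of_beq_eq_true h1
  · apply keyK_inj K
    rw [← mulK_key, ← mulK_key, ← mulK_key, ← mulK_key, ← mulK_key, hX, hZ, hU]
    exact Nat.eq_of_beq_eq_true h2

end Cfsg.Agent.Lib.Helper60.OT
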