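import Mathlib
import Cfsg.Agent.Lib.Helper44.PGStmt
import Cfsg.Agent.Lib.Helper44.BCFin
import Cfsg.Agent.Lib.Helper44.NegPairs
import Cfsg.Agent.Lib.Helper44.ODet
import Cfsg.Agent.Lib.Helper6.BCDetOne

set_option autoImplicit false

/-! Piece BNEC4 of S2474 (second seat, helper60): necessity of `CritIV` for an element of order
`2 * r` of `Ω(2n+1, q)`. -/

namespace Cfsg.Agent.Lib.Helper60.PGBNEC4

open Matrix Polynomial
open Cfsg.Agent.Lib.Helper44.QSpace Cfsg.Agent.Lib.Helper44.OGroup Cfsg.Agent.Lib.Helper44.OMat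
open Cfsg.Agent.Lib.Helper44.OExt Cfsg.Agent.Lib.Helper44.BCStmt Cfsg.Agent.Lib.Helper44.PGStmt
open Cfsg.Agent.Lib.Helper44.BCFin

universe u

theorem two_ne_zero_of {F : Type u} [Field F] (p : ℕ) [Fact p.Prime] [CharP F p] (hp2 : p ≠ 2) :
    (2 : F) ≠ 0 := by
  have hp : p.Prime := Fact.out
  intro h0
  have h0' : ((2 : ℕ) : F) = 0 := by exact_mod_cast h0
  rw [CharP.cast_eq_zero_iff F p] at h0'
  exact hp2 ((Nat.prime_dvd_prime_iff_eq hp Nat.prime_two).1 h0')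

/-- From `Tor q n r` and `¬ CritII q n r`: the order of `q` modulo `r`. -/
theorem ord_cases (q n r : ℕ) (hn : 3 ≤ n) (hr : r.Prime) (hr2 : r ≠ 2) (hq1 : 1 ≤ q)
    (hnc : ¬ CritII q n r) (hT : Tor q n r) :
    (r ∣ q ^ n + 1 ∧ orderOf ((q : ℕ) : ZMod r) = 2 * n) ∨
    (r ∣ q ^ n - 1 ∧ orderOf ((q : ℕ) : ZMod r) = n ∧ Odd n) := by
  haveI : Fact r.Prime := ⟨hr⟩
  have key1 : ∀ k : ℕ, ((q : ZMod r)) ^ k = 1 → r ∣ q ^ k - 1 := by
    intro k hk
    have h1 : ((q ^ k : ℕ) : ZMod r) = ((1 : ℕ) : ZMod r) := by push_cast; exact hk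
    rw [ZMod.natCast_eq_natCast_iff] at h1
    exact (Nat.modEq_iff_dvd' (Nat.one_le_pow _ _ hq1)).1 h1.symm
  have key2 : ∀ k : ℕ, ((q : ZMod r)) ^ k = -1 → r ∣ q ^ k + 1 := by
    intro k hk
    rw [← ZMod.natCast_eq_zero_iff]
    push_cast
    rw [hk]; ring
  have key1' : ∀ k : ℕ, r ∣ q ^ k - 1 → ((q : ZMod r)) ^ k = 1 := by
    intro k hk
    have h1 : q ^ k ≡ 1 [MOD r] := ((Nat.modEq_iff_dvd' (Nat.one_le_pow _ _ hq1)).2 hk).symm
    have h2 := (ZMod.natCast_eq_natCast_iff _ _ _).2 h1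
    push_cast at h2
    exact h2
  have key2' : ∀ k : ℕ, r ∣ q ^ k + 1 → ((q : ZMod r)) ^ k = -1 := by
    intro k hk
    have h1 := (ZMod.natCast_eq_zero_iff _ _).2 hk
    push_cast at h1
    exact eq_neg_of_add_eq_zero_left h1
  have hne : (1 : ZMod r) ≠ -1 := by
    intro h
    have h3 : ((2 : ℕ) : ZMod r) = 0 := by push_cast; linear_combination h
    rw [ZMod.natCast_eq_zero_iff] at h3
    exact hr2 ((Nat.prime_dvd_prime_iff_eq hr Nat.prime_two).1 h3)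
  have hno : ∀ k : ℕ, 1 ≤ k → k + 1 ≤ n →
      ¬ ((q : ZMod r)) ^ k = 1 ∧ ¬ ((q : ZMod r)) ^ k = -1 := by
    intro k hk1 hk2
    constructor
    · intro h; exact hnc ⟨k, hk1, hk2, Or.inl (key1 k h)⟩
    · intro h; exact hnc ⟨k, hk1, hk2, Or.inr (key2 k h)⟩
  obtain ⟨d, hd⟩ : ∃ d : ℕ, d = orderOf ((q : ℕ) : ZMod r) := ⟨_, rfl⟩
  rw [← hd]
  have hdd : ((q : ZMod r)) ^ d = 1 := by rw [hd]; exact pow_orderOf_eq_one _
  have hdof : ∀ k : ℕ, ((q : ZMod r)) ^ k = 1 → d ∣ k := by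
    intro k hk; rw [hd]; exact orderOf_dvd_of_pow_eq_one hk
  rcases hT with hT | hT
  · right
    have h1 := key1' n hT
    have hdn : d ∣ n := hdof n h1
    have hdpos : 0 < d := Nat.pos_of_dvd_of_pos hdn (by omega)
    have hdeq : d = n := by
      by_contra hne'
      have hlt : d < n := lt_of_le_of_ne (Nat.le_of_dvd (by omega) hdn) hne'
      exact (hno d hdpos (by omega)).1 hdd
    refine ⟨hT, hdeq, ?_⟩
    by_contra hodd
    rw [Nat.not_odd_iff_even] at hodd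
    obtain ⟨k, hk⟩ := hodd
    have h3 : ((q : ZMod r) ^ k - 1) * ((q : ZMod r) ^ k + 1) = 0 := by
      have h4 : (q : ZMod r) ^ n = (q : ZMod r) ^ k * (q : ZMod r) ^ k := by rw [hk, pow_add]
      linear_combination h1 - h4
    rcases mul_eq_zero.1 h3 with h4 | h4
    · exact (hno k (by omega) (by omega)).1 (sub_eq_zero.1 h4)
    · exact (hno k (by omega) (by omega)).2 (eq_neg_of_add_eq_zero_left h4)
  · left
    have h1 := key2' n hT
    have h2n : ((q : ZMod r)) ^ (2 * n) = 1 := by rw [mul_comm, pow_mul, h1]; norm_num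
    have hd2n : d ∣ 2 * n := hdof _ h2n
    have hdpos : 0 < d := Nat.pos_of_dvd_of_pos hd2n (by omega)
    have hdn : ¬ d ∣ n := by
      intro h
      obtain ⟨c, hc⟩ := h
      have h3 : ((q : ZMod r)) ^ n = 1 := by rw [hc, pow_mul, hdd, one_pow]
      rw [h1] at h3
      exact hne h3.symm
    refine ⟨hT, ?_⟩
    have hdeven : Even d := by
      by_contra hodd
      rw [Nat.not_even_iff_odd] at hodd
      have hcop : Nat.Coprime d 2 := (Nat.coprime_comm.1 (Nat.coprime_two_left.2 hodd))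
      exact hdn (hcop.dvd_of_dvd_mul_left hd2n)
    obtain ⟨e, he⟩ := hdeven
    have hepos : 0 < e := by omega
    have hen : e ∣ n := by
      have h3 : 2 * e ∣ 2 * n := by rw [two_mul, ← he]; exact hd2n
      exact (Nat.mul_dvd_mul_iff_left (by norm_num)).1 h3
    have hqe : ((q : ZMod r)) ^ e = -1 := by
      have h3 : ((q : ZMod r) ^ e - 1) * ((q : ZMod r) ^ e + 1) = 0 := by
        have h4 : (q : ZMod r) ^ d = (q : ZMod r) ^ e * (q : ZMod r) ^ e := by rw [he, pow_add]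
        linear_combination hdd - h4
      rcases mul_eq_zero.1 h3 with h4 | h4
      · exfalso
        have h5 : d ∣ e := hdof e (sub_eq_zero.1 h4)
        have h6 := Nat.le_of_dvd hepos h5
        omega
      · exact eq_neg_of_add_eq_zero_left h4
    have heq : e = n := by
      by_contra hne'
      have hlt : e < n := lt_of_le_of_ne (Nat.le_of_dvd (by omega) hen) hne'
      exact (hno e hepos (by omega)).2 hqe
    omega

theorem core (hDec : Decomp.{u}) (hBD : BlockDiag.{u}) (hBF : BlockFacts.{u})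
    (hBDet : BlockDet.{u}) (hGT : GTorBound.{u})
    (hEC : Cfsg.Agent.Lib.Helper44.SPStmt.EvenCard.{u}) (hTr : Transfer.{u})
    (hSO : SignOdd.{u}) (hCnt : Count1.{u}) (hCntP : Count1Plus.{u})
    (F : Type u) [Field F] [Fintype F] (p : ℕ) [Fact p.Prime] [CharP F p] (hp2 : p ≠ 2)
    (n : ℕ) (hn : 3 ≤ n) (ι : Type) [Fintype ι] [DecidableEq ι]
    (hcard : Fintype.card ι = 2 * n + 1)
    (Q : QuadraticForm F (ι → F)) (hS : Sep Q)
    (r : ℕ) (hr : r.Prime) (hr2 : r ≠ 2) (hrp : r ≠ p)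
    (x : ↥(Cfsg.isometryGroup F ⇑Q)) (hmem : x ∈ Cfsg.Omega F ⇑Q) (hord : orderOf x = 2 * r)
    (hnc : ¬ CritII (Fintype.card F) n r) : Tor (Fintype.card F) n (4 * r) := by
  classical
  have hp : p.Prime := Fact.out
  have h2 : (2 : F) ≠ 0 := two_ne_zero_of p hp2
  obtain ⟨q, hq⟩ : ∃ q : ℕ, q = Fintype.card F := ⟨_, rfl⟩
  rw [← hq] at hnc ⊢
  have hqodd : Odd q := by
    obtain ⟨k, -, hk⟩ := FiniteField.card F p
    rw [hq, hk]
    exact (hp.odd_of_ne_two hp2).pow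
  have hq1 : 1 ≤ q := hqodd.pos
  have hrF : ((r : ℕ) : F) ≠ 0 := by
    intro h0
    rw [CharP.cast_eq_zero_iff F p] at h0
    exact hrp ((Nat.prime_dvd_prime_iff_eq hp hr).1 h0).symm
  have hrodd : Odd r := hr.odd_of_ne_two hr2
  have hr3 : 3 ≤ r := by have := hr.two_le; omega
  obtain ⟨Hm, hHm⟩ : ∃ Hm : Matrix ι ι F, Hm = ((x : GL ι F) : Matrix ι ι F) := ⟨_, rfl⟩
  have hpow : ∀ k : ℕ, x ^ k = 1 ↔ Hm ^ k = 1 := fun k => by
    rw [hHm]; exact pow_eq_one_iff_mat _ x k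
  have hHQ : ∀ v, Q (Hm *ᵥ v) = Q v := fun v => by rw [hHm]; exact x.2 v v
  have hHpowQ : ∀ (k : ℕ) v, Q ((Hm ^ k) *ᵥ v) = Q v := by
    intro k
    induction k with
    | zero => intro v; simp
    | succ k ih => intro v; rw [pow_succ, ← Matrix.mulVec_mulVec, ih, hHQ]
  have hdvd : ∀ k : ℕ, Hm ^ k = 1 ↔ 2 * r ∣ k := by
    intro k; rw [← hpow, ← hord]; exact orderOf_dvd_iff_pow_eq_one.symm
  obtain ⟨Tm, hTm⟩ : ∃ Tm : Matrix ι ι F, Tm = Hm ^ 2 := ⟨_, rfl⟩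
  obtain ⟨tm, htm⟩ : ∃ tm : Matrix ι ι F, tm = Hm ^ r := ⟨_, rfl⟩
  have hTr1 : Tm ^ r = 1 := by rw [hTm, ← pow_mul, hdvd]
  have hTne : Tm ≠ 1 := by
    intro h1
    have h3 : Hm ^ 2 = 1 := by rw [← hTm]; exact h1
    rw [hdvd] at h3
    have h4 := Nat.le_of_dvd (by norm_num) h3
    omega
  have htsq : tm ^ 2 = 1 := by rw [htm, ← pow_mul, hdvd, mul_comm]
  have htne : tm ≠ 1 := by
    intro h1
    have h3 : Hm ^ r = 1 := by rw [← htm]; exact h1
    rw [hdvd] at h3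
    have h4 := Nat.le_of_dvd hr.pos h3
    omega
  have hTQ : ∀ v, Q (Tm *ᵥ v) = Q v := by rw [hTm]; exact hHpowQ 2
  have htQ : ∀ v, Q (tm *ᵥ v) = Q v := by rw [htm]; exact hHpowQ r
  have htT : tm * Tm = Tm * tm := by rw [htm, hTm]; exact (Commute.pow_pow_self Hm _ _).eq
  obtain ⟨k₁, k₂, N₁, N₂, T₂, J, hN₁, hN₂, hT₂r, hT₂Q, hT₂fix, hQJ, hTJ⟩ :=
    hDec F ι Q h2 hS Tm r hr.pos hrF hTr1 hTQ
  have hk : k₁ + k₂ = 2 * n + 1 := by
    have h3 := J.finrank_eq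
    rw [Module.finrank_fintype_fun_eq_card, Module.finrank_fintype_fun_eq_card, Fintype.card_sum,
      Fintype.card_fin, Fintype.card_fin, hcard] at h3
    exact h3
  have hk₂pos : 0 < k₂ := by
    rcases Nat.eq_zero_or_pos k₂ with h0 | h0
    · exfalso
      subst h0
      apply hTne
      apply matrix_ext_mulVec
      intro y
      obtain ⟨u, rfl⟩ := J.surjective y
      rw [hTJ, Matrix.one_mulVec]
      congr 1
      funext i
      rcases i with i | i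
      · rfl
      · exact i.elim0
    · exact h0
  -- the torus bound, combined with the failure of `CritII`
  have hbig : ∀ (κ : Type) [Fintype κ] [DecidableEq κ] (N Z : Matrix κ κ F),
      0 < Fintype.card κ → (N + Nᵀ).det ≠ 0 → (∀ v : κ → F, qN N (Z *ᵥ v) = qN N v) →
      Z ^ r = 1 → (∀ v : κ → F, Z *ᵥ v = v → v = 0) →
      2 * n ≤ Fintype.card κ ∧ (Fintype.card κ ≤ 2 * n + 1 → Tor q n r) := by
    intro κ _ _ N Z hpos hdet hZQ hZr hZfix
    obtain ⟨k, hk1, hk2, hk3⟩ := hGT F κ (N + Nᵀ) Z r hpos hdet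
      (Cfsg.Agent.Lib.Helper6.BCDetOne.gram_isom N Z hZQ) (by omega) hZr (by
        intro ℓ hℓ hℓr v hv
        have hℓeq : ℓ = r := (Nat.prime_dvd_prime_iff_eq hℓ hr).1 hℓr
        rw [hℓeq, Nat.div_self hr.pos, pow_one] at hv
        exact hZfix v hv)
    rw [← hq] at hk3
    have hkn : n ≤ k := by
      by_contra hlt
      exact hnc ⟨k, hk1, by omega, hk3⟩
    refine ⟨by omega, fun hle => ?_⟩
    have hkeq : k = n := by omega
    rw [← hkeq]; exact hk3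
  obtain ⟨hk₂ge, hTorn⟩ := hbig (Fin k₂) N₂ T₂ (by rw [Fintype.card_fin]; exact hk₂pos) hN₂ hT₂Q
    hT₂r hT₂fix
  rw [Fintype.card_fin] at hk₂ge hTorn
  have hTor : Tor q n r := hTorn (by omega)
  have hGsymm : (N₂ + N₂ᵀ)ᵀ = N₂ + N₂ᵀ := by
    rw [Matrix.transpose_add, Matrix.transpose_transpose, add_comm]
  have hk₂even : Even k₂ := by
    have h3 := hEC F (Fin k₂) T₂ (N₂ + N₂ᵀ) h2
      (Cfsg.Agent.Lib.Helper6.BCDetOne.gram_isom N₂ T₂ hT₂Q) (by
        rw [hGsymm, ← two_smul F (N₂ + N₂ᵀ), Matrix.det_smul]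
        exact mul_ne_zero (pow_ne_zero _ h2) hN₂) r hrodd hT₂r hT₂fix
    rwa [Fintype.card_fin] at h3
  have hk₂eq : k₂ = 2 * n := by
    obtain ⟨c, hc⟩ := hk₂even
    omega
  have hk₁eq : k₁ = 1 := by omega
  subst hk₂eq
  subst hk₁eq
  obtain ⟨t₁, t₂, htJ, ht₂T⟩ := hBD F ι Tm tm 1 (2 * n) T₂ J hT₂fix hTJ htT
  obtain ⟨htp, -, hti⟩ := hBF F ι 1 (2 * n) J tm t₁ t₂ htJ
  obtain ⟨ht₁Q, ht₂Q⟩ := hti Q N₁ N₂ hQJ htQ
  obtain ⟨ht₁sq, ht₂sq⟩ := (htp 2).1 htsq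
  have h2F : ((2 : ℕ) : F) ≠ 0 := by exact_mod_cast h2
  obtain ⟨a, b, Na, Nb, tb, J', hNa, hNb, htb2, htbQ, htbfix, hQJ', htJ'⟩ :=
    hDec F (Fin (2 * n)) (qN N₂) h2 (sep_qN hN₂) t₂ 2 (by norm_num) h2F ht₂sq ht₂Q
  have hab : a + b = 2 * n := by
    have h3 := J'.finrank_eq
    rw [Module.finrank_fintype_fun_eq_card, Module.finrank_fintype_fun_eq_card, Fintype.card_sum,
      Fintype.card_fin, Fintype.card_fin, Fintype.card_fin] at h3
    exact h3
  obtain ⟨Ta, Tb, hT₂J', hTbtb⟩ := hBD F (Fin (2 * n)) t₂ T₂ a b tb J' htbfix htJ' ht₂T.symm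
  obtain ⟨hT₂p, -, hT₂i⟩ := hBF F (Fin (2 * n)) a b J' T₂ Ta Tb hT₂J'
  obtain ⟨hTaQ, hTbQ⟩ := hT₂i (qN N₂) Na Nb hQJ' hT₂Q
  obtain ⟨hTar, hTbr⟩ := (hT₂p r).1 hT₂r
  have hTafix : ∀ v : Fin a → F, Ta *ᵥ v = v → v = 0 := by
    intro v hv
    have h3 := hT₂J' (Sum.elim v 0)
    rw [Sum.elim_comp_inl, Sum.elim_comp_inr, hv, Matrix.mulVec_zero] at h3
    have h5 := hT₂fix _ h3
    have h6 : Sum.elim v (0 : Fin b → F) = 0 := (LinearEquiv.map_eq_zero_iff J').1 h5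
    funext i
    have h7 := congrFun h6 (Sum.inl i)
    simpa using h7
  have hTbfix : ∀ w : Fin b → F, Tb *ᵥ w = w → w = 0 := by
    intro w hw
    have h3 := hT₂J' (Sum.elim 0 w)
    rw [Sum.elim_comp_inl, Sum.elim_comp_inr, hw, Matrix.mulVec_zero] at h3
    have h5 := hT₂fix _ h3
    have h6 : Sum.elim (0 : Fin a → F) w = 0 := (LinearEquiv.map_eq_zero_iff J').1 h5
    funext i
    have h7 := congrFun h6 (Sum.inr i)
    simpa using h7
  have hab0 : a = 0 ∨ b = 0 := by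
    by_contra hcon
    push_neg at hcon
    obtain ⟨ha, hb⟩ := hcon
    obtain ⟨h3, -⟩ := hbig (Fin a) Na Ta (by rw [Fintype.card_fin]; omega) hNa hTaQ hTar hTafix
    obtain ⟨h4, -⟩ := hbig (Fin b) Nb Tb (by rw [Fintype.card_fin]; omega) hNb hTbQ hTbr hTbfix
    rw [Fintype.card_fin] at h3 h4
    omega
  have ht₂cases : t₂ = 1 ∨ t₂ = -1 := by
    rcases hab0 with h0 | h0
    · right
      subst h0
      have htbneg : ∀ w : Fin b → F, tb *ᵥ w = -w := by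
        intro w
        have h3 : tb *ᵥ (tb *ᵥ w + w) = tb *ᵥ w + w := by
          rw [Matrix.mulVec_add, Matrix.mulVec_mulVec, ← pow_two, htb2, Matrix.one_mulVec,
            add_comm]
        have h4 := htbfix _ h3
        exact eq_neg_of_add_eq_zero_left h4
      apply matrix_ext_mulVec
      intro y
      obtain ⟨u, rfl⟩ := J'.surjective y
      rw [htJ', htbneg, Matrix.neg_mulVec, Matrix.one_mulVec, ← map_neg]
      congr 1
      funext i
      rcases i with i | i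
      · exact i.elim0
      · simp
    · left
      subst h0
      apply matrix_ext_mulVec
      intro y
      obtain ⟨u, rfl⟩ := J'.surjective y
      rw [htJ', Matrix.one_mulVec]
      congr 1
      funext i
      rcases i with i | i
      · rfl
      · exact i.elim0
  have hrmem : x ^ r ∈ Cfsg.Omega F ⇑Q := Subgroup.pow_mem _ hmem r
  have htm' : (((x ^ r : ↥(Cfsg.isometryGroup F ⇑Q)) : GL ι F) : Matrix ι ι F) = tm := by
    rw [mat_pow, ← hHm, htm]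
  have htdet1 : tm.det = 1 := by
    have h1 := Cfsg.Agent.Lib.Helper44.ODet.omega_le_special Q hrmem
    unfold Cfsg.specialIsometryGroup at h1
    rw [MonoidHom.mem_ker] at h1
    have h2' := congrArg (fun z : Fˣ => (z : F)) h1
    simp only [MonoidHom.comp_apply, Subgroup.subtype_apply,
      Matrix.GeneralLinearGroup.val_det_apply, Units.val_one] at h2'
    rw [← htm']; exact h2'
  have htdet : tm.det = t₁.det * t₂.det := hBDet F ι tm 1 (2 * n) t₁ t₂ J htJ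
  have ht₁of : t₁.det = 1 → t₁ = 1 := by
    intro h
    rw [Matrix.det_fin_one] at h
    ext i j
    fin_cases i; fin_cases j
    simpa using h
  have ht₂neg : t₂ = -1 := by
    rcases ht₂cases with h1 | h1
    · exfalso
      apply htne
      have h3 : t₁ = 1 := ht₁of (by
        rw [h1, Matrix.det_one, mul_one] at htdet; rw [← htdet, htdet1])
      have h4 : tm ^ 1 = 1 := (htp 1).2 ⟨by rw [h3, one_pow], by rw [h1, one_pow]⟩
      rwa [pow_one] at h4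
    · exact h1
  have ht₂det : t₂.det = 1 := by
    rw [ht₂neg, Matrix.det_neg, Matrix.det_one, mul_one, Fintype.card_fin]
    exact Even.neg_one_pow ⟨n, by ring⟩
  have ht₁one : t₁ = 1 := ht₁of (by rw [ht₂det, mul_one] at htdet; rw [← htdet, htdet1])
  have hinv : t₂ * t₂ = 1 := by rw [← pow_two]; exact ht₂sq
  obtain ⟨s₂, hs₂mat⟩ : ∃ s₂ : ↥(Cfsg.isometryGroup F ⇑(qN N₂)),
      ((s₂ : GL (Fin (2 * n)) F) : Matrix (Fin (2 * n)) (Fin (2 * n)) F) = t₂ :=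
    ⟨⟨⟨t₂, t₂, hinv, hinv⟩, fun u _ => ht₂Q u⟩, rfl⟩
  have hs₂mem : s₂ ∈ Cfsg.Omega F ⇑(qN N₂) := by
    refine hTr F ι Q h2 hS 1 (2 * n) N₁ N₂ J hN₂ (by omega) hQJ (x ^ r) s₂ ?_ hrmem
    intro u
    rw [htm', hs₂mat, htJ, ht₁one, Matrix.one_mulVec]
  have hs₂sq : s₂ ^ (2 ^ (0 + 1)) = 1 := by
    rw [pow_eq_one_iff_mat, hs₂mat]
    simpa using ht₂sq
  have hs₂neg : (((s₂ ^ (2 ^ 0) : ↥(Cfsg.isometryGroup F ⇑(qN N₂))) : GL (Fin (2 * n)) F) :
      Matrix (Fin (2 * n)) (Fin (2 * n)) F) = -1 := by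
    rw [pow_zero, pow_one, hs₂mat, ht₂neg]
  have hfin : ∀ c : ℕ,
      Nat.card {v : Fin (2 * n) → F // qN N₂ v = 1} = q ^ (n - 1) * c → Even c → 4 ∣ c := by
    intro c hc hceven
    have hdvd2 : 2 ^ (0 + 1) ∣ Nat.card {v : Fin (2 * n) → F // qN N₂ v = 1} := by
      rw [hc]
      exact Dvd.dvd.mul_left (by simpa using hceven.two_dvd) _
    have hnot : ¬ Odd (Nat.card {v : Fin (2 * n) → F // qN N₂ v = 1} / 2 ^ (0 + 1)) := by
      intro hodd
      exact hSO F (Fin (2 * n)) (qN N₂) h2 s₂ 0 hs₂sq hs₂neg hdvd2 hodd hs₂mem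
    rw [hc] at hnot
    obtain ⟨c', hc'⟩ := hceven.two_dvd
    subst hc'
    have h3 : q ^ (n - 1) * (2 * c') / 2 ^ (0 + 1) = q ^ (n - 1) * c' := by
      rw [show q ^ (n - 1) * (2 * c') = 2 * (q ^ (n - 1) * c') by ring]
      simp
    rw [h3, Nat.not_odd_iff_even] at hnot
    have h4 : Even c' := by
      rcases Nat.even_mul.1 hnot with h | h
      · exact absurd h (Nat.not_even_iff_odd.2 hqodd.pow)
      · exact h
    obtain ⟨c'', hc''⟩ := h4
    exact ⟨c'', by omega⟩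
  have h4r : ∀ c : ℕ, 4 ∣ c → r ∣ c → 4 * r ∣ c := by
    intro c h4 hrc
    have hcop2 : Nat.Coprime 2 r := (Nat.coprime_primes Nat.prime_two hr).2 (Ne.symm hr2)
    have hcop4 : Nat.Coprime 4 r := by
      have h5 : Nat.Coprime (2 ^ 2) r := Nat.Coprime.pow_left 2 hcop2
      simpa using h5
    exact hcop4.mul_dvd_of_dvd_of_dvd h4 hrc
  rcases ord_cases q n r hn hr hr2 hq1 hnc hTor with ⟨hdiv, hordq⟩ | ⟨hdiv, hordq, hnodd⟩
  · right
    have hcnt := hCnt F p r n h2 hr hr2 hrp (by rw [← hq]; exact hordq) (by omega)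
      (Fin (2 * n)) N₂ T₂ (by simp) hN₂ hT₂Q hT₂r hT₂fix
    rw [← hq] at hcnt
    exact h4r _ (hfin _ hcnt (Odd.add_one hqodd.pow)) hdiv
  · left
    have hcnt := hCntP F p r n h2 hr hr2 hrp (by rw [← hq]; exact hordq) hnodd
      (Fin (2 * n)) N₂ T₂ (by simp) hN₂ hT₂Q hT₂r hT₂fix
    rw [← hq] at hcnt
    exact h4r _ (hfin _ hcnt (Nat.Odd.sub_odd hqodd.pow odd_one)) hdiv

theorem main : Decomp.{u} → BlockDiag.{u} → BlockFacts.{u} → BlockDet.{u} → GTorBound.{u} →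
    Cfsg.Agent.Lib.Helper44.SPStmt.EvenCard.{u} → Transfer.{u} → SignOdd.{u} → Count1.{u} →
    Count1Plus.{u} → BNecIV.{u} := by
  intro hDec hBD hBF hBDet hGT hEC hTr hSO hCnt hCntP F _ _ p _ _ hp2 n hn r hr hr2 hrp hB
  obtain ⟨g, hg, hord⟩ := hB
  by_cases hc : CritII (Fintype.card F) n r
  · exact Or.inl hc
  · right
    have h2 : (2 : F) ≠ 0 := two_ne_zero_of p hp2
    have hcard : Fintype.card (Unit ⊕ (Fin n ⊕ Fin n)) = 2 * n + 1 := by
      simp; omega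
    exact core hDec hBD hBF hBDet hGT hEC hTr hSO hCnt hCntP F p hp2 n hn _ hcard
      (Cfsg.Agent.Lib.Helper44.NegPairs.oddQ n F)
      (Cfsg.Agent.Lib.Helper44.NegPairs.sep_oddQ h2 n) r hr hr2 hrp g hg hord hc

end Cfsg.Agent.Lib.Helper60.PGBNEC4
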